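import Mathlib
import Cfsg.Agent.Lib.Helper32.BG10Basic
import Cfsg.Agent.S1453

/-!
# B&G 10.3 (job piece BG10-P3 for S1406): `bg10_3`
-/

set_option autoImplicit false

open Cfsg Cfsg.Agent.Lib.Helper32 Cfsg.Agent.Lib.Helper32.BG10

namespace Cfsg.Agent.Lib.Helper20.BG10

universe u

section Abstract

variable {R : Type*} [Group R]

/-- the join of two elementary abelian subgroups centralizing each other is elementary abelian -/
theorem elemAb_sup {p : ℕ} {A B : Subgroup R} (hAc : ∀ a ∈ A, ∀ b ∈ A, a * b = b * a)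
    (hBc : ∀ a ∈ B, ∀ b ∈ B, a * b = b * a) (hAB : ∀ a ∈ A, ∀ b ∈ B, a * b = b * a)
    (hAe : ∀ a ∈ A, a ^ p = 1) (hBe : ∀ a ∈ B, a ^ p = 1) :
    (∀ a ∈ A ⊔ B, ∀ b ∈ A ⊔ B, a * b = b * a) ∧ ∀ a ∈ A ⊔ B, a ^ p = 1 := by
  have hS : A ⊔ B = Subgroup.closure ((A : Set R) ∪ (B : Set R)) := by
    rw [Subgroup.closure_union, Subgroup.closure_eq, Subgroup.closure_eq]
  have h1 : ((A : Set R) ∪ (B : Set R)) ⊆ Subgroup.centralizer ((A : Set R) ∪ (B : Set R)) := by
    intro x hx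
    show x ∈ Subgroup.centralizer ((A : Set R) ∪ (B : Set R))
    rw [Subgroup.mem_centralizer_iff]
    intro y hy
    rcases hx with hx | hx <;> rcases hy with hy | hy
    · exact hAc y hy x hx
    · exact (hAB x hx y hy).symm
    · exact hAB y hy x hx
    · exact hBc y hy x hx
  have h2 : A ⊔ B ≤ Subgroup.centralizer ((A ⊔ B : Subgroup R) : Set R) := by
    rw [hS, Subgroup.centralizer_closure]
    exact (Subgroup.closure_le _).mpr h1
  have hc : ∀ a ∈ A ⊔ B, ∀ b ∈ A ⊔ B, a * b = b * a := by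
    intro a ha b hb
    exact (Subgroup.mem_centralizer_iff.mp (h2 ha) b hb).symm
  refine ⟨hc, ?_⟩
  intro a ha
  have ha' : a ∈ Subgroup.closure ((A : Set R) ∪ (B : Set R)) := hS ▸ ha
  induction ha' using Subgroup.closure_induction with
  | mem x hx =>
    rcases hx with hx | hx
    · exact hAe x hx
    · exact hBe x hx
  | one => exact one_pow p
  | mul x y hx hy ihx ihy =>
    have hcomm : Commute x y := hc x (hS ▸ hx) y (hS ▸ hy)
    rw [hcomm.mul_pow, ihx (hS ▸ hx), ihy (hS ▸ hy), one_mul]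
  | inv x hx ihx => rw [inv_pow, ihx (hS ▸ hx), inv_one]

/-- `Ω₁` of a term of the upper central series is invariant under all automorphisms -/
theorem omega_char {p : ℕ} (n : ℕ) (ψ : R ≃* R) {w : R}
    (hw : w ∈ Subgroup.closure {x : R | x ∈ Subgroup.upperCentralSeries R n ∧ x ^ p = 1}) :
    ψ w ∈ Subgroup.closure {x : R | x ∈ Subgroup.upperCentralSeries R n ∧ x ^ p = 1} := by
  induction hw using Subgroup.closure_induction with
  | mem x hx =>
    apply Subgroup.subset_closure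
    refine ⟨?_, ?_⟩
    · have h := Subgroup.characteristic_iff_map_le.mp
        (inferInstance : (Subgroup.upperCentralSeries R n).Characteristic) ψ
      exact h (Subgroup.mem_map_of_mem _ hx.1)
    · rw [← map_pow, hx.2, map_one]
  | one => rw [map_one]; exact Subgroup.one_mem _
  | mul x y hx hy ihx ihy => rw [map_mul]; exact Subgroup.mul_mem _ ihx ihy
  | inv x hx ihx => rw [map_inv]; exact Subgroup.inv_mem _ ihx

/-- the key step of B&G 10.3: an automorphism of order prime to `p` fixing a maximal elementary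
abelian subgroup `E` of order `p ^ 2` fixes `Ω₁(Z₂)` -/
theorem fix_omega_Z2 [Finite R] {p : ℕ} [Fact p.Prime] {W Zc : Subgroup R}
    (hW : W = Subgroup.closure {x : R | x ∈ Subgroup.upperCentralSeries R 2 ∧ x ^ p = 1})
    (hZ : Zc = Subgroup.closure {x : R | x ∈ Subgroup.center R ∧ x ^ p = 1})
    (hWe : ∀ a ∈ W, a ^ p = 1) (hWcard : Nat.card W = p ^ 2) (hZcard : Nat.card Zc = p)
    (E : Subgroup R) (hEc : ∀ a ∈ E, ∀ b ∈ E, a * b = b * a) (hEe : ∀ a ∈ E, a ^ p = 1)
    (hEmax : ∀ B : Subgroup R, IsElementaryAbelian p B → E ≤ B → B = E)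
    (hEW : ¬ E ≤ Subgroup.centralizer (W : Set R))
    (φ : R ≃* R) (hφE : ∀ e ∈ E, φ e = e) (k : ℕ) (hk : k.Coprime p)
    (hφk : ∀ r : R, (⇑φ)^[k] r = r) : ∀ w ∈ W, φ w = w := by
  have hp := (Fact.out : p.Prime)
  have hWZ2 : W ≤ Subgroup.upperCentralSeries R 2 := by
    rw [hW]; exact (Subgroup.closure_le _).mpr (fun x hx => hx.1)
  have hZcen : Zc ≤ Subgroup.center R := by
    rw [hZ]; exact (Subgroup.closure_le _).mpr (fun x hx => hx.1)
  have hZW : Zc ≤ W := by
    rw [hZ, hW]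
    apply Subgroup.closure_mono
    intro x hx
    refine ⟨?_, hx.2⟩
    have h1 := Subgroup.upperCentralSeries_mono R (show 1 ≤ 2 by norm_num)
    rw [Subgroup.upperCentralSeries_one] at h1
    exact h1 hx.1
  have hWchar : ∀ ψ : R ≃* R, ∀ w ∈ W, ψ w ∈ W := by
    intro ψ w hw
    rw [hW] at hw ⊢
    exact omega_char 2 ψ hw
  have hcen : ∀ c ∈ Zc, ∀ g : R, g * c = c * g := fun c hc g =>
    Subgroup.mem_center_iff.mp (hZcen hc) g
  -- `Zc ≤ E`
  have hZE : Zc ≤ E := by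
    have hZc' : ∀ a ∈ Zc, ∀ b ∈ Zc, a * b = b * a := fun a _ b hb => hcen b hb a
    have hEZ : ∀ a ∈ E, ∀ b ∈ Zc, a * b = b * a := fun a _ b hb => hcen b hb a
    have hZe : ∀ a ∈ Zc, a ^ p = 1 := fun a ha => hWe a (hZW ha)
    obtain ⟨h1, h2⟩ := elemAb_sup hEc hZc' hEZ hEe hZe
    have h3 := hEmax (E ⊔ Zc) ⟨⟨⟨fun a b => Subtype.ext (h1 a a.2 b b.2)⟩⟩, h2⟩ le_sup_left
    rw [← h3]; exact le_sup_right
  -- the element `b`
  obtain ⟨b, hbE, hb⟩ := SetLike.not_le_iff_exists.mp hEW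
  rw [Subgroup.mem_centralizer_iff] at hb
  push Not at hb
  obtain ⟨w₀, hw₀W, hw₀⟩ := hb
  -- the commutator map
  have hd : ∀ u ∈ W, u⁻¹ * b * u * b⁻¹ ∈ Zc := by
    intro u hu
    have h1 : u⁻¹ * b * u * b⁻¹ ∈ Subgroup.center R := by
      have h2 : u⁻¹ ∈ Subgroup.upperCentralSeries R (1 + 1) := hWZ2 (W.inv_mem hu)
      rw [Subgroup.mem_upperCentralSeries_succ_iff] at h2
      have h3 := h2 b
      rw [Subgroup.upperCentralSeries_one, commutatorElement_def, inv_inv] at h3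
      exact h3
    have h4 : u⁻¹ * b * u * b⁻¹ ∈ W := by
      have h5 : b * u * b⁻¹ ∈ W := by simpa using hWchar (MulAut.conj b) u hu
      have h6 := W.mul_mem (W.inv_mem hu) h5
      have h7 : u⁻¹ * b * u * b⁻¹ = u⁻¹ * (b * u * b⁻¹) := by group
      rw [h7]; exact h6
    rw [hZ]; exact Subgroup.subset_closure ⟨h1, hWe _ h4⟩
  -- the kernel
  have hK : W ⊓ Subgroup.centralizer ({b} : Set R) = Zc := by
    have hZK : Zc ≤ W ⊓ Subgroup.centralizer ({b} : Set R) := by
      refine le_inf hZW ?_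
      intro c hc
      rw [Subgroup.mem_centralizer_iff]
      intro h hh
      rw [Set.mem_singleton_iff] at hh
      subst hh
      exact hcen c hc h
    have hKW : W ⊓ Subgroup.centralizer ({b} : Set R) ≤ W := inf_le_left
    have h1 : Nat.card ↥(W ⊓ Subgroup.centralizer ({b} : Set R)) ∣ p ^ 2 :=
      hWcard ▸ Subgroup.card_dvd_of_le hKW
    have h2 : p ∣ Nat.card ↥(W ⊓ Subgroup.centralizer ({b} : Set R)) := by
      have := Subgroup.card_dvd_of_le hZK
      rwa [hZcard] at this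
    obtain ⟨m, hm, hmc⟩ := (Nat.dvd_prime_pow hp).mp h1
    have hm2 : m ≠ 2 := by
      rintro rfl
      have h3 : W ⊓ Subgroup.centralizer ({b} : Set R) = W :=
        Subgroup.eq_of_le_of_card_ge hKW (by rw [hmc, hWcard])
      have h4 : w₀ ∈ Subgroup.centralizer ({b} : Set R) := by
        have h5 : w₀ ∈ W ⊓ Subgroup.centralizer ({b} : Set R) := by
          rw [h3]; exact hw₀W
        exact h5.2
      rw [Subgroup.mem_centralizer_iff] at h4
      exact hw₀ ((h4 b (Set.mem_singleton b)).symm)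
    have hm0 : m ≠ 0 := by
      rintro rfl
      rw [hmc, pow_zero] at h2
      exact hp.one_lt.ne' (Nat.dvd_one.mp h2)
    have hm1 : m = 1 := by omega
    rw [hm1, pow_one] at hmc
    exact (Subgroup.eq_of_le_of_card_ge hZK (by rw [hmc, hZcard])).symm
  -- the main argument
  intro u hu
  have hφu : φ u ∈ W := hWchar φ u hu
  have hφb : φ b = b := hφE b hbE
  have hcZ : u⁻¹ * b * u * b⁻¹ ∈ Zc := hd u hu
  have hdfix : φ (u⁻¹ * b * u * b⁻¹) = u⁻¹ * b * u * b⁻¹ := hφE _ (hZE hcZ)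
  have h1 : (φ u)⁻¹ * b * φ u * b⁻¹ = u⁻¹ * b * u * b⁻¹ := by
    rw [← hdfix]
    simp only [map_mul, map_inv, hφb]
  obtain ⟨c, hc⟩ : ∃ c, c = u⁻¹ * b * u * b⁻¹ := ⟨_, rfl⟩
  rw [← hc] at h1 hcZ
  have hcc : ∀ g : R, g * c = c * g := hcen c hcZ
  obtain ⟨w, hw⟩ : ∃ w, w = u⁻¹ * φ u := ⟨_, rfl⟩
  have hwW : w ∈ W := hw ▸ W.mul_mem (W.inv_mem hu) hφu
  have e1 : b * u * b⁻¹ = c * u := by rw [← hcc u, hc]; group
  have e2 : b * φ u * b⁻¹ = φ u * c := by rw [← h1]; group
  have hwb : b * w = w * b := by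
    have e3 : b * w = (b * u * b⁻¹)⁻¹ * (b * φ u * b⁻¹) * b := by rw [hw]; group
    rw [e3, e1, e2]
    have e4 : (c * u)⁻¹ * (φ u * c) * b = u⁻¹ * (c⁻¹ * (φ u * c)) * b := by group
    have e5 : c⁻¹ * (φ u * c) = φ u := by rw [hcc (φ u)]; group
    rw [e4, e5, hw]
  have hwK : w ∈ W ⊓ Subgroup.centralizer ({b} : Set R) := by
    refine ⟨hwW, ?_⟩
    show w ∈ Subgroup.centralizer ({b} : Set R)
    rw [Subgroup.mem_centralizer_iff]
    intro h hh
    rw [Set.mem_singleton_iff] at hh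
    subst hh
    exact hwb
  rw [hK] at hwK
  have hφw : φ w = w := hφE w (hZE hwK)
  have hφu' : φ u = u * w := by rw [hw]; group
  have hiter : ∀ j : ℕ, (⇑φ)^[j] u = u * w ^ j := by
    intro j
    induction j with
    | zero => simp
    | succ j ih =>
      rw [Function.iterate_succ_apply', ih, map_mul, map_pow, hφw, hφu', pow_succ', mul_assoc]
  have h5 : w ^ k = 1 := by
    have h6 := hiter k
    rw [hφk u] at h6
    exact (mul_eq_left.mp h6.symm)
  have h7 : w ^ p = 1 := hWe w hwW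
  have h8 : w = 1 := by
    have h9 : orderOf w ∣ Nat.gcd k p :=
      Nat.dvd_gcd (orderOf_dvd_of_pow_eq_one h5) (orderOf_dvd_of_pow_eq_one h7)
    rw [Nat.Coprime.gcd_eq_one hk, Nat.dvd_one, orderOf_eq_one_iff] at h9
    exact h9
  rw [hφu', h8, mul_one]

end Abstract

section Concrete

variable {G : Type u} [Group G] [Finite G]

omit [Finite G] in
/-- conjugation by an element of the normalizer, as an automorphism of the subgroup -/
theorem exists_conjAut (P : Subgroup G) {x : G} (hx : x ∈ Subgroup.normalizer (P : Set G)) :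
    ∃ φ : ↥P ≃* ↥P, ∀ y : ↥P, (φ y : G) = x * y * x⁻¹ := by
  have h1 : ∀ y : G, y ∈ P → x * y * x⁻¹ ∈ P := fun y hy =>
    (Subgroup.mem_normalizer_iff.mp hx y).mp hy
  have h2 : ∀ y : G, y ∈ P → x⁻¹ * y * x ∈ P := fun y hy => by
    refine (Subgroup.mem_normalizer_iff.mp hx (x⁻¹ * y * x)).mpr ?_
    have h3 : x * (x⁻¹ * y * x) * x⁻¹ = y := by group
    rw [h3]; exact hy
  exact ⟨{ toFun := fun y => ⟨x * y * x⁻¹, h1 y y.2⟩
           invFun := fun y => ⟨x⁻¹ * y * x, h2 y y.2⟩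
           left_inv := fun y => Subtype.ext (by simp [mul_assoc])
           right_inv := fun y => Subtype.ext (by simp [mul_assoc])
           map_mul' := fun y z => Subtype.ext (by simp [mul_assoc]) }, fun y => rfl⟩

/-- Case A of B&G 10.3: `B` is properly contained in an elementary abelian subgroup -/
theorem bg10_3_caseA (hG : IsMinSimpleOddOrder G) (hUT : UT G) {M : Subgroup G}
    (hM : IsCoatom M) {p : ℕ} (hp : p.Prime) {B B' : Subgroup G} (hBM : B ≤ M)
    (hBc : ∀ a ∈ B, ∀ b ∈ B, a * b = b * a) (hBe : ∀ a ∈ B, a ^ p = 1)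
    (hBcard : Nat.card B = p ^ 2) (hB'c : ∀ a ∈ B', ∀ b ∈ B', a * b = b * a)
    (hB'e : ∀ a ∈ B', a ^ p = 1) (hBB' : B ≤ B') (hne : B' ≠ B) : UniqIn M B := by
  have : Fact p.Prime := ⟨hp⟩
  have hlt : p ^ 2 < Nat.card B' := by
    by_contra h
    push Not at h
    rw [← hBcard] at h
    exact hne (Subgroup.eq_of_le_of_card_ge hBB' h).symm
  have hB'cent : B' ≤ Subgroup.centralizer (B : Set G) := by
    intro y hy
    rw [Subgroup.mem_centralizer_iff]
    intro b hb
    exact hB'c b (hBB' hb) y hy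
  have h3 : ¬ PRankLE p 2 ↥(Subgroup.centralizer (B : Set G)) :=
    not_prankLE_of_le hB'cent hB'c hB'e hlt
  have hK2 : ¬ RankLE 2 ↥(Subgroup.centralizer (B : Set G)) :=
    (not_rankLE_of_not_prankLE hp h3).2
  have hB1 : ¬ RankLE 1 ↥B := by
    intro h
    have h4 : ¬ PRankLE p 1 ↥B := not_prankLE_of_le (le_refl B) hBc hBe (by
      rw [hBcard, pow_one]
      have := hp.one_lt
      nlinarith)
    exact h4 (h p hp)
  have hBtop : B ≠ ⊤ := minSimple_pgroup_ne_top hG (IsPGroup.of_card hBcard)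
  obtain ⟨M', hM', hBM', hU⟩ := uniqIn_of_inUniqueMaximal (hUT B hBtop hB1 (Or.inr hK2))
  have hMM' : M = M' := hU M hM hBM
  rw [hMM']
  exact hU

/-- B&G 10.3 (S1406) from the Uniqueness Theorem and 10.2 -/
theorem bg10_3 (hG : IsMinSimpleOddOrder G) (hUT : UT G) (h2 : H2 G) : H3 G := by
  intro M hM X hXM hXα hr
  obtain ⟨⟨hMaM, hMaπ, hMaidx⟩, -⟩ := h2 M hM
  obtain ⟨p, B, hp, hBle, hBc, hBe, hBcard⟩ := exists_elemAb_of_not_rankLE _ 1 hr
  have : Fact p.Prime := ⟨hp⟩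
  have hBcard2 : Nat.card B = p ^ 2 := hBcard
  have hBMa : B ≤ alphaCore M := hBle.trans inf_le_left
  have hBX : B ≤ Subgroup.centralizer (X : Set G) := hBle.trans inf_le_right
  have hBM : B ≤ M := hBMa.trans hMaM
  have hpMa : p ∣ Nat.card (alphaCore M) := by
    have h1 : Nat.card B ∣ Nat.card (alphaCore M) := Subgroup.card_dvd_of_le hBMa
    rw [hBcard2] at h1
    exact (dvd_pow_self p (by norm_num)).trans h1
  have hpα : p ∈ alpha M := hMaπ p hp hpMa
  have hp2 : p ≠ 2 := by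
    rintro rfl
    have h1 : 2 ∣ Nat.card G := hpMa.trans (Subgroup.card_subgroup_dvd_card _)
    exact (Nat.not_even_iff_odd.mpr hG.1) (even_iff_two_dvd.mpr h1)
  have hpX : ¬ p ∣ Nat.card X := fun h => hXα p hp h hpα
  have hcop : (Nat.card X).Coprime (Nat.card (alphaCore M)) := by
    apply Nat.coprime_of_dvd
    intro q hq hqX hqMa
    exact hXα q hq hqX (hMaπ q hq hqMa)
  have hXtop : X ≠ ⊤ := fun h => hM.1 (top_le_iff.mp (h ▸ hXM))
  have hsol : Group.IsSolvable ↥X := minSimple_solvable hG hXtop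
  have hXN : X ≤ Subgroup.normalizer ((alphaCore M : Subgroup G) : Set G) :=
    hXM.trans (le_normalizer_map_subtype M (piCore (alpha M) ↥M))
  have hBp : IsPGroup p B := IsPGroup.of_card hBcard2
  have hXcB : X ≤ Subgroup.centralizer (B : Set G) := Subgroup.le_centralizer_iff.mp hBX
  have hXB : X ≤ Subgroup.normalizer (B : Set G) :=
    hXcB.trans (Subgroup.centralizer_le_normalizer (B : Set G))
  obtain ⟨P, hPsyl, hXP, hBP⟩ :=
    exists_invariant_sylow_ge X (alphaCore M) hXN hcop hsol hBp hBMa hXB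
  have hPM : P ≤ M := hPsyl.1.trans hMaM
  have hPsylM : P ∈ sylSet p M := by
    refine ⟨hPM, ?_⟩
    rw [hPsyl.2]
    congr 1
    have h1 := Cfsg.Agent.Lib.Helper30.card_eq_card_mul_relIndex hMaM
    have h2' : ¬ p ∣ (alphaCore M).relIndex M := hMaidx p hp hpα
    have h3 : Nat.card (alphaCore M) ≠ 0 := Nat.card_pos.ne'
    have h4 : (alphaCore M).relIndex M ≠ 0 := by
      intro h0
      rw [h0, mul_zero] at h1
      exact (Nat.card_pos.ne' : Nat.card M ≠ 0) h1
    rw [h1, Nat.factorization_mul h3 h4, Finsupp.add_apply,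
      Nat.factorization_eq_zero_of_not_dvd h2', add_zero]
  have hPp : IsPGroup p P := isPGroup_of_mem_sylSet hPsyl
  have hP3 : ¬ PRankLE p 2 ↥P := fun h => hpα.2 (prankLE_of_sylSet hPsylM 2 h)
  suffices hR : ∃ R : Subgroup G, R ≤ M ⊓ Subgroup.centralizer (X : Set G) ∧ UniqIn M R by
    obtain ⟨R, hR1, hR2⟩ := hR
    exact inUniqueMaximal_of_uniqIn hM inf_le_left (hR2.mono hR1)
  by_cases hcase : ∃ B' : Subgroup G, (∀ a ∈ B', ∀ b ∈ B', a * b = b * a) ∧
      (∀ a ∈ B', a ^ p = 1) ∧ B ≤ B' ∧ B' ≠ B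
  · obtain ⟨B', hB'c, hB'e, hBB', hne⟩ := hcase
    exact ⟨B, le_inf hBM hBX,
      bg10_3_caseA hG hUT hM hp hBM hBc hBe hBcard2 hB'c hB'e hBB' hne⟩
  · push Not at hcase
    -- the maximal elementary abelian subgroup `E` of `↥P`
    have hEc : ∀ a ∈ B.subgroupOf P, ∀ b ∈ B.subgroupOf P, a * b = b * a := by
      intro a ha b hb
      rw [Subgroup.mem_subgroupOf] at ha hb
      exact Subtype.ext (hBc _ ha _ hb)
    have hEe : ∀ a ∈ B.subgroupOf P, a ^ p = 1 := by
      intro a ha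
      rw [Subgroup.mem_subgroupOf] at ha
      exact Subtype.ext (hBe _ ha)
    have hEea : IsElementaryAbelian p (B.subgroupOf P) :=
      ⟨⟨⟨fun a b => Subtype.ext (hEc a a.2 b b.2)⟩⟩, hEe⟩
    have hEcard : Nat.card (B.subgroupOf P) = p ^ 2 := by
      rw [Nat.card_congr (Subgroup.subgroupOfEquivOfLe hBP).toEquiv, hBcard2]
    have hEmax : ∀ B₁ : Subgroup ↥P, IsElementaryAbelian p B₁ → B.subgroupOf P ≤ B₁ →
        B₁ = B.subgroupOf P := by
      rintro B₁ ⟨hc, he⟩ hle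
      have h1 : B₁.map P.subtype = B := by
        apply hcase
        · rintro _ ⟨a, ha, rfl⟩ _ ⟨b, hb, rfl⟩
          exact congrArg (fun z : ↥B₁ => ((z : ↥P) : G)) (hc.is_comm.comm ⟨a, ha⟩ ⟨b, hb⟩)
        · rintro _ ⟨a, ha, rfl⟩
          have h1 := congrArg (fun z : ↥P => (z : G)) (he a ha)
          simpa using h1
        · intro b hb
          exact ⟨⟨b, hBP hb⟩, hle (Subgroup.mem_subgroupOf.mpr hb), rfl⟩
      ext y
      rw [Subgroup.mem_subgroupOf, ← h1]
      constructor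
      · intro hy
        exact Subgroup.mem_map_of_mem _ hy
      · rintro ⟨z, hz, hzy⟩
        have hzy' : z = y := Subtype.ext hzy
        rwa [← hzy']
    obtain ⟨hEW, hZcard, ⟨hWea, hWcard⟩, -, -⟩ :=
      Cfsg.Agent.S1453.result p hp2 hPp hP3 (B.subgroupOf P) hEea hEcard hEmax
    obtain ⟨W, hW⟩ : ∃ W : Subgroup ↥P, W = Subgroup.closure
        {x : ↥P | x ∈ Subgroup.upperCentralSeries ↥P 2 ∧ x ^ p = 1} := ⟨_, rfl⟩
    obtain ⟨Zc, hZ⟩ : ∃ Zc : Subgroup ↥P, Zc = Subgroup.closure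
        {x : ↥P | x ∈ Subgroup.center ↥P ∧ x ^ p = 1} := ⟨_, rfl⟩
    rw [← hW] at hEW hWea hWcard
    rw [← hZ] at hZcard
    have hWc : ∀ a ∈ W, ∀ b ∈ W, a * b = b * a := fun a ha b hb =>
      congrArg Subtype.val (hWea.1.is_comm.comm ⟨a, ha⟩ ⟨b, hb⟩)
    have hWe : ∀ a ∈ W, a ^ p = 1 := hWea.2
    have hWchar : ∀ ψ : ↥P ≃* ↥P, ∀ w ∈ W, ψ w ∈ W := by
      intro ψ w hw
      rw [hW] at hw ⊢
      exact omega_char 2 ψ hw
    have hWn : W.Normal := ⟨fun n hn g => by
      have := hWchar (MulAut.conj g) n hn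
      simpa using this⟩
    -- the subgroup `U` of `G`
    have hUP : W.map P.subtype ≤ P := by
      rintro _ ⟨y, -, rfl⟩
      exact y.2
    have hPU : P ≤ Subgroup.normalizer ((W.map P.subtype : Subgroup G) : Set G) :=
      le_normalizer_map_subtype P W
    have hUc : ∀ a ∈ W.map P.subtype, ∀ b ∈ W.map P.subtype, a * b = b * a := by
      rintro _ ⟨a, ha, rfl⟩ _ ⟨b, hb, rfl⟩
      exact congrArg (fun z : ↥P => (z : G)) (hWc a ha b hb)
    have hUe : ∀ a ∈ W.map P.subtype, a ^ p = 1 := by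
      rintro _ ⟨a, ha, rfl⟩
      have h1 := congrArg (fun z : ↥P => (z : G)) (hWe a ha)
      simpa using h1
    have hUcard : Nat.card ↥(W.map P.subtype) = p ^ 2 := by
      rw [Cfsg.Agent.Lib.Helper30.card_map_subtype, hWcard]
    obtain ⟨E3, hE3P, hE3c, hE3e, hE3card⟩ := exists_of_not_prankLE hP3
    have hE33 : ¬ PRankLE p 2 ↥E3 := not_prankLE_of_le (le_refl E3) hE3c hE3e hE3card
    have hE3U : UniqIn M E3 := uniqIn_of_rank3 hUT hM (hE3P.trans hPM) hp hE33
    obtain ⟨hUM, hUU⟩ := uniqIn_normal_rank2 hG hM hPp hUP hPU hUc hUe hUcard hE3P hE3c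
      hE33 hE3U
    refine ⟨W.map P.subtype, le_inf hUM ?_, hUU⟩
    rintro _ ⟨w, hw, rfl⟩
    rw [Subgroup.mem_centralizer_iff]
    intro x hx
    obtain ⟨φ, hφ⟩ := exists_conjAut P (hXP hx)
    have hφE : ∀ e ∈ B.subgroupOf P, φ e = e := by
      intro e he
      apply Subtype.ext
      rw [hφ]
      have h1 := Subgroup.mem_centralizer_iff.mp (hBX (Subgroup.mem_subgroupOf.mp he)) x hx
      rw [h1]
      group
    have hcopx : (orderOf x).Coprime p := by
      refine Nat.Coprime.symm ((Nat.Prime.coprime_iff_not_dvd hp).mpr fun h => hpX ?_)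
      exact h.trans (Subgroup.orderOf_dvd_natCard X hx)
    have hiter : ∀ (j : ℕ) (r : ↥P), (((⇑φ)^[j] r : ↥P) : G) = x ^ j * r * (x ^ j)⁻¹ := by
      intro j
      induction j with
      | zero => intro r; simp
      | succ j ih =>
        intro r
        rw [Function.iterate_succ_apply', hφ, ih, pow_succ']
        group
    have hφk : ∀ r : ↥P, (⇑φ)^[orderOf x] r = r := by
      intro r
      apply Subtype.ext
      rw [hiter, pow_orderOf_eq_one]
      group
    have key := fix_omega_Z2 hW hZ hWe hWcard hZcard (B.subgroupOf P) hEc hEe hEmax hEW φ hφE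
      (orderOf x) hcopx hφk w hw
    have h1 := congrArg Subtype.val key
    rw [hφ] at h1
    exact mul_inv_eq_iff_eq_mul.mp h1

end Concrete

end Cfsg.Agent.Lib.Helper20.BG10
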