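import Mathlib
import Cfsg.Agent.Lib.Helper20.A6a
import Cfsg.Agent.Lib.Helper20.SL32
import Cfsg.Agent.Lib.Helper87.AltSix
import Cfsg.Agent.Lib.Helper54.OrthDih
import Cfsg.Agent.Lib.Helper31.Basic
import Cfsg.Agent.Lib.Helper23.Count

set_option autoImplicit false
open Cfsg
open Equiv Equiv.Perm
open scoped Pointwise

namespace Cfsg.Agent.Lib.Helper20

theorem a6_class_card (a : alternatingGroup (Fin 6)) (ha : orderOf a = 2) :
    Nat.card {h : alternatingGroup (Fin 6) // IsConj a h} = 45 := by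
  have hct : (a : Perm (Fin 6)).cycleType = {2, 2} :=
    Helper87.cycleType_of_orderOf_two_alt_six a.1 (mem_alternatingGroup.mp a.2)
      (by rw [Subgroup.orderOf_coe]; exact ha)
  have h45 : Nat.card {g : Perm (Fin 6) // g.cycleType = {2, 2}} = 45 := by
    rw [Nat.card_eq_fintype_card, Fintype.card_subtype]
    have h := Equiv.Perm.card_of_cycleType_mul_eq (Fin 6) {2, 2}
    have e1 : (({2, 2} : Multiset ℕ).sum ≤ Fintype.card (Fin 6) ∧
        ∀ a ∈ ({2, 2} : Multiset ℕ), 2 ≤ a) := by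
      refine ⟨by decide, ?_⟩
      intro a ha
      simp only [Multiset.insert_eq_cons, Multiset.mem_cons, Multiset.mem_singleton] at ha
      omega
    rw [if_pos e1] at h
    have e2 : ((Fintype.card (Fin 6) - ({2, 2} : Multiset ℕ).sum).factorial *
        ({2, 2} : Multiset ℕ).prod *
        ∏ n ∈ ({2, 2} : Multiset ℕ).toFinset, (({2, 2} : Multiset ℕ).count n).factorial) = 16 := by
      decide
    rw [e2] at h
    have e3 : (Fintype.card (Fin 6)).factorial = 720 := by decide
    rw [e3] at h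
    omega
  rw [← h45]
  apply Nat.card_congr
  refine Equiv.ofBijective (fun h => ⟨h.1.1, ?_⟩) ⟨?_, ?_⟩
  · obtain ⟨c, hc⟩ := isConj_iff.mp h.2
    rw [← hc]
    show ((c : Perm (Fin 6)) * (a : Perm (Fin 6)) * (c : Perm (Fin 6))⁻¹).cycleType = {2, 2}
    rw [Equiv.Perm.cycleType_conj, hct]
  · intro h h' hh
    have h3 : ((h.1.1 : Perm (Fin 6))) = h'.1.1 := Subtype.mk.inj hh
    exact Subtype.ext (Subtype.ext h3)
  · intro g
    have hs : sign g.1 = 1 := by
      rw [Equiv.Perm.sign_of_cycleType, g.2]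
      decide
    obtain ⟨π, hπ, hg⟩ := Helper87.conj_alt_six a.1 g.1 hct g.2
    exact ⟨⟨⟨g.1, mem_alternatingGroup.mpr hs⟩,
      isConj_iff.mpr ⟨⟨π, mem_alternatingGroup.mpr hπ⟩, Subtype.ext hg.symm⟩⟩, rfl⟩

theorem a6_cent_card (a : alternatingGroup (Fin 6)) (ha : orderOf a = 2) :
    Nat.card (Subgroup.centralizer ({a} : Set (alternatingGroup (Fin 6)))) = 8 := by
  have h1 := Helper23.card_isConj_eq_index a
  rw [a6_class_card a ha] at h1
  have h2 := (Subgroup.centralizer ({a} : Set (alternatingGroup (Fin 6)))).card_mul_index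
  rw [← h1, nat_card_alternatingGroup] at h2
  have e3 : (Nat.card (Fin 6)).factorial = 720 := by
    rw [Nat.card_eq_fintype_card]; decide
  rw [e3] at h2
  omega

/-- a double transposition -/
def a6t0 : alternatingGroup (Fin 6) :=
  ⟨swap 0 1 * swap 2 3, by
    rw [mem_alternatingGroup, Perm.sign_mul, Perm.sign_swap (by decide), Perm.sign_swap (by decide)]; rfl⟩

def a6b0 : alternatingGroup (Fin 6) :=
  ⟨swap 0 2 * swap 1 3, by
    rw [mem_alternatingGroup, Perm.sign_mul, Perm.sign_swap (by decide), Perm.sign_swap (by decide)]; rfl⟩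

def a6c0 : alternatingGroup (Fin 6) :=
  ⟨swap 0 1 * swap 4 5, by
    rw [mem_alternatingGroup, Perm.sign_mul, Perm.sign_swap (by decide), Perm.sign_swap (by decide)]; rfl⟩

theorem a6t0_order : orderOf a6t0 = 2 := by
  have : Fact (Nat.Prime 2) := ⟨Nat.prime_two⟩
  apply orderOf_eq_prime
  · exact Subtype.ext (by decide)
  · intro h
    have h1 := congrArg Subtype.val h
    revert h1
    decide

theorem a6t0_cent :
    Nonempty (Subgroup.centralizer ({a6t0} : Set (alternatingGroup (Fin 6))) ≃* DihedralGroup 4) := by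
  have h8 := a6_cent_card a6t0 a6t0_order
  have hb : a6b0 ∈ Subgroup.centralizer ({a6t0} : Set (alternatingGroup (Fin 6))) := by
    rw [d8_mem_iff]; exact Subtype.ext (by decide)
  have hc : a6c0 ∈ Subgroup.centralizer ({a6t0} : Set (alternatingGroup (Fin 6))) := by
    rw [d8_mem_iff]; exact Subtype.ext (by decide)
  have hbb : (a6b0 : Perm (Fin 6)) * (a6b0 : Perm (Fin 6)) = 1 := by decide
  have hbc : (a6b0 : Perm (Fin 6)) * (a6c0 : Perm (Fin 6)) ≠
      (a6c0 : Perm (Fin 6)) * (a6b0 : Perm (Fin 6)) := by decide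
  refine Helper54.dih8_of_card h8 ⟨a6b0, hb⟩ ⟨a6c0, hc⟩ (Subtype.ext (Subtype.ext hbb)) ?_
  intro h
  apply hbc
  exact congrArg (fun x : Subgroup.centralizer ({a6t0} : Set (alternatingGroup (Fin 6))) =>
    ((x : alternatingGroup (Fin 6)) : Perm (Fin 6))) h

/-- the centralizer of an involution of `A₆` is dihedral of order `8` -/
theorem a6_cent_d8 (a : alternatingGroup (Fin 6)) (ha : orderOf a = 2) :
    Nonempty (Subgroup.centralizer ({a} : Set (alternatingGroup (Fin 6))) ≃* DihedralGroup 4) := by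
  have hct : (a : Perm (Fin 6)).cycleType = {2, 2} :=
    Helper87.cycleType_of_orderOf_two_alt_six a.1 (mem_alternatingGroup.mp a.2)
      (by rw [Subgroup.orderOf_coe]; exact ha)
  have hct0 : (a6t0 : Perm (Fin 6)).cycleType = {2, 2} :=
    Helper87.cycleType_of_orderOf_two_alt_six a6t0.1 (mem_alternatingGroup.mp a6t0.2)
      (by rw [Subgroup.orderOf_coe]; exact a6t0_order)
  obtain ⟨π, hπ, hg⟩ := Helper87.conj_alt_six a6t0.1 a.1 hct0 hct
  have h1 : a = (⟨π, mem_alternatingGroup.mpr hπ⟩ : alternatingGroup (Fin 6)) * a6t0 *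
      (⟨π, mem_alternatingGroup.mpr hπ⟩ : alternatingGroup (Fin 6))⁻¹ := Subtype.ext hg
  obtain ⟨e0⟩ := a6t0_cent
  rw [h1]
  exact ⟨(centConjEquiv _ a6t0).trans e0⟩

section

variable {G : Type*} [Group G]

/-- `G = C(α) O(G)` with `C(α)` of order `8` forces a subgroup of index `2` -/
theorem d8_index_two_of_sup [Finite G] (α : G)
    (e : Subgroup.centralizer ({α} : Set G) ≃* DihedralGroup 4)
    (h : Subgroup.centralizer ({α} : Set G) ⊔ Cfsg.oddCore G = ⊤) :
    ∃ H : Subgroup G, H.index = 2 := by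
  have : Fact (Nat.Prime 2) := ⟨Nat.prime_two⟩
  have hcop : (Nat.card (Cfsg.oddCore G)).Coprime 2 := Helper31.pPrimeCore_coprime 2
  have h8 := d8_card α e
  have hdisj : Disjoint (Subgroup.centralizer ({α} : Set G)) (Cfsg.oddCore G) := by
    apply Subgroup.disjoint_of_coprime_natCard
    rw [h8]
    have : (8 : ℕ) = 2 ^ 3 := by norm_num
    rw [this]
    exact (Nat.Coprime.pow_right 3 hcop).symm
  have hmul : ((Subgroup.centralizer ({α} : Set G) : Subgroup G) : Set G) *
      ((Cfsg.oddCore G : Subgroup G) : Set G) = Set.univ := by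
    rw [← Subgroup.mul_normal, h]; rfl
  have hcompl := Subgroup.isComplement'_of_disjoint_and_mul_eq_univ hdisj hmul
  have hidx : (Cfsg.oddCore G).index = 8 := by
    rw [hcompl.index_eq_card, h8]
  have hQ : Nat.card (G ⧸ Cfsg.oddCore G) = 8 := by
    rw [← Subgroup.index_eq_card]; exact hidx
  obtain ⟨K, hK⟩ := Sylow.exists_subgroup_card_pow_prime 2
    (show 2 ^ 2 ∣ Nat.card (G ⧸ Cfsg.oddCore G) by rw [hQ]; norm_num)
  have hKi : K.index = 2 := by
    have h3 := K.card_mul_index
    rw [hK, hQ] at h3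
    omega
  refine ⟨K.comap (QuotientGroup.mk' (Cfsg.oddCore G)), ?_⟩
  rw [Subgroup.index_comap_of_surjective _ (QuotientGroup.mk'_surjective _)]
  exact hKi

/-- the theorem on dihedral centralizers of order `8` for groups without subgroups of index `2` -/
theorem d8_no_index_two [Finite G] (hG : ∀ H : Subgroup G, H.index ≠ 2) (α : G)
    (e : Subgroup.centralizer ({α} : Set G) ≃* DihedralGroup 4)
    (h : Subgroup.centralizer ({α} : Set G) ⊔ Cfsg.oddCore G = ⊤ ∨
      Nonempty (G ≃* Equiv.Perm (Fin 4)) ∨ Nonempty (G ≃* Equiv.Perm (Fin 5)) ∨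
      Nonempty (G ≃* Matrix.SpecialLinearGroup (Fin 3) (ZMod 2)) ∨
      Nonempty (G ≃* ↥(alternatingGroup (Fin 6)))) :
    Nonempty (G ≃* ↥(alternatingGroup (Fin 6))) ∨
      (∃ (F : Type) (_ : Field F) (_ : Fintype F), Fintype.card F = 7 ∧
        Nonempty (G ≃* Matrix.ProjectiveSpecialLinearGroup (Fin 2) F)) := by
  rcases h with h | ⟨⟨f⟩⟩ | ⟨⟨f⟩⟩ | ⟨⟨f⟩⟩ | h
  · obtain ⟨H, hH⟩ := d8_index_two_of_sup α e h
    exact (hG H hH).elim
  · exfalso
    apply hG ((alternatingGroup (Fin 4)).comap f.toMonoidHom)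
    rw [Subgroup.index_comap_of_surjective _ f.surjective]
    exact alternatingGroup.index_eq_two
  · exfalso
    apply hG ((alternatingGroup (Fin 5)).comap f.toMonoidHom)
    rw [Subgroup.index_comap_of_surjective _ f.surjective]
    exact alternatingGroup.index_eq_two
  · right
    have : Fact (Nat.Prime 7) := ⟨by norm_num⟩
    have : Fact (Nat.Prime 2) := ⟨Nat.prime_two⟩
    obtain ⟨e2⟩ := Cfsg.Agent.S0255.result (F := ZMod 7) (K := ZMod 2) (ZMod.card 7) (ZMod.card 2)
    refine ⟨ZMod 7, inferInstance, inferInstance, ZMod.card 7, ⟨?_⟩⟩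
    exact f.trans (((QuotientGroup.quotientMulEquivOfEq sl32_center).trans
      QuotientGroup.quotientBot).symm.trans e2.symm)
  · left; exact h

end

end Cfsg.Agent.Lib.Helper20
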