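import Cfsg.Agent.Lib.Helper3.BG12Defs
import Cfsg.Agent.Lib.Helper20.BG10P3

/-!
# B&G section 12, piece P13P `cprod_structure` (job 1169, helper20)
-/

set_option autoImplicit false

open Cfsg Cfsg.Agent.Lib.Helper32 Cfsg.Agent.Lib.Helper32.BG10 Cfsg.Agent.Lib.Helper3.BG12

namespace Cfsg.Agent.Lib.Helper20.BG12

universe u

section Aux

variable {G : Type u} [Group G]

/-- elements of the join of two subgroups centralizing each other are products -/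
theorem p13p_mem_sup {A B : Subgroup G} (hAB : ∀ a ∈ A, ∀ b ∈ B, a * b = b * a) {x : G}
    (hx : x ∈ A ⊔ B) : ∃ a ∈ A, ∃ b ∈ B, x = a * b := by
  obtain ⟨S, hS⟩ : ∃ S : Subgroup G, ∀ x : G, x ∈ S ↔ ∃ a ∈ A, ∃ b ∈ B, x = a * b := by
    refine ⟨{ carrier := {x | ∃ a ∈ A, ∃ b ∈ B, x = a * b}
              mul_mem' := ?_
              one_mem' := ⟨1, A.one_mem, 1, B.one_mem, (mul_one 1).symm⟩
              inv_mem' := ?_ }, fun x => Iff.rfl⟩
    · rintro _ _ ⟨a, ha, b, hb, rfl⟩ ⟨a', ha', b', hb', rfl⟩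
      refine ⟨a * a', A.mul_mem ha ha', b * b', B.mul_mem hb hb', ?_⟩
      have h1 := hAB a' ha' b hb
      calc a * b * (a' * b') = a * (b * a') * b' := by group
        _ = a * (a' * b) * b' := by rw [h1]
        _ = a * a' * (b * b') := by group
    · rintro _ ⟨a, ha, b, hb, rfl⟩
      refine ⟨a⁻¹, A.inv_mem ha, b⁻¹, B.inv_mem hb, ?_⟩
      rw [mul_inv_rev]
      exact (hAB a⁻¹ (A.inv_mem ha) b⁻¹ (B.inv_mem hb)).symm
  have hle : A ⊔ B ≤ S := by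
    refine sup_le (fun a ha => ?_) (fun b hb => ?_)
    · exact (hS a).mpr ⟨a, ha, 1, B.one_mem, (mul_one a).symm⟩
    · exact (hS b).mpr ⟨1, A.one_mem, b, hb, (one_mul b).symm⟩
  exact (hS x).mp (hle hx)

/-- a subgroup of prime order is commutative, of exponent `p`, generated by each of its
non-identity elements -/
theorem p13p_prime_card {p : ℕ} [Fact p.Prime] {X : Subgroup G} (hX : Nat.card X = p) :
    (∀ a ∈ X, ∀ b ∈ X, a * b = b * a) ∧ (∀ a ∈ X, a ^ p = 1) ∧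
      ∀ g ∈ X, g ≠ 1 → ∀ a ∈ X, a ∈ Subgroup.zpowers g := by
  have hgen : ∀ g ∈ X, g ≠ 1 → ∀ a ∈ X, a ∈ Subgroup.zpowers g := by
    intro g hg hg1 a ha
    have hg1' : (⟨g, hg⟩ : ↥X) ≠ 1 := fun h0 => hg1 (congrArg Subtype.val h0)
    have h1 : (⟨a, ha⟩ : ↥X) ∈ Subgroup.zpowers (⟨g, hg⟩ : ↥X) :=
      mem_zpowers_of_prime_card hX hg1'
    obtain ⟨k, hk⟩ := Subgroup.mem_zpowers_iff.mp h1
    have h2 : g ^ k = a := by
      have := congrArg Subtype.val hk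
      simpa using this
    exact Subgroup.mem_zpowers_iff.mpr ⟨k, h2⟩
  refine ⟨?_, ?_, hgen⟩
  · intro a ha b hb
    by_cases ha1 : a = 1
    · rw [ha1, one_mul, mul_one]
    · obtain ⟨i, hi⟩ := Subgroup.mem_zpowers_iff.mp (hgen a ha ha1 a ha)
      obtain ⟨j, hj⟩ := Subgroup.mem_zpowers_iff.mp (hgen a ha ha1 b hb)
      rw [← hj]
      exact ((Commute.refl a).zpow_right j).eq
  · intro a ha
    have h1 : orderOf a ∣ Nat.card X := Subgroup.orderOf_dvd_natCard X ha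
    rw [hX] at h1
    exact orderOf_dvd_iff_pow_eq_one.mp h1

end Aux

variable {G : Type u} [Group G] [Finite G]

theorem cprod_structure {p : ℕ} [Fact p.Prime] {P₁ P₂ : Subgroup G}
    (hcomm : ∀ a ∈ P₁, ∀ b ∈ P₂, a * b = b * a) (hnc : ¬ IsMulCommutative P₁)
    (hP₁ : Nat.card P₁ = p ^ 3) (hexp : Monoid.exponent P₁ = p) (hP₂ : IsCyclic P₂)
    (hcl : Subgroup.closure {x : G | x ∈ P₂ ∧ x ^ p = 1} =
      P₁ ⊓ Subgroup.centralizer (P₁ : Set G)) :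
    Nat.card ↥(P₁ ⊓ Subgroup.centralizer (P₁ : Set G)) = p ∧
    (∀ A : Subgroup G, A ≤ P₁ ⊔ P₂ → IsElementaryAbelian p A → Nat.card A = p ^ 2 →
      (P₁ ⊓ Subgroup.centralizer (P₁ : Set G) ≤ A ∧ A ≤ P₁)) ∧
    (∀ U : Subgroup G, U ≤ P₁ → Nat.card U = p → U ≠ P₁ ⊓ Subgroup.centralizer (P₁ : Set G) →
      (IsElementaryAbelian p ((P₁ ⊓ Subgroup.centralizer (P₁ : Set G)) ⊔ U) ∧
        Nat.card ↥((P₁ ⊓ Subgroup.centralizer (P₁ : Set G)) ⊔ U) = p ^ 2)) ∧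
    (∀ A A₀ U : Subgroup G, A ≤ P₁ → IsElementaryAbelian p A → Nat.card A = p ^ 2 →
      A₀ ≤ A → U ≤ A → Nat.card A₀ = p → Nat.card U = p →
      A₀ ≠ P₁ ⊓ Subgroup.centralizer (P₁ : Set G) → U ≠ P₁ ⊓ Subgroup.centralizer (P₁ : Set G) →
      ∃ x ∈ P₁, cj x A₀ = U) := by
  have hp := (Fact.out : p.Prime)
  obtain ⟨Z, hZ⟩ : ∃ Z : Subgroup G, Z = P₁ ⊓ Subgroup.centralizer (P₁ : Set G) := ⟨_, rfl⟩
  rw [← hZ] at hcl ⊢
  have hZP : Z ≤ P₁ := by rw [hZ]; exact inf_le_left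
  have hZcen : ∀ z ∈ Z, ∀ a ∈ P₁, a * z = z * a := by
    intro z hz a ha
    rw [hZ] at hz
    exact Subgroup.mem_centralizer_iff.mp hz.2 a ha
  have hZc : ∀ a ∈ Z, ∀ b ∈ Z, a * b = b * a := fun a ha b hb => hZcen b hb a (hZP ha)
  have hexp1 : ∀ a ∈ P₁, a ^ p = 1 := by
    intro a ha
    have h1 := Monoid.pow_exponent_eq_one (⟨a, ha⟩ : ↥P₁)
    rw [hexp] at h1
    exact congrArg Subtype.val h1
  have hZe : ∀ a ∈ Z, a ^ p = 1 := fun a ha => hexp1 a (hZP ha)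
  have hnc' : ¬ ∀ a ∈ P₁, ∀ b ∈ P₁, a * b = b * a := fun h =>
    hnc ⟨⟨fun a b => Subtype.ext (h a a.2 b b.2)⟩⟩
  have hbig : ∀ K : Subgroup G, K ≤ P₁ → p ^ 2 < Nat.card K → K = P₁ := by
    intro K hK hcard
    have h1 : Nat.card K ∣ p ^ 3 := hP₁ ▸ Subgroup.card_dvd_of_le hK
    obtain ⟨j, hj, hjc⟩ := (Nat.dvd_prime_pow hp).mp h1
    have hj3 : j = 3 := by
      by_contra hne
      have h2 : j ≤ 2 := by omega
      have h3 : p ^ j ≤ p ^ 2 := Nat.pow_le_pow_right hp.pos h2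
      omega
    exact Subgroup.eq_of_le_of_card_ge hK (by rw [hjc, hj3, hP₁])
  have hncK : ∀ K : Subgroup G, (∀ a ∈ K, ∀ b ∈ K, a * b = b * a) → K ≠ P₁ := by
    intro K hK h
    rw [h] at hK
    exact hnc' hK
  -- (1) `card Z = p`
  have hZ1 : Z ≠ ⊥ := by
    have hpg : IsPGroup p ↥P₁ := IsPGroup.of_card hP₁
    have hnt : Nontrivial ↥P₁ := by
      by_contra hnn
      rw [not_nontrivial_iff_subsingleton] at hnn
      have h1 : Nat.card ↥P₁ ≤ 1 := Finite.card_le_one_iff_subsingleton.mpr hnn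
      rw [hP₁] at h1
      have h2 : 1 < p ^ 3 := Nat.one_lt_pow (by norm_num) hp.one_lt
      omega
    have hcn := hpg.center_nontrivial
    obtain ⟨z, hz1⟩ := exists_ne (1 : Subgroup.center ↥P₁)
    intro hbot
    have hzZ : ((z : ↥P₁) : G) ∈ Z := by
      rw [hZ]
      refine ⟨(z : ↥P₁).2, Subgroup.mem_centralizer_iff.mpr ?_⟩
      intro h hh
      have h2 := Subgroup.mem_center_iff.mp z.2 ⟨h, hh⟩
      exact congrArg Subtype.val h2
    rw [hbot, Subgroup.mem_bot] at hzZ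
    exact hz1 (Subtype.ext (Subtype.ext hzZ))
  have hZcard : Nat.card Z = p := by
    have h1 : Nat.card Z ∣ p ^ 3 := hP₁ ▸ Subgroup.card_dvd_of_le hZP
    obtain ⟨j, hj, hjc⟩ := (Nat.dvd_prime_pow hp).mp h1
    have hj0 : j ≠ 0 := by
      rintro rfl
      rw [pow_zero] at hjc
      exact hZ1 (Subgroup.card_eq_one.mp hjc)
    have hj3 : j ≠ 3 := by
      rintro rfl
      exact hncK Z hZc (Subgroup.eq_of_le_of_card_ge hZP (by rw [hjc, hP₁]))
    have hj2 : j ≠ 2 := by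
      rintro rfl
      have hne : ¬ P₁ ≤ Z := fun h => hncK Z hZc (le_antisymm hZP h)
      obtain ⟨a, haP, haZ⟩ := SetLike.not_le_iff_exists.mp hne
      have hac : ∀ x ∈ Subgroup.zpowers a, ∀ y ∈ Subgroup.zpowers a, x * y = y * x := by
        intro x hx y hy
        obtain ⟨i, rfl⟩ := Subgroup.mem_zpowers_iff.mp hx
        obtain ⟨k, rfl⟩ := Subgroup.mem_zpowers_iff.mp hy
        rw [← zpow_add, ← zpow_add, add_comm]
      have haP' : Subgroup.zpowers a ≤ P₁ := by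
        rw [Subgroup.zpowers_le]; exact haP
      have hZa : ∀ x ∈ Z, ∀ y ∈ Subgroup.zpowers a, x * y = y * x := fun x hx y hy =>
        (hZcen x hx y (haP' hy)).symm
      obtain ⟨hKc, -⟩ := Cfsg.Agent.Lib.Helper20.BG10.elemAb_sup hZc hac hZa hZe
        (fun y hy => hexp1 y (haP' hy))
      have hK : Z ⊔ Subgroup.zpowers a ≤ P₁ := sup_le hZP haP'
      have hlt : p ^ 2 < Nat.card ↥(Z ⊔ Subgroup.zpowers a) := by
        by_contra hle
        push Not at hle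
        have h2 : Z = Z ⊔ Subgroup.zpowers a :=
          Subgroup.eq_of_le_of_card_ge le_sup_left (by rw [hjc]; exact hle)
        apply haZ
        rw [h2]
        exact Subgroup.mem_sup_right (Subgroup.mem_zpowers a)
      exact hncK _ hKc (hbig _ hK hlt)
    have hj1 : j = 1 := by omega
    rw [hjc, hj1, pow_one]
  -- commutators of `P₁` lie in `Z`
  have hcommZ : ∀ a ∈ P₁, ∀ b ∈ P₁, a * b * a⁻¹ * b⁻¹ ∈ Z := by
    have hmap : (Subgroup.center ↥P₁).map P₁.subtype = Z := by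
      ext x
      rw [hZ]
      constructor
      · rintro ⟨z, hz, rfl⟩
        refine ⟨z.2, Subgroup.mem_centralizer_iff.mpr fun h hh => ?_⟩
        exact congrArg Subtype.val (Subgroup.mem_center_iff.mp hz ⟨h, hh⟩)
      · rintro ⟨hx1, hx2⟩
        refine ⟨⟨x, hx1⟩, Subgroup.mem_center_iff.mpr fun g => ?_, rfl⟩
        exact Subtype.ext (Subgroup.mem_centralizer_iff.mp hx2 g g.2)
    have hcc : Nat.card (Subgroup.center ↥P₁) = p := by
      rw [← Cfsg.Agent.Lib.Helper30.card_map_subtype, hmap, hZcard]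
    have hq : Nat.card (↥P₁ ⧸ Subgroup.center ↥P₁) = p ^ 2 := by
      have h1 := Subgroup.card_eq_card_quotient_mul_card_subgroup (Subgroup.center ↥P₁)
      rw [hP₁, hcc] at h1
      have h2 : p ^ 3 = p ^ 2 * p := by ring
      rw [h2] at h1
      exact (Nat.eq_of_mul_eq_mul_right hp.pos h1).symm
    have hqc := (IsPGroup.isMulCommutative_of_card_eq_prime_sq hq).is_comm.comm
    intro a ha b hb
    have h1 : (QuotientGroup.mk' (Subgroup.center ↥P₁))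
        ((⟨a, ha⟩ : ↥P₁) * ⟨b, hb⟩ * (⟨a, ha⟩ : ↥P₁)⁻¹ * (⟨b, hb⟩ : ↥P₁)⁻¹) = 1 := by
      rw [map_mul, map_mul, map_mul, map_inv, map_inv,
        hqc (QuotientGroup.mk' _ ⟨a, ha⟩) (QuotientGroup.mk' _ ⟨b, hb⟩)]
      group
    have h2 := (QuotientGroup.eq_one_iff _).mp h1
    have h3 : (((⟨a, ha⟩ : ↥P₁) * ⟨b, hb⟩ * (⟨a, ha⟩ : ↥P₁)⁻¹ * (⟨b, hb⟩ : ↥P₁)⁻¹ : ↥P₁) : G) ∈
        (Subgroup.center ↥P₁).map P₁.subtype := Subgroup.mem_map_of_mem _ h2
    rw [hmap] at h3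
    exact h3
  -- (3)
  have h3 : ∀ U : Subgroup G, U ≤ P₁ → Nat.card U = p → U ≠ Z →
      ((∀ a ∈ Z ⊔ U, ∀ b ∈ Z ⊔ U, a * b = b * a) ∧ (∀ a ∈ Z ⊔ U, a ^ p = 1)) ∧
        Nat.card ↥(Z ⊔ U) = p ^ 2 := by
    intro U hUP hUcard hUZ
    obtain ⟨hUc, hUe, -⟩ := p13p_prime_card hUcard
    have hZU : ∀ a ∈ Z, ∀ b ∈ U, a * b = b * a := fun a ha b hb => (hZcen a ha b (hUP hb)).symm
    have hea := Cfsg.Agent.Lib.Helper20.BG10.elemAb_sup hZc hUc hZU hZe hUe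
    refine ⟨hea, ?_⟩
    have hK : Z ⊔ U ≤ P₁ := sup_le hZP hUP
    have h1 : Nat.card ↥(Z ⊔ U) ∣ p ^ 3 := hP₁ ▸ Subgroup.card_dvd_of_le hK
    obtain ⟨j, hj, hjc⟩ := (Nat.dvd_prime_pow hp).mp h1
    have hj3 : j ≠ 3 := by
      rintro rfl
      exact hncK _ hea.1 (Subgroup.eq_of_le_of_card_ge hK (by rw [hjc, hP₁]))
    have hj1 : 2 ≤ j := by
      by_contra hlt
      push Not at hlt
      have h2 : Nat.card ↥(Z ⊔ U) ≤ Nat.card Z := by
        rw [hjc, hZcard]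
        calc p ^ j ≤ p ^ 1 := Nat.pow_le_pow_right hp.pos (by omega)
          _ = p := pow_one p
      have h4 : Z = Z ⊔ U := Subgroup.eq_of_le_of_card_ge le_sup_left h2
      have h5 : U ≤ Z := by rw [h4]; exact le_sup_right
      exact hUZ (Subgroup.eq_of_le_of_card_ge h5 (by rw [hZcard, hUcard]))
    have hj2 : j = 2 := by omega
    rw [hjc, hj2]
  -- (2)
  have h2 : ∀ A : Subgroup G, A ≤ P₁ ⊔ P₂ → IsElementaryAbelian p A → Nat.card A = p ^ 2 →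
      (Z ≤ A ∧ A ≤ P₁) := by
    intro A hA hAea hAcard
    have hAc : ∀ a ∈ A, ∀ b ∈ A, a * b = b * a := fun a ha b hb =>
      congrArg Subtype.val (hAea.1.is_comm.comm ⟨a, ha⟩ ⟨b, hb⟩)
    have hAP : A ≤ P₁ := by
      intro x hx
      obtain ⟨a, ha, b, hb, rfl⟩ := p13p_mem_sup hcomm (hA hx)
      have hxp := hAea.2 _ hx
      have hc : Commute a b := hcomm a ha b hb
      rw [hc.mul_pow, hexp1 a ha, one_mul] at hxp
      have hbZ : b ∈ Z := by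
        rw [← hcl]
        exact Subgroup.subset_closure ⟨hb, hxp⟩
      exact P₁.mul_mem ha (hZP hbZ)
    refine ⟨?_, hAP⟩
    by_contra hZA
    have hAZ : ∀ a ∈ A, ∀ b ∈ Z, a * b = b * a := fun a ha b hb => hZcen b hb a (hAP ha)
    obtain ⟨hKc, -⟩ := Cfsg.Agent.Lib.Helper20.BG10.elemAb_sup hAc hZc hAZ hAea.2 hZe
    have hK : A ⊔ Z ≤ P₁ := sup_le hAP hZP
    have hlt : p ^ 2 < Nat.card ↥(A ⊔ Z) := by
      by_contra hle
      push Not at hle
      have h4 : A = A ⊔ Z := Subgroup.eq_of_le_of_card_ge le_sup_left (by rw [hAcard]; exact hle)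
      apply hZA
      rw [h4]
      exact le_sup_right
    exact hncK _ hKc (hbig _ hK hlt)
  refine ⟨hZcard, h2, ?_, ?_⟩
  · intro U hUP hUcard hUZ
    obtain ⟨⟨hc, he⟩, hcard⟩ := h3 U hUP hUcard hUZ
    exact ⟨⟨⟨⟨fun a b => Subtype.ext (hc a a.2 b b.2)⟩⟩, he⟩, hcard⟩
  · intro A A₀ U hAP hAea hAcard hA₀A hUA hA₀card hUcard hA₀Z hUZ
    obtain ⟨hZA, -⟩ := h2 A (hAP.trans le_sup_left) hAea hAcard
    -- `a ∈ A₀ \ Z`
    have hA₀nle : ¬ A₀ ≤ Z := fun h =>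
      hA₀Z (Subgroup.eq_of_le_of_card_ge h (by rw [hZcard, hA₀card]))
    obtain ⟨a, haA₀, haZ⟩ := SetLike.not_le_iff_exists.mp hA₀nle
    have haP : a ∈ P₁ := hAP (hA₀A haA₀)
    -- `y ∈ P₁` not commuting with `a`
    have hy : ∃ y ∈ P₁, y * a ≠ a * y := by
      by_contra hall
      push Not at hall
      apply haZ
      rw [hZ]
      exact ⟨haP, Subgroup.mem_centralizer_iff.mpr hall⟩
    obtain ⟨y, hyP, hya⟩ := hy
    obtain ⟨z₀, hz₀⟩ : ∃ z₀, z₀ = y * a * y⁻¹ * a⁻¹ := ⟨_, rfl⟩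
    have hz₀Z : z₀ ∈ Z := by rw [hz₀]; exact hcommZ y hyP a haP
    have hz₀1 : z₀ ≠ 1 := by
      intro h0
      apply hya
      rw [hz₀] at h0
      have h4 : y * a * y⁻¹ = a := mul_inv_eq_one.mp h0
      exact mul_inv_eq_iff_eq_mul.mp h4
    obtain ⟨-, -, hZgen⟩ := p13p_prime_card hZcard
    have hyz : y * z₀ = z₀ * y := hZcen z₀ hz₀Z y hyP
    have hconj : ∀ i : ℕ, y ^ i * a * (y ^ i)⁻¹ = z₀ ^ i * a := by
      intro i
      induction i with
      | zero => simp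
      | succ i ih =>
        have c1 : Commute y (z₀ ^ i) := (show Commute y z₀ from hyz).pow_right i
        have h5 : y * a * y⁻¹ = z₀ * a := by rw [hz₀]; group
        calc y ^ (i + 1) * a * (y ^ (i + 1))⁻¹ = y * (y ^ i * a * (y ^ i)⁻¹) * y⁻¹ := by
              rw [pow_succ']; group
          _ = y * (z₀ ^ i * a) * y⁻¹ := by rw [ih]
          _ = (y * z₀ ^ i) * a * y⁻¹ := by group
          _ = (z₀ ^ i * y) * a * y⁻¹ := by rw [c1.eq]
          _ = z₀ ^ i * (y * a * y⁻¹) := by group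
          _ = z₀ ^ i * (z₀ * a) := by rw [h5]
          _ = z₀ ^ (i + 1) * a := by rw [pow_succ]; group
    -- `Z ⊔ U = A`
    have hUP : U ≤ P₁ := hUA.trans hAP
    obtain ⟨-, hZUcard⟩ := h3 U hUP hUcard hUZ
    have hZUA : Z ⊔ U = A :=
      Subgroup.eq_of_le_of_card_ge (sup_le hZA hUA) (by rw [hZUcard, hAcard])
    have haZU : a ∈ Z ⊔ U := by rw [hZUA]; exact hA₀A haA₀
    have hZU : ∀ a ∈ Z, ∀ b ∈ U, a * b = b * a := fun a ha b hb => (hZcen a ha b (hUP hb)).symm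
    obtain ⟨z, hzZ, u, huU, hazu⟩ := p13p_mem_sup hZU haZU
    have hu : u = z⁻¹ * a := by rw [hazu]; group
    have hu1 : u ≠ 1 := by
      intro h0
      apply haZ
      rw [hazu, h0, mul_one]
      exact hzZ
    have hzpow : z⁻¹ ∈ Subgroup.zpowers z₀ := hZgen z₀ hz₀Z hz₀1 z⁻¹ (Z.inv_mem hzZ)
    rw [← mem_powers_iff_mem_zpowers] at hzpow
    obtain ⟨i, hi⟩ := (Submonoid.mem_powers_iff _ _).mp hzpow
    have hxu : y ^ i * a * (y ^ i)⁻¹ = u := by rw [hconj, hi, hu]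
    refine ⟨y ^ i, P₁.pow_mem hyP i, ?_⟩
    obtain ⟨-, -, hUgen⟩ := p13p_prime_card hUcard
    have hle : U ≤ cj (y ^ i) A₀ := by
      intro w hw
      have hw' := hUgen u huU hu1 w hw
      have hucj : u ∈ cj (y ^ i) A₀ := by
        rw [mem_cj, ← hxu]
        have h6 : (y ^ i)⁻¹ * (y ^ i * a * (y ^ i)⁻¹) * y ^ i = a := by group
        rw [h6]
        exact haA₀
      exact (Subgroup.zpowers_le.mpr hucj) hw'
    exact (Subgroup.eq_of_le_of_card_ge hle (by rw [card_cj, hA₀card, hUcard])).symm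

end Cfsg.Agent.Lib.Helper20.BG12
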