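import Cfsg.Agent.Lib.Helper3.BG12Defs

/-!
# B&G section 12, piece P14C: transport of `IsIdealPrime` along Sylow conjugacy
(job 1376, helper20)
-/

set_option autoImplicit false

open Cfsg Cfsg.Agent.Lib.Helper32 Cfsg.Agent.Lib.Helper32.BG10 Cfsg.Agent.Lib.Helper3.BG12

namespace Cfsg.Agent.Lib.Helper20.BG12

universe u

variable {G : Type u} [Group G] [Finite G]

omit [Finite G] in
/-- conjugates of elementary abelian subgroups are elementary abelian -/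
theorem p14c_isEA_cj {p : ℕ} (n : G) {A : Subgroup G} (h : IsElementaryAbelian p A) :
    IsElementaryAbelian p (cj n A) := by
  refine ⟨⟨⟨fun x y => ?_⟩⟩, fun a ha => ?_⟩
  · have hx : n⁻¹ * (x : G) * n ∈ A := mem_cj.mp x.2
    have hy : n⁻¹ * (y : G) * n ∈ A := mem_cj.mp y.2
    have e : n⁻¹ * (x : G) * n * (n⁻¹ * (y : G) * n) = n⁻¹ * (y : G) * n * (n⁻¹ * (x : G) * n) :=
      congrArg Subtype.val (h.1.is_comm.comm ⟨_, hx⟩ ⟨_, hy⟩)
    apply Subtype.ext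
    show (x : G) * (y : G) = (y : G) * (x : G)
    calc (x : G) * (y : G) = n * (n⁻¹ * (x : G) * n * (n⁻¹ * (y : G) * n)) * n⁻¹ := by group
      _ = n * (n⁻¹ * (y : G) * n * (n⁻¹ * (x : G) * n)) * n⁻¹ := by rw [e]
      _ = (y : G) * (x : G) := by group
  · have h1 : (n⁻¹ * a * n) ^ p = 1 := h.2 _ (mem_cj.mp ha)
    have h2 : a = n * (n⁻¹ * a * n) * n⁻¹ := by group
    rw [h2, conj_pow, h1]
    group

/-- a Sylow `p`-subgroup in the sense of `sylSet p ⊤` is the carrier of a `Sylow p G` -/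
theorem p14c_exists_sylow {p : ℕ} [Fact p.Prime] {R : Subgroup G}
    (hR : R ∈ sylSet p (⊤ : Subgroup G)) : ∃ Ps : Sylow p G, (Ps : Subgroup G) = R := by
  have hcard : Nat.card R = p ^ (Nat.card G).factorization p := by
    have h1 := hR.2
    rwa [Subgroup.card_top] at h1
  exact ⟨Sylow.ofCard R hcard, Sylow.coe_ofCard R hcard⟩

theorem exists_max_elemAb2_of_not_ideal {p : ℕ} [Fact p.Prime] {R : Subgroup G}
    (hR : R ∈ sylSet p (⊤ : Subgroup G)) (hr : ¬ PRankLE p 2 ↥R) (hni : ¬ IsIdealPrime p G) :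
    ∃ E : Subgroup G, E ≤ R ∧ IsElementaryAbelian p E ∧ Nat.card E = p ^ 2 ∧
      ∀ B : Subgroup G, B ≤ R → IsElementaryAbelian p B → E ≤ B → B = E := by
  have hp := (Fact.out : p.Prime)
  have hrG : ¬ PRankLE p 2 G := by
    intro hG
    obtain ⟨F, -, hFc, hFe, hFcard⟩ := exists_of_not_prankLE hr
    have h1 := hG F ⟨⟨fun a b => Subtype.ext (hFc a a.2 b b.2)⟩⟩ hFe
    omega
  have hni' : ¬ ∀ (P : Sylow p G) (A : Subgroup G), A ≤ (P : Subgroup G) →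
      IsElementaryAbelian p A → Nat.card A = p ^ 2 →
      ∃ B : Subgroup G, B ≤ (P : Subgroup G) ∧ IsElementaryAbelian p B ∧ A < B :=
    fun h => hni ⟨hp, hrG, h⟩
  push Not at hni'
  obtain ⟨P₀, A₀, hA₀P, hA₀ea, hA₀card, hA₀max⟩ := hni'
  have hP₀ : (P₀ : Subgroup G) ∈ sylSet p (⊤ : Subgroup G) := by
    refine ⟨le_top, ?_⟩
    rw [Subgroup.card_top]
    exact P₀.card_eq_multiplicity
  obtain ⟨n, -, hn⟩ := sylSet_conj hP₀ hR
  refine ⟨cj n A₀, ?_, p14c_isEA_cj n hA₀ea, ?_, ?_⟩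
  · rw [← hn]
    exact cj_mono n hA₀P
  · rw [card_cj, hA₀card]
  · intro B hBR hBea hEB
    have hB'P : cj n⁻¹ B ≤ (P₀ : Subgroup G) := by
      have h1 := cj_mono n⁻¹ hBR
      rwa [← hn, cj_inv_cj] at h1
    have hB'ea := p14c_isEA_cj n⁻¹ hBea
    have hA₀B' : A₀ ≤ cj n⁻¹ B := by
      have h1 := cj_mono n⁻¹ hEB
      rwa [cj_inv_cj] at h1
    have heq : A₀ = cj n⁻¹ B := by
      by_contra hne
      exact hA₀max (cj n⁻¹ B) hB'P hB'ea (lt_of_le_of_ne hA₀B' hne)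
    rw [heq, cj_cj_inv]

theorem exists_elemAb_gt_of_ideal {p : ℕ} [Fact p.Prime] {R : Subgroup G}
    (hR : R ∈ sylSet p (⊤ : Subgroup G)) (hi : IsIdealPrime p G) {A : Subgroup G} (hAR : A ≤ R)
    (hA : IsElementaryAbelian p A) (hAc : Nat.card A = p ^ 2) :
    ∃ B : Subgroup G, B ≤ R ∧ IsElementaryAbelian p B ∧ A < B := by
  obtain ⟨Ps, hPs⟩ := p14c_exists_sylow hR
  have hAP : A ≤ (Ps : Subgroup G) := by rw [hPs]; exact hAR
  obtain ⟨B, hB, hBea, hAB⟩ := hi.2.2 Ps A hAP hA hAc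
  exact ⟨B, by rw [← hPs]; exact hB, hBea, hAB⟩

end Cfsg.Agent.Lib.Helper20.BG12
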