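import Cfsg.Agent.Lib.Helper3.BG12Defs
import Cfsg.Agent.S1453
import Cfsg.Agent.Lib.Helper20.BG10P3

/-!
# B&G section 12, piece P14N `rank3_cent_of_narrow` (job 1165, helper20)
-/

set_option autoImplicit false

open Cfsg Cfsg.Agent.Lib.Helper32 Cfsg.Agent.Lib.Helper32.BG10 Cfsg.Agent.Lib.Helper3.BG12

namespace Cfsg.Agent.Lib.Helper20.BG12

universe u

section Abstract

variable {Λ : Type*} [Group Λ] [Finite Λ]

omit [Finite Λ] in
/-- a subgroup of prime order is commutative of exponent `p` -/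
theorem p14n_prime_card {p : ℕ} [Fact p.Prime] {X : Subgroup Λ} (hX : Nat.card X = p) :
    (∀ a ∈ X, ∀ b ∈ X, a * b = b * a) ∧ ∀ a ∈ X, a ^ p = 1 := by
  constructor
  · intro a ha b hb
    have hcyc : IsCyclic ↥X := isCyclic_of_prime_card hX
    obtain ⟨g, hg⟩ := hcyc.exists_generator
    obtain ⟨i, hi⟩ := Subgroup.mem_zpowers_iff.mp (hg ⟨a, ha⟩)
    obtain ⟨j, hj⟩ := Subgroup.mem_zpowers_iff.mp (hg ⟨b, hb⟩)
    have h1 : (⟨a, ha⟩ : ↥X) * ⟨b, hb⟩ = ⟨b, hb⟩ * ⟨a, ha⟩ := by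
      rw [← hi, ← hj, ← zpow_add, ← zpow_add, add_comm]
    exact congrArg Subtype.val h1
  · intro a ha
    have h1 : orderOf a ∣ Nat.card X := Subgroup.orderOf_dvd_natCard X ha
    rw [hX] at h1
    exact orderOf_dvd_iff_pow_eq_one.mp h1

/-- the abstract core of B&G 12.14 (narrow case) -/
theorem p14n_core {p : ℕ} [Fact p.Prime] {W X F : Subgroup Λ}
    (hWc : ∀ a ∈ W, ∀ b ∈ W, a * b = b * a) (hWe : ∀ a ∈ W, a ^ p = 1)
    (hWcard : Nat.card W = p ^ 2) (hTn : (Subgroup.centralizer (W : Set Λ)).Normal)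
    (hTi : (Subgroup.centralizer (W : Set Λ)).index = p)
    (hFc : ∀ a ∈ F, ∀ b ∈ F, a * b = b * a) (hFe : ∀ a ∈ F, a ^ p = 1)
    (hFcard : p ^ 2 < Nat.card F) (hXT : X ≤ Subgroup.centralizer (W : Set Λ))
    (hXcard : Nat.card X = p) :
    ∃ B : Subgroup Λ, B ≤ Subgroup.centralizer (X : Set Λ) ∧
      (∀ a ∈ B, ∀ b ∈ B, a * b = b * a) ∧ (∀ a ∈ B, a ^ p = 1) ∧ p ^ 2 < Nat.card B := by
  have hp := (Fact.out : p.Prime)
  obtain ⟨hXc, hXe⟩ := p14n_prime_card hXcard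
  by_cases hXW : X ≤ W
  · -- case B
    obtain ⟨F₀, hF₀⟩ : ∃ F₀ : Subgroup Λ, F₀ = F ⊓ Subgroup.centralizer (W : Set Λ) := ⟨_, rfl⟩
    have hF₀F : F₀ ≤ F := by rw [hF₀]; exact inf_le_left
    have hF₀T : F₀ ≤ Subgroup.centralizer (W : Set Λ) := by rw [hF₀]; exact inf_le_right
    have hF₀c : ∀ a ∈ F₀, ∀ b ∈ F₀, a * b = b * a := fun a ha b hb =>
      hFc a (hF₀F ha) b (hF₀F hb)
    have hF₀e : ∀ a ∈ F₀, a ^ p = 1 := fun a ha => hFe a (hF₀F ha)
    have hF₀W : ∀ a ∈ F₀, ∀ b ∈ W, a * b = b * a := fun a ha b hb =>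
      (Subgroup.mem_centralizer_iff.mp (hF₀T ha) b hb).symm
    obtain ⟨hBc, hBe⟩ := Cfsg.Agent.Lib.Helper20.BG10.elemAb_sup hF₀c hWc hF₀W hF₀e hWe
    have hWT : W ≤ Subgroup.centralizer (W : Set Λ) := by
      intro w hw
      rw [Subgroup.mem_centralizer_iff]
      intro b hb
      exact hWc b hb w hw
    have hBT : F₀ ⊔ W ≤ Subgroup.centralizer (W : Set Λ) := sup_le hF₀T hWT
    have hTX : Subgroup.centralizer (W : Set Λ) ≤ Subgroup.centralizer (X : Set Λ) :=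
      Subgroup.centralizer_le hXW
    refine ⟨F₀ ⊔ W, hBT.trans hTX, hBc, hBe, ?_⟩
    by_contra hcard
    push Not at hcard
    have hWB : W = F₀ ⊔ W := Subgroup.eq_of_le_of_card_ge le_sup_right (by rw [hWcard]; exact hcard)
    have hF₀W' : F₀ ≤ W := by rw [hWB]; exact le_sup_left
    -- `card F₀ ≥ p ^ 2`
    have hrel : (F ⊓ Subgroup.centralizer (W : Set Λ)).relIndex F ∣ p := by
      rw [Subgroup.inf_relIndex_left, ← hTi]
      exact Subgroup.relIndex_dvd_index_of_normal _ _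
    have hmul := Cfsg.Agent.Lib.Helper30.card_eq_card_mul_relIndex
      (inf_le_left : F ⊓ Subgroup.centralizer (W : Set Λ) ≤ F)
    rw [← hF₀] at hrel hmul
    have hpg : IsPGroup p ↥F₀ := fun g => ⟨1, by
      rw [pow_one]; exact Subtype.ext (hF₀e g.1 g.2)⟩
    obtain ⟨n, hn⟩ := IsPGroup.iff_card.mp hpg
    have hrle : F₀.relIndex F ≤ p := Nat.le_of_dvd hp.pos hrel
    have hn2 : 2 ≤ n := by
      by_contra hlt
      push Not at hlt
      have h1 : Nat.card F₀ ≤ p := by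
        rw [hn]
        calc p ^ n ≤ p ^ 1 := Nat.pow_le_pow_right hp.pos (by omega)
          _ = p := pow_one p
      have h2 : Nat.card F ≤ p * p := by
        rw [hmul]
        exact Nat.mul_le_mul h1 hrle
      rw [← pow_two] at h2
      omega
    have hF₀ge : p ^ 2 ≤ Nat.card F₀ := by
      rw [hn]; exact Nat.pow_le_pow_right hp.pos hn2
    have hF₀eq : F₀ = W := Subgroup.eq_of_le_of_card_ge hF₀W' (by rw [hWcard]; exact hF₀ge)
    have hWF : W ≤ F := by rw [← hF₀eq]; exact hF₀F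
    have hFT : F ≤ Subgroup.centralizer (W : Set Λ) := by
      intro f hf
      rw [Subgroup.mem_centralizer_iff]
      intro w hw
      exact hFc w (hWF hw) f hf
    have hFF₀ : F = F₀ := by
      rw [hF₀]
      exact (inf_eq_left.mpr hFT).symm
    rw [hFF₀, hF₀eq, hWcard] at hFcard
    exact lt_irrefl _ hFcard
  · -- case A
    have hWX : ∀ a ∈ W, ∀ b ∈ X, a * b = b * a := fun a ha b hb =>
      Subgroup.mem_centralizer_iff.mp (hXT hb) a ha
    obtain ⟨hBc, hBe⟩ := Cfsg.Agent.Lib.Helper20.BG10.elemAb_sup hWc hXc hWX hWe hXe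
    refine ⟨W ⊔ X, ?_, hBc, hBe, ?_⟩
    · intro y hy
      rw [Subgroup.mem_centralizer_iff]
      intro x hx
      exact hBc x (le_sup_right (a := W) hx) y hy
    · by_contra hcard
      push Not at hcard
      have hWB : W = W ⊔ X := Subgroup.eq_of_le_of_card_ge le_sup_left (by rw [hWcard]; exact hcard)
      apply hXW
      rw [hWB]
      exact le_sup_right

end Abstract

variable {G : Type u} [Group G] [Finite G]

theorem rank3_cent_of_narrow {p : ℕ} [Fact p.Prime] (hp : p ≠ 2) {R : Subgroup G}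
    (hR : IsPGroup p R) (hr : ¬ PRankLE p 2 ↥R) {E : Subgroup G} (hER : E ≤ R)
    (hE : IsElementaryAbelian p E) (hE2 : Nat.card E = p ^ 2)
    (hEmax : ∀ B : Subgroup G, B ≤ R → IsElementaryAbelian p B → E ≤ B → B = E)
    {X : Subgroup G} (hX : X ≤ ⁅R, R⁆) (hXc : Nat.card X = p) :
    ¬ PRankLE p 2 ↥(R ⊓ Subgroup.centralizer (X : Set G)) := by
  -- the hypotheses of S1453 for `↥R`
  have hEea : IsElementaryAbelian p (E.subgroupOf R) := by
    refine ⟨⟨⟨fun a b => ?_⟩⟩, fun a ha => ?_⟩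
    · have h1 := hE.1.is_comm.comm ⟨a.1.1, a.2⟩ ⟨b.1.1, b.2⟩
      have h2 : (a.1.1 : G) * b.1.1 = b.1.1 * a.1.1 := congrArg Subtype.val h1
      exact Subtype.ext (Subtype.ext h2)
    · exact Subtype.ext (hE.2 _ (Subgroup.mem_subgroupOf.mp ha))
  have hEcard : Nat.card (E.subgroupOf R) = p ^ 2 := by
    rw [Nat.card_congr (Subgroup.subgroupOfEquivOfLe hER).toEquiv, hE2]
  have hEmax' : ∀ B₁ : Subgroup ↥R, IsElementaryAbelian p B₁ → E.subgroupOf R ≤ B₁ →
      B₁ = E.subgroupOf R := by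
    rintro B₁ ⟨hc, he⟩ hle
    have h1 : B₁.map R.subtype = E := by
      apply hEmax
      · rintro _ ⟨y, -, rfl⟩
        exact y.2
      · refine ⟨⟨⟨fun a b => ?_⟩⟩, ?_⟩
        · obtain ⟨a, a', ha', rfl⟩ := a
          obtain ⟨b, b', hb', rfl⟩ := b
          have h2 := hc.is_comm.comm ⟨a', ha'⟩ ⟨b', hb'⟩
          exact Subtype.ext (congrArg (fun z : ↥B₁ => ((z : ↥R) : G)) h2)
        · rintro _ ⟨a, ha, rfl⟩
          have h2 := congrArg (fun z : ↥R => (z : G)) (he a ha)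
          simpa using h2
      · intro b hb
        exact ⟨⟨b, hER hb⟩, hle (Subgroup.mem_subgroupOf.mpr hb), rfl⟩
    ext y
    rw [Subgroup.mem_subgroupOf, ← h1]
    constructor
    · intro hy
      exact Subgroup.mem_map_of_mem _ hy
    · rintro ⟨z, hz, hzy⟩
      have hzy' : z = y := Subtype.ext hzy
      rwa [← hzy']
  obtain ⟨-, -, ⟨hWea, hWcard⟩, hTchar, hTi⟩ :=
    Cfsg.Agent.S1453.result p hp hR hr (E.subgroupOf R) hEea hEcard hEmax'
  obtain ⟨W, hW⟩ : ∃ W : Subgroup ↥R, W = Subgroup.closure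
      {x : ↥R | x ∈ Subgroup.upperCentralSeries ↥R 2 ∧ x ^ p = 1} := ⟨_, rfl⟩
  rw [← hW] at hWea hWcard hTchar hTi
  have hWc : ∀ a ∈ W, ∀ b ∈ W, a * b = b * a := fun a ha b hb =>
    congrArg Subtype.val (hWea.1.is_comm.comm ⟨a, ha⟩ ⟨b, hb⟩)
  have hWe : ∀ a ∈ W, a ^ p = 1 := hWea.2
  have hTn : (Subgroup.centralizer (W : Set ↥R)).Normal := Subgroup.normal_of_characteristic _
  -- `X ≤ T`
  have hRR : (⁅R, R⁆ : Subgroup G) ≤ R := by
    rw [Subgroup.commutator_le]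
    intro a ha b hb
    rw [commutatorElement_def]
    exact R.mul_mem (R.mul_mem (R.mul_mem ha hb) (R.inv_mem ha)) (R.inv_mem hb)
  have hXR : X ≤ R := hX.trans hRR
  have hcomm : (commutator ↥R).map R.subtype = ⁅R, R⁆ := by
    rw [commutator_def, Subgroup.map_commutator, ← MonoidHom.range_eq_map, Subgroup.range_subtype]
  have hcT : commutator ↥R ≤ Subgroup.centralizer (W : Set ↥R) := by
    have hcard : Nat.card (↥R ⧸ Subgroup.centralizer (W : Set ↥R)) = p := by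
      rw [← Subgroup.index_eq_card]; exact hTi
    have hcyc : IsCyclic (↥R ⧸ Subgroup.centralizer (W : Set ↥R)) := isCyclic_of_prime_card hcard
    let _ := IsCyclic.commGroup (α := ↥R ⧸ Subgroup.centralizer (W : Set ↥R))
    have h1 := Abelianization.commutator_subset_ker
      (QuotientGroup.mk' (Subgroup.centralizer (W : Set ↥R)))
    rwa [QuotientGroup.ker_mk'] at h1
  have hXT : X.subgroupOf R ≤ Subgroup.centralizer (W : Set ↥R) := by
    intro x hx
    have h1 : (x : G) ∈ ⁅R, R⁆ := hX (Subgroup.mem_subgroupOf.mp hx)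
    rw [← hcomm] at h1
    obtain ⟨c, hc, hcx⟩ := h1
    have hcx' : c = x := Subtype.ext hcx
    rw [← hcx']
    exact hcT hc
  have hXcard : Nat.card (X.subgroupOf R) = p := by
    rw [Nat.card_congr (Subgroup.subgroupOfEquivOfLe hXR).toEquiv, hXc]
  -- a rank 3 subgroup of `↥R`
  have hr' := hr
  unfold PRankLE at hr'
  push Not at hr'
  obtain ⟨F, hFc, hFe, hFcard⟩ := hr'
  have hFc' : ∀ a ∈ F, ∀ b ∈ F, a * b = b * a := fun a ha b hb =>
    congrArg Subtype.val (hFc.is_comm.comm ⟨a, ha⟩ ⟨b, hb⟩)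
  obtain ⟨B, hBX, hBc, hBe, hBcard⟩ :=
    p14n_core hWc hWe hWcard hTn hTi hFc' hFe hFcard hXT hXcard
  -- transport to `G`
  apply not_prankLE_of_le (E := B.map R.subtype)
  · rintro _ ⟨b, hb, rfl⟩
    refine ⟨b.2, ?_⟩
    show (b : G) ∈ Subgroup.centralizer (X : Set G)
    rw [Subgroup.mem_centralizer_iff]
    intro x hx
    have h1 := Subgroup.mem_centralizer_iff.mp (hBX hb) ⟨x, hXR hx⟩
      (Subgroup.mem_subgroupOf.mpr hx)
    exact congrArg Subtype.val h1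
  · rintro _ ⟨a, ha, rfl⟩ _ ⟨b, hb, rfl⟩
    exact congrArg Subtype.val (hBc a ha b hb)
  · rintro _ ⟨a, ha, rfl⟩
    have h2 := congrArg (fun z : ↥R => (z : G)) (hBe a ha)
    simpa using h2
  · rw [Cfsg.Agent.Lib.Helper30.card_map_subtype]
    exact hBcard

end Cfsg.Agent.Lib.Helper20.BG12
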