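import Mathlib

/-!
# Piece BQ-F1 of S0996 (helper5): basic facts on `N = N_G(P)`, `|P| = p`, `C_G(P) = P`
-/

set_option autoImplicit false

namespace Cfsg.Agent.Lib.Helper5.BQ

/-- a subgroup of prime order is generated by each of its nonidentity elements -/
theorem bqf1_zpowers_eq {G : Type*} [Group G] [Finite G] (p : ℕ) (hp : p.Prime) (P : Subgroup G)
    (hcardP : Nat.card P = p) (u : G) (hu : u ∈ P) (hu1 : u ≠ 1) : Subgroup.zpowers u = P := by
  have hle : Subgroup.zpowers u ≤ P := by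
    rw [Subgroup.zpowers_le]; exact hu
  have hdvd : orderOf u ∣ p := by
    have h1 : orderOf (⟨u, hu⟩ : P) ∣ Nat.card P := orderOf_dvd_natCard _
    rw [hcardP] at h1
    have h2 : orderOf (⟨u, hu⟩ : P) = orderOf u := by
      rw [← Subgroup.orderOf_coe]
    rw [← h2]; exact h1
  have hord : orderOf u = p := by
    rcases (Nat.dvd_prime hp).mp hdvd with h | h
    · exact absurd (orderOf_eq_one_iff.mp h) hu1
    · exact h
  apply Subgroup.eq_of_le_of_card_ge hle
  rw [Nat.card_zpowers, hord, hcardP]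

/-- BQ-F1 -/
theorem frob_basic {G : Type*} [Group G] [Finite G] (p : ℕ) (hp : p.Prime) (P : Subgroup G)
    (hcardP : Nat.card P = p) (hcent : Subgroup.centralizer (P : Set G) = P) :
    (∀ a ∈ Subgroup.normalizer (P : Set G), ∀ b ∈ Subgroup.normalizer (P : Set G),
      a * b * a⁻¹ * b⁻¹ ∈ P) ∧
    (∀ y ∈ Subgroup.normalizer (P : Set G), y ∉ P → ∀ u ∈ P, u * y = y * u → u = 1) ∧
    (∀ y ∈ Subgroup.normalizer (P : Set G), y ∉ P → ∀ w ∈ P, ∃ u ∈ P,
      u * y * u⁻¹ = y * w) := by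
  classical
  -- an element commuting with a generator lies in P
  have hcz : ∀ z ∈ P, z ≠ 1 → ∀ d : G, d * z = z * d → d ∈ P := by
    intro z hz hz1 d hd
    rw [← hcent, Subgroup.mem_centralizer_iff]
    intro x hx
    have hx' : x ∈ Subgroup.zpowers z := by
      rw [bqf1_zpowers_eq p hp P hcardP z hz hz1]; exact hx
    obtain ⟨k, rfl⟩ := Subgroup.mem_zpowers_iff.mp hx'
    exact ((show Commute d z from hd).zpow_right k).eq.symm
  have hconj : ∀ a ∈ Subgroup.normalizer (P : Set G), ∀ x ∈ P, a * x * a⁻¹ ∈ P := by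
    intro a ha x hx
    exact (Subgroup.mem_normalizer_iff.mp ha x).mp hx
  have hconj' : ∀ a ∈ Subgroup.normalizer (P : Set G), ∀ x ∈ P, a⁻¹ * x * a ∈ P := by
    intro a ha x hx
    have := hconj a⁻¹ (Subgroup.inv_mem _ ha) x hx
    rwa [inv_inv] at this
  have hfix : ∀ y ∈ Subgroup.normalizer (P : Set G), y ∉ P → ∀ u ∈ P, u * y = y * u → u = 1 := by
    intro y _ hyP u hu huy
    by_contra hu1
    exact hyP (hcz u hu hu1 y huy.symm)
  refine ⟨?_, hfix, ?_⟩
  · intro a ha b hb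
    have hPne : P ≠ ⊥ := by
      intro h
      rw [h, Subgroup.card_bot] at hcardP
      exact hp.one_lt.ne hcardP
    obtain ⟨⟨z, hz⟩, hz1⟩ := (Subgroup.ne_bot_iff_exists_ne_one).mp hPne
    have hz1' : z ≠ 1 := fun h => hz1 (Subtype.ext h)
    have hgen := bqf1_zpowers_eq p hp P hcardP z hz hz1'
    have haz : a * z * a⁻¹ ∈ Subgroup.zpowers z := by rw [hgen]; exact hconj a ha z hz
    have hbz : b * z * b⁻¹ ∈ Subgroup.zpowers z := by rw [hgen]; exact hconj b hb z hz
    obtain ⟨i, hi⟩ := Subgroup.mem_zpowers_iff.mp haz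
    obtain ⟨j, hj⟩ := Subgroup.mem_zpowers_iff.mp hbz
    have hab : (a * b) * z * (a * b)⁻¹ = z ^ (i * j) := by
      calc (a * b) * z * (a * b)⁻¹ = a * (b * z * b⁻¹) * a⁻¹ := by group
        _ = a * z ^ j * a⁻¹ := by rw [← hj]
        _ = (a * z * a⁻¹) ^ j := by rw [conj_zpow]
        _ = z ^ (i * j) := by rw [← hi, ← zpow_mul]
    have hba : (b * a) * z * (b * a)⁻¹ = z ^ (i * j) := by
      calc (b * a) * z * (b * a)⁻¹ = b * (a * z * a⁻¹) * b⁻¹ := by group
        _ = b * z ^ i * b⁻¹ := by rw [← hi]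
        _ = (b * z * b⁻¹) ^ i := by rw [conj_zpow]
        _ = z ^ (i * j) := by rw [← hj, ← zpow_mul, mul_comm]
    -- d = (a b)⁻¹ (b a) commutes with z
    have hd : ((a * b)⁻¹ * (b * a)) * z = z * ((a * b)⁻¹ * (b * a)) := by
      have h1 : (b * a) * z = z ^ (i * j) * (b * a) := by
        rw [← hba]; group
      have h2 : (a * b)⁻¹ * z ^ (i * j) = z * (a * b)⁻¹ := by
        rw [← hab]; group
      calc ((a * b)⁻¹ * (b * a)) * z = (a * b)⁻¹ * ((b * a) * z) := by group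
        _ = (a * b)⁻¹ * (z ^ (i * j) * (b * a)) := by rw [h1]
        _ = ((a * b)⁻¹ * z ^ (i * j)) * (b * a) := by group
        _ = (z * (a * b)⁻¹) * (b * a) := by rw [h2]
        _ = z * ((a * b)⁻¹ * (b * a)) := by group
    have hdP : (a * b)⁻¹ * (b * a) ∈ P := hcz z hz hz1' _ hd
    have hdP' : ((a * b)⁻¹ * (b * a))⁻¹ ∈ P := Subgroup.inv_mem _ hdP
    have habN : a * b ∈ Subgroup.normalizer (P : Set G) := Subgroup.mul_mem _ ha hb
    have := hconj (a * b) habN _ hdP'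
    have heq : (a * b) * ((a * b)⁻¹ * (b * a))⁻¹ * (a * b)⁻¹ = a * b * a⁻¹ * b⁻¹ := by group
    rwa [heq] at this
  · intro y hy hyP w hw
    have hinj : Function.Injective (fun u : P => (⟨y⁻¹ * (u : G) * y * (u : G)⁻¹,
        Subgroup.mul_mem _ (hconj' y hy _ u.2) (Subgroup.inv_mem _ u.2)⟩ : P)) := by
      intro u v huv
      have h1 : y⁻¹ * (u : G) * y * (u : G)⁻¹ = y⁻¹ * (v : G) * y * (v : G)⁻¹ :=
        congrArg Subtype.val huv
      have h2 : ((v : G)⁻¹ * (u : G)) * y = y * ((v : G)⁻¹ * (u : G)) := by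
        have h3 : (u : G) * y * (u : G)⁻¹ = (v : G) * y * (v : G)⁻¹ := by
          calc (u : G) * y * (u : G)⁻¹ = y * (y⁻¹ * (u : G) * y * (u : G)⁻¹) := by group
            _ = y * (y⁻¹ * (v : G) * y * (v : G)⁻¹) := by rw [h1]
            _ = (v : G) * y * (v : G)⁻¹ := by group
        calc ((v : G)⁻¹ * (u : G)) * y = (v : G)⁻¹ * ((u : G) * y * (u : G)⁻¹) * (u : G) := by group
          _ = (v : G)⁻¹ * ((v : G) * y * (v : G)⁻¹) * (u : G) := by rw [h3]
          _ = y * ((v : G)⁻¹ * (u : G)) := by group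
      have h4 := hfix y hy hyP _ (Subgroup.mul_mem _ (Subgroup.inv_mem _ v.2) u.2) h2
      apply Subtype.ext
      have : (u : G) = (v : G) * ((v : G)⁻¹ * (u : G)) := by group
      rw [this, h4, mul_one]
    have hsurj := Finite.surjective_of_injective hinj
    obtain ⟨u, hu⟩ := hsurj ⟨w, hw⟩
    refine ⟨u, u.2, ?_⟩
    have h1 : y⁻¹ * (u : G) * y * (u : G)⁻¹ = w := congrArg Subtype.val hu
    rw [← h1]; group

end Cfsg.Agent.Lib.Helper5.BQ
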