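import Mathlib

/-!
# Piece BT-L0 of S4700 (helper10): two-point stabilizers have order `e`
-/

set_option autoImplicit false

namespace Cfsg.Agent.Lib.Helper10.BT

open scoped Pointwise

/-- a subgroup of prime order is generated by each of its nonidentity elements -/
theorem btl0_zpowers_eq {G : Type*} [Group G] [Finite G] (p : ℕ) (hp : p.Prime) (P : Subgroup G)
    (hcardP : Nat.card P = p) (u : G) (hu : u ∈ P) (hu1 : u ≠ 1) : Subgroup.zpowers u = P := by
  have hle : Subgroup.zpowers u ≤ P := by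
    rw [Subgroup.zpowers_le]; exact hu
  have hdvd : orderOf u ∣ p := by
    have h1 : orderOf (⟨u, hu⟩ : P) ∣ Nat.card P := orderOf_dvd_natCard _
    rw [hcardP] at h1
    have h2 : orderOf (⟨u, hu⟩ : P) = orderOf u := by
      rw [← Subgroup.orderOf_coe]
    rw [← h2]; exact h1
  have hord : orderOf u = p := by
    rcases (Nat.dvd_prime hp).mp hdvd with h | h
    · exact absurd (orderOf_eq_one_iff.mp h) hu1
    · exact h
  apply Subgroup.eq_of_le_of_card_ge hle
  rw [Nat.card_zpowers, hord, hcardP]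

/-- a `p`-element of the normalizer of a Sylow `p`-subgroup lies in it -/
theorem btl0_mem_of_pelt {G : Type*} [Group G] (p : ℕ) [Fact p.Prime] (P : Sylow p G)
    (z : G) (hz : z ∈ Subgroup.normalizer ((P : Subgroup G) : Set G))
    (hzp : IsPGroup p (Subgroup.zpowers z)) : z ∈ (P : Subgroup G) := by
  have h1 : IsPGroup p (Subgroup.zpowers z ⊔ (P : Subgroup G) : Subgroup G) :=
    IsPGroup.to_sup_of_normal_right' hzp P.isPGroup' (by rw [Subgroup.zpowers_le]; exact hz)
  have h2 := P.is_maximal' h1 le_sup_right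
  have h3 : Subgroup.zpowers z ≤ (P : Subgroup G) := by rw [← h2]; exact le_sup_left
  exact h3 (Subgroup.mem_zpowers z)

/-- `Sylow.smul_eq_iff_mem_normalizer` with the coercion through `Subgroup` -/
theorem btl0_smul_iff {G : Type*} [Group G] (p : ℕ) (g : G) (P : Sylow p G) :
    g • P = P ↔ g ∈ Subgroup.normalizer ((P : Subgroup G) : Set G) :=
  Sylow.smul_eq_iff_mem_normalizer

/-- for `g ∉ N(P)`, `|P| = p`: no nonidentity element of `P` is conjugated into `N(P)` by `g` -/
theorem btl0_key {G : Type*} [Group G] [Finite G] (p : ℕ) [Fact p.Prime] (P : Sylow p G)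
    (hP : Nat.card P = p)
    (g : G) (hg : g ∉ Subgroup.normalizer ((P : Subgroup G) : Set G))
    (y : G) (hy : y ∈ (P : Subgroup G))
    (hgy : g * y * g⁻¹ ∈ Subgroup.normalizer ((P : Subgroup G) : Set G)) : y = 1 := by
  classical
  have hp : p.Prime := Fact.out
  by_contra hy1
  apply hg
  rw [← btl0_smul_iff]
  have hmem' : g * y * g⁻¹ ∈ ((g • P : Sylow p G) : Subgroup G) := by
    rw [Sylow.smul_def, Sylow.pointwise_smul_def]
    have h0 := Subgroup.smul_mem_pointwise_smul y (MulAut.conj g) (P : Subgroup G) hy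
    rw [MulAut.smul_def, MulAut.conj_apply] at h0
    exact h0
  have hpz : IsPGroup p (Subgroup.zpowers (g * y * g⁻¹)) := by
    apply (g • P : Sylow p G).isPGroup'.to_le
    rw [Subgroup.zpowers_le]; exact hmem'
  have hmem : g * y * g⁻¹ ∈ (P : Subgroup G) := btl0_mem_of_pelt p P _ hgy hpz
  have hne : g * y * g⁻¹ ≠ 1 := by
    intro h
    apply hy1
    have : y = g⁻¹ * (g * y * g⁻¹) * g := by group
    rw [this, h]; group
  have hcard' : Nat.card ((g • P : Sylow p G) : Subgroup G) = p := by
    exact (Sylow.card_eq_multiplicity (g • P : Sylow p G)).trans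
      ((Sylow.card_eq_multiplicity P).symm.trans hP)
  have e1 := btl0_zpowers_eq p hp (P : Subgroup G) hP _ hmem hne
  have e2 := btl0_zpowers_eq p hp ((g • P : Sylow p G) : Subgroup G) hcard' _ hmem' hne
  apply Sylow.ext
  rw [← e2, e1]

/-- for `g ∉ N(P)`, `|P| = p`: the set `{y ∈ N : g y g⁻¹ ∈ N}` has at most `e` elements -/
theorem btl0_card_le {G : Type*} [Group G] [Finite G] (p : ℕ) [Fact p.Prime] (P : Sylow p G)
    (hP : Nat.card P = p) (e : ℕ)
    (hN : Nat.card (Subgroup.normalizer ((P : Subgroup G) : Set G)) = e * p)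
    (g : G) (hg : g ∉ Subgroup.normalizer ((P : Subgroup G) : Set G)) :
    Nat.card {y : G // y ∈ Subgroup.normalizer ((P : Subgroup G) : Set G) ∧
      g * y * g⁻¹ ∈ Subgroup.normalizer ((P : Subgroup G) : Set G)} ≤ e := by
  classical
  have hp : p.Prime := Fact.out
  have hPle : (P : Subgroup G) ≤ Subgroup.normalizer ((P : Subgroup G) : Set G) :=
    Subgroup.le_normalizer
  let f : {y : G // y ∈ Subgroup.normalizer ((P : Subgroup G) : Set G) ∧
      g * y * g⁻¹ ∈ Subgroup.normalizer ((P : Subgroup G) : Set G)} × (P : Subgroup G) →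
      Subgroup.normalizer ((P : Subgroup G) : Set G) :=
    fun q => ⟨q.1.1 * q.2.1, Subgroup.mul_mem _ q.1.2.1 (hPle q.2.2)⟩
  have hf : Function.Injective f := by
    rintro ⟨⟨t, ht1, ht2⟩, ⟨x, hx⟩⟩ ⟨⟨t', ht1', ht2'⟩, ⟨x', hx'⟩⟩ h
    have h' : t * x = t' * x' := congrArg Subtype.val h
    have h1 : t'⁻¹ * t = x' * x⁻¹ := by
      have : t'⁻¹ * t = t'⁻¹ * (t * x) * x⁻¹ := by group
      rw [this, h']; group
    have h2 : t'⁻¹ * t ∈ (P : Subgroup G) := by
      rw [h1]; exact Subgroup.mul_mem _ hx' (Subgroup.inv_mem _ hx)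
    have h3 : g * (t'⁻¹ * t) * g⁻¹ ∈ Subgroup.normalizer ((P : Subgroup G) : Set G) := by
      have : g * (t'⁻¹ * t) * g⁻¹ = (g * t' * g⁻¹)⁻¹ * (g * t * g⁻¹) := by group
      rw [this]; exact Subgroup.mul_mem _ (Subgroup.inv_mem _ ht2') ht2
    have h4 : t'⁻¹ * t = 1 := btl0_key p P hP g hg _ h2 h3
    have h5 : t = t' := by
      have : t = t' * (t'⁻¹ * t) := by group
      rw [this, h4, mul_one]
    subst h5
    have h6 : x = x' := mul_left_cancel h'
    subst h6
    rfl
  have hc := Nat.card_le_card_of_injective f hf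
  rw [Nat.card_prod, hN, hP] at hc
  exact Nat.le_of_mul_le_mul_right hc hp.pos

/-- BT-L0 -/
theorem inter_card {G : Type*} [Group G] [Fintype G] (p : ℕ) [Fact p.Prime] (P : Sylow p G)
    (hP : Nat.card P = p) (e n : ℕ)
    (hN : Nat.card (Subgroup.normalizer ((P : Subgroup G) : Set G)) = e * p)
    (hG : Nat.card G = (1 + n * p) * (e * p))
    (hsum : ∑ g : G, Nat.card {y : G // y ∈ Subgroup.normalizer ((P : Subgroup G) : Set G) ∧
      g * y * g⁻¹ ∈ Subgroup.normalizer ((P : Subgroup G) : Set G)} = (n + 1) * (e * p) ^ 2) :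
    ∀ P₁ P₂ : Sylow p G, P₁ ≠ P₂ →
      Nat.card ↥(Subgroup.normalizer ((P₁ : Subgroup G) : Set G) ⊓
        Subgroup.normalizer ((P₂ : Subgroup G) : Set G)) = e := by
  classical
  have hp : p.Prime := Fact.out
  have hle : ∀ g : G, g ∉ Subgroup.normalizer ((P : Subgroup G) : Set G) →
      Nat.card {y : G // y ∈ Subgroup.normalizer ((P : Subgroup G) : Set G) ∧
        g * y * g⁻¹ ∈ Subgroup.normalizer ((P : Subgroup G) : Set G)} ≤ e :=
    fun g hg => btl0_card_le p P hP e hN g hg
  have heq : ∀ g : G, g ∈ Subgroup.normalizer ((P : Subgroup G) : Set G) →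
      Nat.card {y : G // y ∈ Subgroup.normalizer ((P : Subgroup G) : Set G) ∧
        g * y * g⁻¹ ∈ Subgroup.normalizer ((P : Subgroup G) : Set G)} = e * p := by
    intro g hg
    rw [← hN]
    apply Nat.card_congr
    exact
      { toFun := fun y => ⟨y.1, y.2.1⟩
        invFun := fun y => ⟨y.1, y.2,
          Subgroup.mul_mem _ (Subgroup.mul_mem _ hg y.2) (Subgroup.inv_mem _ hg)⟩
        left_inv := fun y => rfl
        right_inv := fun y => rfl }
  have hall : ∀ g : G, g ∉ Subgroup.normalizer ((P : Subgroup G) : Set G) →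
      Nat.card {y : G // y ∈ Subgroup.normalizer ((P : Subgroup G) : Set G) ∧
        g * y * g⁻¹ ∈ Subgroup.normalizer ((P : Subgroup G) : Set G)} = e := by
    intro g₀ hg₀
    by_contra hne
    have hlt : Nat.card {y : G // y ∈ Subgroup.normalizer ((P : Subgroup G) : Set G) ∧
        g₀ * y * g₀⁻¹ ∈ Subgroup.normalizer ((P : Subgroup G) : Set G)} < e :=
      lt_of_le_of_ne (hle g₀ hg₀) hne
    have hsumlt : ∑ g : G, Nat.card {y : G // y ∈ Subgroup.normalizer ((P : Subgroup G) : Set G) ∧
        g * y * g⁻¹ ∈ Subgroup.normalizer ((P : Subgroup G) : Set G)} <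
        ∑ g : G, (if g ∈ Subgroup.normalizer ((P : Subgroup G) : Set G) then e * p else e) := by
      apply Finset.sum_lt_sum
      · intro g _
        by_cases hg : g ∈ Subgroup.normalizer ((P : Subgroup G) : Set G)
        · rw [if_pos hg, heq g hg]
        · rw [if_neg hg]; exact hle g hg
      · exact ⟨g₀, Finset.mem_univ _, by rw [if_neg hg₀]; exact hlt⟩
    have hval : ∑ g : G, (if g ∈ Subgroup.normalizer ((P : Subgroup G) : Set G) then e * p else e)
        = (n + 1) * (e * p) ^ 2 := by
      rw [Finset.sum_ite]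
      simp only [Finset.sum_const, smul_eq_mul]
      have h1 : (Finset.univ.filter
          (fun g : G => g ∈ Subgroup.normalizer ((P : Subgroup G) : Set G))).card = e * p := by
        rw [← hN, Nat.card_eq_fintype_card]
        exact (Fintype.card_subtype _).symm
      have h2 : (Finset.univ.filter
          (fun g : G => g ∉ Subgroup.normalizer ((P : Subgroup G) : Set G))).card
          = n * p * (e * p) := by
        have h3 := Finset.card_filter_add_card_filter_not (s := (Finset.univ : Finset G))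
          (fun g : G => g ∈ Subgroup.normalizer ((P : Subgroup G) : Set G))
        rw [h1, Finset.card_univ, ← Nat.card_eq_fintype_card, hG] at h3
        have h4 : (1 + n * p) * (e * p) = e * p + n * p * (e * p) := by ring
        omega
      rw [h1, h2]; ring
    rw [hsum, hval] at hsumlt
    exact lt_irrefl _ hsumlt
  intro P₁ P₂ h12
  obtain ⟨a, rfl⟩ := MulAction.exists_smul_eq G P P₁
  obtain ⟨b, rfl⟩ := MulAction.exists_smul_eq G P P₂
  have hg : b⁻¹ * a ∉ Subgroup.normalizer ((P : Subgroup G) : Set G) := by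
    intro h
    apply h12
    have h1 := (btl0_smul_iff p _ P).mpr h
    rw [mul_smul] at h1
    have h2 : b • b⁻¹ • a • P = b • P := by rw [h1]
    rw [smul_inv_smul] at h2
    exact h2
  have hmem : ∀ (c z : G),
      z ∈ Subgroup.normalizer (((c • P : Sylow p G) : Subgroup G) : Set G) ↔
        c⁻¹ * z * c ∈ Subgroup.normalizer ((P : Subgroup G) : Set G) := by
    intro c z
    rw [← btl0_smul_iff, ← btl0_smul_iff]
    constructor
    · intro h
      rw [mul_smul, mul_smul, h, inv_smul_smul]
    · intro h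
      have h1 : c • (c⁻¹ * z * c) • P = c • P := by rw [h]
      rw [← mul_smul] at h1
      rw [← mul_smul]
      have h2 : c * (c⁻¹ * z * c) = z * c := by group
      rw [h2] at h1
      exact h1
  rw [← hall (b⁻¹ * a) hg]
  apply Nat.card_congr
  exact
    { toFun := fun z => ⟨a⁻¹ * z.1 * a, (hmem a z.1).mp (Subgroup.mem_inf.mp z.2).1, by
        have h1 := (hmem b z.1).mp (Subgroup.mem_inf.mp z.2).2
        have e1 : b⁻¹ * a * (a⁻¹ * z.1 * a) * (b⁻¹ * a)⁻¹ = b⁻¹ * z.1 * b := by group
        rw [e1]; exact h1⟩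
      invFun := fun y => ⟨a * y.1 * a⁻¹, by
        refine Subgroup.mem_inf.mpr ⟨?_, ?_⟩
        · apply (hmem a _).mpr
          have e1 : a⁻¹ * (a * y.1 * a⁻¹) * a = y.1 := by group
          rw [e1]; exact y.2.1
        · apply (hmem b _).mpr
          have e1 : b⁻¹ * (a * y.1 * a⁻¹) * b = b⁻¹ * a * y.1 * (b⁻¹ * a)⁻¹ := by group
          rw [e1]; exact y.2.2⟩
      left_inv := fun z => by
        apply Subtype.ext
        show a * (a⁻¹ * z.1 * a) * a⁻¹ = z.1
        group
      right_inv := fun y => by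
        apply Subtype.ext
        show a⁻¹ * (a * y.1 * a⁻¹) * a = y.1
        group }

end Cfsg.Agent.Lib.Helper10.BT
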