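import Mathlib
import Cfsg.Agent.Lib.Helper20.BTL0

/-!
# Piece BT-L3 of S4700 (helper10): an element of `N(P₁) ∖ P₁` normalizes exactly `n + 1`
Sylow `p`-subgroups
-/

set_option autoImplicit false

namespace Cfsg.Agent.Lib.Helper10.BT

open scoped Pointwise

/-- `z` normalizes `c • P` iff `c⁻¹ z c` normalizes `P` -/
theorem btl3_mem_smul {G : Type*} [Group G] (p : ℕ) (c z : G) (P : Sylow p G) :
    z ∈ Subgroup.normalizer (((c • P : Sylow p G) : Subgroup G) : Set G) ↔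
      c⁻¹ * z * c ∈ Subgroup.normalizer ((P : Subgroup G) : Set G) := by
  rw [← btl0_smul_iff, ← btl0_smul_iff]
  constructor
  · intro h
    rw [mul_smul, mul_smul, h, inv_smul_smul]
  · intro h
    have h1 : c • (c⁻¹ * z * c) • P = c • P := by rw [h]
    rw [← mul_smul] at h1
    rw [← mul_smul]
    have h2 : c * (c⁻¹ * z * c) = z * c := by group
    rw [h2] at h1
    exact h1

/-- `P₁` acts semiregularly on the other Sylow subgroups (all of order `p`) -/
theorem btl3_semireg {G : Type*} [Group G] [Finite G] (p : ℕ) [Fact p.Prime]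
    (hP : ∀ P₁ : Sylow p G, Nat.card P₁ = p)
    (P₁ Q : Sylow p G) (hne : Q ≠ P₁) (u : G) (hu : u ∈ (P₁ : Subgroup G))
    (huQ : u ∈ Subgroup.normalizer ((Q : Subgroup G) : Set G)) : u = 1 := by
  have hp : p.Prime := Fact.out
  by_contra hu1
  have hpz : IsPGroup p (Subgroup.zpowers u) := by
    apply P₁.isPGroup'.to_le
    rw [Subgroup.zpowers_le]; exact hu
  have huQ' : u ∈ (Q : Subgroup G) := btl0_mem_of_pelt p Q u huQ hpz
  have e1 := btl0_zpowers_eq p hp (P₁ : Subgroup G) (hP P₁) u hu hu1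
  have e2 := btl0_zpowers_eq p hp (Q : Subgroup G) (hP Q) u huQ' hu1
  apply hne
  apply Sylow.ext
  rw [← e2, e1]

/-- elements of `P₁` fix `P₁` and move the other Sylow subgroups among themselves -/
theorem btl3_smul_ne {G : Type*} [Group G] (p : ℕ)
    (P₁ Q : Sylow p G) (hne : Q ≠ P₁) (u : G) (hu : u ∈ (P₁ : Subgroup G)) :
    u • Q ≠ P₁ := by
  intro h
  apply hne
  have h1 : u • P₁ = P₁ := (btl0_smul_iff p u P₁).mpr (Subgroup.le_normalizer hu)
  rw [← h1] at h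
  exact smul_left_cancel u h

/-- every element of `N(P₁) ∖ P₁` normalizes some `P₁`-translate of a given Sylow subgroup -/
theorem btl3_exists {G : Type*} [Group G] [Finite G] (p : ℕ) [Fact p.Prime] (e : ℕ)
    (hP : ∀ P₁ : Sylow p G, Nat.card P₁ = p)
    (hN : ∀ P₁ : Sylow p G,
      Nat.card (Subgroup.normalizer ((P₁ : Subgroup G) : Set G)) = e * p)
    (hT : ∀ P₁ P₂ : Sylow p G, P₁ ≠ P₂ →
      Nat.card ↥(Subgroup.normalizer ((P₁ : Subgroup G) : Set G) ⊓
        Subgroup.normalizer ((P₂ : Subgroup G) : Set G)) = e)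
    (hone : ∀ (P₁ P' : Sylow p G), P' ≠ P₁ → ∀ y u : G,
      y ∈ Subgroup.normalizer ((P₁ : Subgroup G) : Set G) → y ∉ (P₁ : Subgroup G) →
      u ∈ (P₁ : Subgroup G) → y ∈ Subgroup.normalizer ((P' : Subgroup G) : Set G) →
      y ∈ Subgroup.normalizer (((u • P' : Sylow p G) : Subgroup G) : Set G) → u = 1)
    (P₁ P' : Sylow p G) (hne : P' ≠ P₁) (y : G)
    (hy : y ∈ Subgroup.normalizer ((P₁ : Subgroup G) : Set G)) (hyP : y ∉ (P₁ : Subgroup G)) :
    ∃ u ∈ (P₁ : Subgroup G),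
      y ∈ Subgroup.normalizer (((u • P' : Sylow p G) : Subgroup G) : Set G) := by
  classical
  have hp : p.Prime := Fact.out
  have hPle : (P₁ : Subgroup G) ≤ Subgroup.normalizer ((P₁ : Subgroup G) : Set G) :=
    Subgroup.le_normalizer
  -- the map (u, t) ↦ u t u⁻¹
  let ψ : (↥(P₁ : Subgroup G) × {t : G // t ∈ (Subgroup.normalizer ((P₁ : Subgroup G) : Set G) ⊓
        Subgroup.normalizer ((P' : Subgroup G) : Set G)) ∧ t ≠ 1}) →
      {z : G // z ∈ Subgroup.normalizer ((P₁ : Subgroup G) : Set G) ∧ z ∉ (P₁ : Subgroup G)} :=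
    fun q => ⟨q.1.1 * q.2.1 * q.1.1⁻¹,
      Subgroup.mul_mem _ (Subgroup.mul_mem _ (hPle q.1.2) (Subgroup.mem_inf.mp q.2.2.1).1)
        (Subgroup.inv_mem _ (hPle q.1.2)), by
      intro h
      have h1 : q.2.1 ∈ (P₁ : Subgroup G) := by
        have e1 : q.2.1 = q.1.1⁻¹ * (q.1.1 * q.2.1 * q.1.1⁻¹) * q.1.1 := by group
        rw [e1]
        exact Subgroup.mul_mem _ (Subgroup.mul_mem _ (Subgroup.inv_mem _ q.1.2) h) q.1.2
      exact q.2.2.2 (btl3_semireg p hP P₁ P' hne q.2.1 h1 (Subgroup.mem_inf.mp q.2.2.1).2)⟩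
  have hψ : Function.Injective ψ := by
    rintro ⟨⟨u, hu⟩, ⟨t, ht, ht1⟩⟩ ⟨⟨u', hu'⟩, ⟨t', ht', ht1'⟩⟩ h
    have h' : u * t * u⁻¹ = u' * t' * u'⁻¹ := congrArg Subtype.val h
    have hz1 : u * t * u⁻¹ ∈ Subgroup.normalizer ((P₁ : Subgroup G) : Set G) := (ψ ⟨⟨u, hu⟩, ⟨t, ht, ht1⟩⟩).2.1
    have hz2 : u * t * u⁻¹ ∉ (P₁ : Subgroup G) := (ψ ⟨⟨u, hu⟩, ⟨t, ht, ht1⟩⟩).2.2
    have hz3 : u * t * u⁻¹ ∈ Subgroup.normalizer (((u • P' : Sylow p G) : Subgroup G) : Set G) := by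
      apply (btl3_mem_smul p u _ P').mpr
      have e1 : u⁻¹ * (u * t * u⁻¹) * u = t := by group
      rw [e1]; exact (Subgroup.mem_inf.mp ht).2
    have hz4 : u * t * u⁻¹ ∈
        Subgroup.normalizer ((((u' * u⁻¹) • (u • P') : Sylow p G) : Subgroup G) : Set G) := by
      rw [← mul_smul]
      have e0 : u' * u⁻¹ * u = u' := by group
      rw [e0, h']
      apply (btl3_mem_smul p u' _ P').mpr
      have e1 : u'⁻¹ * (u' * t' * u'⁻¹) * u' = t' := by group
      rw [e1]; exact (Subgroup.mem_inf.mp ht').2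
    have h5 : u' * u⁻¹ = 1 :=
      hone P₁ (u • P') (btl3_smul_ne p P₁ P' hne u hu) (u * t * u⁻¹) (u' * u⁻¹) hz1 hz2
        (Subgroup.mul_mem _ hu' (Subgroup.inv_mem _ hu)) hz3 hz4
    have h6 : u' = u := by
      have : u' = u' * u⁻¹ * u := by group
      rw [this, h5, one_mul]
    subst h6
    have h7 : t = t' := by
      have e1 : t = u'⁻¹ * (u' * t * u'⁻¹) * u' := by group
      rw [e1, h']; group
    subst h7
    rfl
  -- cardinalities
  have hcA : Nat.card {t : G // t ∈ (Subgroup.normalizer ((P₁ : Subgroup G) : Set G) ⊓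
        Subgroup.normalizer ((P' : Subgroup G) : Set G)) ∧ t ≠ 1} + 1 = e := by
    rw [← hT P₁ P' (Ne.symm hne)]
    have h1 : {t : G | t ∈ (Subgroup.normalizer ((P₁ : Subgroup G) : Set G) ⊓
        Subgroup.normalizer ((P' : Subgroup G) : Set G)) ∧ t ≠ 1} =
        ((Subgroup.normalizer ((P₁ : Subgroup G) : Set G) ⊓
        Subgroup.normalizer ((P' : Subgroup G) : Set G) : Subgroup G) : Set G) \ {1} := by
      ext t; simp
    have h2 := Set.ncard_sdiff_singleton_add_one (s := ((Subgroup.normalizer ((P₁ : Subgroup G) : Set G) ⊓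
        Subgroup.normalizer ((P' : Subgroup G) : Set G) : Subgroup G) : Set G)) (a := (1 : G))
        (Subgroup.one_mem _)
    rw [← h1] at h2
    exact h2
  have hcB : Nat.card {z : G // z ∈ Subgroup.normalizer ((P₁ : Subgroup G) : Set G) ∧
      z ∉ (P₁ : Subgroup G)} + p = e * p := by
    rw [← hN P₁]
    have h1 : {z : G | z ∈ Subgroup.normalizer ((P₁ : Subgroup G) : Set G) ∧
        z ∉ (P₁ : Subgroup G)} =
        ((Subgroup.normalizer ((P₁ : Subgroup G) : Set G) : Subgroup G) : Set G) \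
          ((P₁ : Subgroup G) : Set G) := by
      ext t; exact Iff.rfl
    have h2 := Set.ncard_sdiff_add_ncard_of_subset (s := ((P₁ : Subgroup G) : Set G))
      (t := ((Subgroup.normalizer ((P₁ : Subgroup G) : Set G) : Subgroup G) : Set G)) hPle
    rw [← h1] at h2
    have h3 : (((P₁ : Subgroup G) : Set G)).ncard = p := hP P₁
    rw [h3] at h2
    exact h2
  have hcard : Nat.card {z : G // z ∈ Subgroup.normalizer ((P₁ : Subgroup G) : Set G) ∧
      z ∉ (P₁ : Subgroup G)} ≤ Nat.card (↥(P₁ : Subgroup G) ×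
        {t : G // t ∈ (Subgroup.normalizer ((P₁ : Subgroup G) : Set G) ⊓
        Subgroup.normalizer ((P' : Subgroup G) : Set G)) ∧ t ≠ 1}) := by
    rw [Nat.card_prod, hP P₁]
    have h1 : p * (Nat.card {t : G // t ∈ (Subgroup.normalizer ((P₁ : Subgroup G) : Set G) ⊓
        Subgroup.normalizer ((P' : Subgroup G) : Set G)) ∧ t ≠ 1} + 1) = e * p := by
      rw [hcA, mul_comm]
    rw [mul_add, mul_one] at h1
    omega
  have hbij := hψ.bijective_of_nat_card_le hcard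
  obtain ⟨⟨⟨u, hu⟩, ⟨t, ht, ht1⟩⟩, hq⟩ := hbij.2 ⟨y, hy, hyP⟩
  have hq' : u * t * u⁻¹ = y := congrArg Subtype.val hq
  refine ⟨u, hu, ?_⟩
  apply (btl3_mem_smul p u _ P').mpr
  rw [← hq']
  have e1 : u⁻¹ * (u * t * u⁻¹) * u = t := by group
  rw [e1]; exact (Subgroup.mem_inf.mp ht).2

/-- BT-L3 -/
theorem fix_count_elt {G : Type*} [Group G] [Finite G] (p : ℕ) [Fact p.Prime] (e n : ℕ)
    (he : e ∣ p - 1) (he2 : 2 ≤ e)
    (hS : Nat.card (Sylow p G) = 1 + n * p)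
    (hP : ∀ P₁ : Sylow p G, Nat.card P₁ = p)
    (hN : ∀ P₁ : Sylow p G,
      Nat.card (Subgroup.normalizer ((P₁ : Subgroup G) : Set G)) = e * p)
    (hT : ∀ P₁ P₂ : Sylow p G, P₁ ≠ P₂ →
      Nat.card ↥(Subgroup.normalizer ((P₁ : Subgroup G) : Set G) ⊓
        Subgroup.normalizer ((P₂ : Subgroup G) : Set G)) = e)
    (hone : ∀ (P₁ P' : Sylow p G), P' ≠ P₁ → ∀ y u : G,
      y ∈ Subgroup.normalizer ((P₁ : Subgroup G) : Set G) → y ∉ (P₁ : Subgroup G) →
      u ∈ (P₁ : Subgroup G) → y ∈ Subgroup.normalizer ((P' : Subgroup G) : Set G) →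
      y ∈ Subgroup.normalizer (((u • P' : Sylow p G) : Subgroup G) : Set G) → u = 1)
    (P₁ : Sylow p G) (y : G)
    (hy : y ∈ Subgroup.normalizer ((P₁ : Subgroup G) : Set G)) (hyP : y ∉ (P₁ : Subgroup G)) :
    Nat.card {P' : Sylow p G // y ∈ Subgroup.normalizer ((P' : Subgroup G) : Set G)} = n + 1 := by
  classical
  have hp : p.Prime := Fact.out
  -- the map (Q, u) ↦ u • Q
  let Φ : ({Q : Sylow p G // y ∈ Subgroup.normalizer ((Q : Subgroup G) : Set G) ∧ Q ≠ P₁} ×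
      ↥(P₁ : Subgroup G)) → {Q : Sylow p G // Q ≠ P₁} :=
    fun q => ⟨q.2.1 • q.1.1, btl3_smul_ne p P₁ q.1.1 q.1.2.2 q.2.1 q.2.2⟩
  have hΦi : Function.Injective Φ := by
    rintro ⟨⟨Q, hQ, hQne⟩, ⟨u, hu⟩⟩ ⟨⟨Q', hQ', hQne'⟩, ⟨u', hu'⟩⟩ h
    have h' : u • Q = u' • Q' := congrArg Subtype.val h
    have h1 : Q' = (u'⁻¹ * u) • Q := by
      rw [mul_smul, h', inv_smul_smul]
    have h2 : y ∈ Subgroup.normalizer ((((u'⁻¹ * u) • Q : Sylow p G) : Subgroup G) : Set G) := by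
      rw [← h1]; exact hQ'
    have h3 : u'⁻¹ * u = 1 :=
      hone P₁ Q hQne y (u'⁻¹ * u) hy hyP (Subgroup.mul_mem _ (Subgroup.inv_mem _ hu') hu) hQ h2
    have h4 : u = u' := by
      have : u = u' * (u'⁻¹ * u) := by group
      rw [this, h3, mul_one]
    subst h4
    have h5 : Q = Q' := smul_left_cancel u h'
    subst h5
    rfl
  have hΦs : Function.Surjective Φ := by
    rintro ⟨P', hne⟩
    obtain ⟨u, hu, huy⟩ := btl3_exists p e hP hN hT hone P₁ P' hne y hy hyP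
    refine ⟨⟨⟨u • P', huy, btl3_smul_ne p P₁ P' hne u hu⟩, ⟨u⁻¹, Subgroup.inv_mem _ hu⟩⟩, ?_⟩
    apply Subtype.ext
    show u⁻¹ • u • P' = P'
    rw [inv_smul_smul]
  have hcard := Nat.card_congr (Equiv.ofBijective Φ ⟨hΦi, hΦs⟩)
  rw [Nat.card_prod, hP P₁] at hcard
  -- the number of Sylow subgroups other than P₁
  have hΩ : Nat.card {Q : Sylow p G // Q ≠ P₁} + 1 = 1 + n * p := by
    rw [← hS]
    have h1 : {Q : Sylow p G | Q ≠ P₁} = (Set.univ : Set (Sylow p G)) \ {P₁} := by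
      ext t; simp
    have h2 := Set.ncard_sdiff_singleton_add_one (s := (Set.univ : Set (Sylow p G))) (a := P₁)
      (Set.mem_univ _)
    rw [← h1, Set.ncard_univ] at h2
    exact h2
  have hF : Nat.card {Q : Sylow p G // y ∈ Subgroup.normalizer ((Q : Subgroup G) : Set G) ∧
      Q ≠ P₁} + 1 =
      Nat.card {P' : Sylow p G // y ∈ Subgroup.normalizer ((P' : Subgroup G) : Set G)} := by
    have h1 : {Q : Sylow p G | y ∈ Subgroup.normalizer ((Q : Subgroup G) : Set G) ∧ Q ≠ P₁} =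
        {Q : Sylow p G | y ∈ Subgroup.normalizer ((Q : Subgroup G) : Set G)} \ {P₁} := by
      ext t; simp
    have h2 := Set.ncard_sdiff_singleton_add_one
      (s := {Q : Sylow p G | y ∈ Subgroup.normalizer ((Q : Subgroup G) : Set G)}) (a := P₁) hy
    rw [← h1] at h2
    exact h2
  rw [← hF]
  have h3 : Nat.card {Q : Sylow p G // y ∈ Subgroup.normalizer ((Q : Subgroup G) : Set G) ∧
      Q ≠ P₁} * p = n * p := by omega
  have h4 := Nat.eq_of_mul_eq_mul_right hp.pos h3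
  rw [h4]

end Cfsg.Agent.Lib.Helper10.BT
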