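import Mathlib
import Cfsg.Agent.Lib.Helper23.ExcChar
import Cfsg.Agent.Lib.Helper1.BrauerAbStar

/-!
# Exceptional characters for a self-centralizing subgroup of prime order with `|N(P):P| = 2`
(helper20): combinatorial part.

* `exc2_vanish`: the class function `∑ χ, (χ|_P, f)_P χ` vanishes off the conjugates of `P ∖ 1`
  when `f 1 = 0`.
* `exc2_fiber_sum`: summing over a two-to-one map.
* `exc2_comb`: the structure `a_l = e_1 + δ e_χ + ε e_{Θ l}` of the coefficient vectors.
-/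

set_option autoImplicit false

namespace Cfsg.Agent.Lib.Helper20

open Cfsg Cfsg.Agent.Lib.Helper4
open scoped ComplexConjugate

section
variable {G : Type*} [Group G] [Fintype G]

/-- Vanishing of an induced class function off the conjugates of `P ∖ 1`. -/
theorem exc2_vanish [Fintype (IrrCharacter G)] (P : Subgroup G) [Fintype P]
    (f : P → ℂ) (hf1 : f 1 = 0) (g : G) (hg : ∀ y ∈ P, y ≠ 1 → ¬ IsConj y g) :
    ∑ χ : IrrCharacter G, classInner (fun h : P => (χ : G → ℂ) h) f *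
      conj ((χ : G → ℂ) g) = 0 := by
  classical
  simp only [classInner]
  have h1 : ∀ χ : IrrCharacter G,
      ((Nat.card P : ℂ)⁻¹ * ∑ y : P, (χ : G → ℂ) y * conj (f y)) * conj ((χ : G → ℂ) g) =
      (Nat.card P : ℂ)⁻¹ * ∑ y : P, conj (f y) *
        ((χ : G → ℂ) y * conj ((χ : G → ℂ) g)) := by
    intro χ
    rw [mul_assoc, Finset.sum_mul]
    congr 1
    refine Finset.sum_congr rfl fun y _ => ?_
    ring
  rw [Finset.sum_congr rfl (fun χ _ => h1 χ), ← Finset.mul_sum, Finset.sum_comm]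
  have h2 : ∀ y : P, ∑ χ : IrrCharacter G,
      conj (f y) * ((χ : G → ℂ) y * conj ((χ : G → ℂ) g)) = 0 := by
    intro y
    rw [← Finset.mul_sum, col_orth]
    by_cases hy : y = 1
    · subst hy
      simp [hf1]
    · have hy' : (y : G) ≠ 1 := fun h => hy (Subtype.ext h)
      rw [if_neg (hg y y.2 hy'), mul_zero]
  rw [Finset.sum_congr rfl (fun y _ => h2 y)]
  simp

end

/-- Summing over a two-to-one map. -/
theorem exc2_fiber_sum {I L : Type*} [DecidableEq I] [Fintype L] [DecidableEq L] (Θ : L → I)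
    (bar : L → L) (hbar : ∀ l, bar l ≠ l) (hΘ : ∀ l l', Θ l = Θ l' ↔ (l' = l ∨ l' = bar l))
    (F : I → ℤ) :
    ∑ l, F (Θ l) = 2 * ∑ i ∈ Finset.univ.image Θ, F i := by
  rw [Finset.mul_sum]
  symm
  apply Finset.sum_image'
  intro l _
  have hfil : Finset.univ.filter (fun l' => Θ l' = Θ l) = {l, bar l} := by
    ext l'
    simp only [Finset.mem_filter, Finset.mem_univ, true_and, Finset.mem_insert,
      Finset.mem_singleton]
    rw [eq_comm, hΘ]
  rw [hfil, Finset.sum_pair (fun h => hbar l h.symm)]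
  have : Θ (bar l) = Θ l := ((hΘ l (bar l)).mpr (Or.inr rfl)).symm
  rw [this]
  ring

/-- An integer function whose squares sum to `1` is `±1` at one point and zero elsewhere. -/
theorem exc2_sq_sum_one {I : Type*} [DecidableEq I] (s : Finset I) (D : I → ℤ)
    (h : ∑ i ∈ s, D i ^ 2 = 1) :
    ∃ χ ∈ s, (D χ = 1 ∨ D χ = -1) ∧ ∀ i ∈ s, i ≠ χ → D i = 0 := by
  obtain ⟨χ, hχs, hχ⟩ : ∃ χ ∈ s, D χ ≠ 0 := by
    by_contra hcon
    push Not at hcon
    rw [Finset.sum_eq_zero (fun i hi => by rw [hcon i hi]; norm_num)] at h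
    norm_num at h
  have hsplit := Finset.add_sum_erase s (fun i => D i ^ 2) hχs
  rw [h] at hsplit
  have hnn : 0 ≤ ∑ i ∈ s.erase χ, D i ^ 2 := Finset.sum_nonneg fun i _ => sq_nonneg _
  have h1 : 1 ≤ D χ ^ 2 := by
    have : 0 < D χ ^ 2 := by positivity
    linarith
  have hsq : D χ ^ 2 = 1 := by linarith
  have hrest : ∑ i ∈ s.erase χ, D i ^ 2 = 0 := by linarith
  refine ⟨χ, hχs, ?_, ?_⟩
  · have : (D χ - 1) * (D χ + 1) = 0 := by ring_nf; ring_nf at hsq; linarith
    rcases mul_eq_zero.mp this with h2 | h2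
    · left; linarith
    · right; linarith
  · intro i hi hne
    have := (Finset.sum_eq_zero_iff_of_nonneg (fun i _ => sq_nonneg (D i))).mp hrest i
      (Finset.mem_erase.mpr ⟨hne, hi⟩)
    exact (pow_eq_zero_iff two_ne_zero).mp this

/-- The combinatorial core of the exceptional character argument for `e = 2`, with at least
four pairs: `a l = e_1 + δ e_χ + ε e_{Θ l}`. -/
theorem exc2_comb {I L : Type*} [Fintype I] [DecidableEq I] [Fintype L] [DecidableEq L]
    (a : L → I → ℤ) (d : I → ℤ) (one : I) (bar : L → L)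
    (hd : ∀ i, 0 < d i)
    (ha1 : ∀ l, a l one = 1)
    (hgram : ∀ l l', ∑ i, a l i * a l' i =
      2 + (if l' = l then 1 else 0) + (if l' = bar l then 1 else 0))
    (hbar : ∀ l, bar l ≠ l)
    (hdeg : ∀ l, ∑ i, a l i * d i = 0) (hL : 7 ≤ Fintype.card L) :
    ∃ (χ : I) (Θ : L → I) (δ ε : ℤ), (δ = 1 ∨ δ = -1) ∧ (ε = 1 ∨ ε = -1) ∧ χ ≠ one ∧
      (∀ l, Θ l ≠ one) ∧ (∀ l, Θ l ≠ χ) ∧ (∀ l l', Θ l = Θ l' ↔ (l' = l ∨ l' = bar l)) ∧
      ∀ l i, a l i = (if i = one then 1 else 0) + δ * (if i = χ then 1 else 0) +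
        ε * (if i = Θ l then 1 else 0) := by
  classical
  have hLpos : 0 < Fintype.card L := by omega
  obtain ⟨l₀⟩ : Nonempty L := Fintype.card_pos_iff.mp hLpos
  have hex : ∀ l : L, ∃ l', ¬ (l' = l ∨ l' = bar l) := by
    intro l
    have hc : ({l, bar l} : Finset L).card < (Finset.univ : Finset L).card := by
      have h1 : ({l, bar l} : Finset L).card ≤ 2 := Finset.card_le_two
      rw [Finset.card_univ]
      omega
    obtain ⟨l', -, hl'⟩ := Finset.exists_mem_notMem_of_card_lt_card hc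
    exact ⟨l', by simpa using hl'⟩
  obtain ⟨ε, dd, D, Θ, hε, hΘ, hΘiff, hDΘ, -⟩ :=
    Cfsg.Agent.Lib.Helper1.gram_core (Set.univ : Set L)
      (fun l l' => l' = l ∨ l' = bar l) a d 2
      (fun l _ i _ => hd i)
      (fun l _ l' _ hR => by
        have h := hgram l l'
        rcases hR with h1 | h1
        · subst h1
          rw [if_pos rfl, if_neg (fun h2 => hbar _ h2.symm)] at h
          linarith
        · subst h1
          rw [if_neg (hbar l), if_pos rfl] at h
          linarith)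
      (fun l _ l' _ hR => by
        have h := hgram l l'
        rw [if_neg (fun h1 => hR (Or.inl h1)), if_neg (fun h1 => hR (Or.inr h1))] at h
        linarith)
      (fun l _ => Or.inl rfl)
      (fun l _ => hdeg l)
      (by
        obtain ⟨l', hl'⟩ := hex l₀
        exact ⟨l₀, Set.mem_univ _, l', Set.mem_univ _, hl'⟩)
  have hΘ' : ∀ l i, a l i = D i + ε * (if i = Θ l then 1 else 0) :=
    fun l i => hΘ l (Set.mem_univ _) i
  have hΘiff' : ∀ l l', Θ l = Θ l' ↔ (l' = l ∨ l' = bar l) :=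
    fun l l' => hΘiff l (Set.mem_univ _) l' (Set.mem_univ _)
  have hDΘ' : ∀ l, D (Θ l) = -dd := fun l => hDΘ l (Set.mem_univ _)
  have hε0 : ε ≠ 0 := by rcases hε with h | h <;> rw [h] <;> norm_num
  have hε2 : ε ^ 2 = 1 := by rcases hε with h | h <;> rw [h] <;> norm_num
  -- `Θ l ≠ one` and `D one = 1`
  have hΘone : ∀ l, Θ l ≠ one := by
    intro l hl
    obtain ⟨l', hl'⟩ := hex l
    have hne : Θ l' ≠ one := by
      intro h
      exact hl' ((hΘiff' l l').mp (hl.trans h.symm))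
    have h1 := hΘ' l' one
    rw [ha1, if_neg (Ne.symm hne)] at h1
    have h2 := hΘ' l one
    rw [ha1, if_pos hl.symm] at h2
    apply hε0
    linarith
  have hDone : D one = 1 := by
    have h1 := hΘ' l₀ one
    rw [ha1, if_neg (Ne.symm (hΘone l₀))] at h1
    linarith
  -- the norm of `D`
  have hnorm : ∑ i, D i ^ 2 = 2 + 2 * ε * dd := by
    have h := hgram l₀ l₀
    rw [if_pos rfl, if_neg (fun h2 => hbar _ h2.symm)] at h
    have h1 : ∑ i, a l₀ i * a l₀ i = ∑ i, D i ^ 2 + (2 * ε * D (Θ l₀) + ε ^ 2) := by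
      have h3 : ∀ i, a l₀ i * a l₀ i =
          D i ^ 2 + (if i = Θ l₀ then 2 * ε * D i + ε ^ 2 else 0) := by
        intro i
        rw [hΘ' l₀ i]
        split_ifs <;> ring
      rw [Finset.sum_congr rfl (fun i _ => h3 i), Finset.sum_add_distrib,
        Finset.sum_ite_eq' Finset.univ (Θ l₀) (fun i => 2 * ε * D i + ε ^ 2),
        if_pos (Finset.mem_univ _)]
    rw [h1, hε2, hDΘ' l₀] at h
    linarith
  -- lower bound
  have hfib := exc2_fiber_sum Θ bar hbar hΘiff' (fun i => D i ^ 2)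
  have hfib' : ∑ l : L, D (Θ l) ^ 2 = (Fintype.card L : ℤ) * dd ^ 2 := by
    rw [Finset.sum_congr rfl (fun l _ => by rw [hDΘ' l]), Finset.sum_const, Finset.card_univ,
      nsmul_eq_mul]
    ring
  have hnotmem : one ∉ Finset.univ.image Θ := by
    intro h
    obtain ⟨l, -, hl⟩ := Finset.mem_image.mp h
    exact hΘone l hl
  have hle : D one ^ 2 + ∑ i ∈ Finset.univ.image Θ, D i ^ 2 ≤ ∑ i, D i ^ 2 := by
    have hins := Finset.sum_insert (f := fun i => D i ^ 2) hnotmem
    have hsub : ∑ i ∈ insert one (Finset.univ.image Θ), D i ^ 2 ≤ ∑ i, D i ^ 2 :=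
      Finset.sum_le_sum_of_subset_of_nonneg (Finset.subset_univ _)
        (fun i _ _ => sq_nonneg _)
    linarith
  have hdd : dd = 0 := by
    have hcard : (7 : ℤ) ≤ (Fintype.card L : ℤ) := by exact_mod_cast hL
    have h7 : 7 * dd ^ 2 ≤ 2 + 4 * ε * dd := by
      have h1 : (7 : ℤ) * dd ^ 2 ≤ (Fintype.card L : ℤ) * dd ^ 2 :=
        mul_le_mul_of_nonneg_right hcard (sq_nonneg _)
      rw [hDone, hnorm] at hle
      linarith
    by_contra hne
    rcases hε with h | h
    · rw [h] at h7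
      rcases lt_or_gt_of_ne hne with h2 | h2
      · nlinarith
      · nlinarith
    · rw [h] at h7
      rcases lt_or_gt_of_ne hne with h2 | h2
      · nlinarith
      · nlinarith
  rw [hdd] at hnorm hDΘ'
  -- `D = e_one + δ e_χ`
  have hrest : ∑ i ∈ Finset.univ.erase one, D i ^ 2 = 1 := by
    have h := Finset.add_sum_erase Finset.univ (fun i => D i ^ 2) (Finset.mem_univ one)
    rw [hnorm, hDone] at h
    linarith
  obtain ⟨χ, hχmem, hχ, hχrest⟩ := exc2_sq_sum_one (Finset.univ.erase one) D hrest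
  have hχone : χ ≠ one := Finset.ne_of_mem_erase hχmem
  have hDχ0 : D χ ≠ 0 := by rcases hχ with h | h <;> rw [h] <;> norm_num
  have hΘχ : ∀ l, Θ l ≠ χ := by
    intro l hl
    apply hDχ0
    rw [← hl, hDΘ' l]
    norm_num
  refine ⟨χ, Θ, D χ, ε, hχ, hε, hχone, hΘone, hΘχ, hΘiff', ?_⟩
  intro l i
  rw [hΘ' l i]
  congr 1
  by_cases hi1 : i = one
  · subst hi1
    rw [if_pos rfl, if_neg (Ne.symm hχone), hDone]
    ring
  · by_cases hi2 : i = χ
    · subst hi2
      rw [if_neg hi1, if_pos rfl]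
      ring
    · rw [if_neg hi1, if_neg hi2, hχrest i (Finset.mem_erase.mpr ⟨hi1, Finset.mem_univ _⟩) hi2]
      ring

end Cfsg.Agent.Lib.Helper20
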