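import Mathlib
import Cfsg.Agent.Lib.Helper20.Exc2a

/-!
# Exceptional characters for a self-centralizing subgroup of prime order `p > 7` with
`|N(P):P| = 2` (helper20): the structure theorem `exc2_struct`.

The set-up (multiplicities, coefficient vectors, Gram matrix) follows helper23's `exc_two`.
-/

set_option autoImplicit false

namespace Cfsg.Agent.Lib.Helper20

open Cfsg Cfsg.Agent.Lib.Helper4 Cfsg.Agent.Lib.Helper23
open scoped ComplexConjugate

universe u

/-- Exceptional characters for a self-centralizing subgroup `P` of prime order `p > 7` with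
`|N(P) : P| = 2`: there are an irreducible character `χ`, a family `Θ` of `p - 1` irreducible
characters (each occurring twice) and signs `δ`, `ε` such that `1 + δ χ + ε Θ_l` vanishes off the
conjugates of `P ∖ 1`; all the other irreducible characters (the set `R`) have degree divisible
by `p`. -/
theorem exc2_struct {G : Type u} [Group G] [Fintype G] [Fintype (IrrCharacter G)] (p : ℕ)
    [hp : Fact p.Prime] (hp7 : 7 < p) (P : Subgroup G) (hP : Nat.card P = p)
    (hC : ∀ y ∈ P, y ≠ 1 → Nat.card (Subgroup.centralizer ({y} : Set G)) = p)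
    (hF : ∀ y ∈ P, y ≠ 1 → ∀ y' ∈ P, (IsConj y y' ↔ y' = y ∨ y' = y⁻¹)) :
    ∃ (L : Type u) (_ : Fintype L) (χ : IrrCharacter G) (Θ : L → IrrCharacter G) (δ ε : ℤ)
      (R : Finset (IrrCharacter G)),
      Fintype.card L = p - 1 ∧ (δ = 1 ∨ δ = -1) ∧ (ε = 1 ∨ ε = -1) ∧ χ ≠ trivIrr ∧
      (∀ l, Θ l ≠ trivIrr) ∧ (∀ l, Θ l ≠ χ) ∧
      (∀ g : G, (∀ y ∈ P, y ≠ 1 → ¬ IsConj y g) → ∀ l,
        1 + (δ : ℂ) * (χ : G → ℂ) g + (ε : ℂ) * (Θ l : G → ℂ) g = 0) ∧
      (∃ m : ℤ, (irrDeg χ : ℤ) = p * m - (p - 1) * δ) ∧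
      (∀ l, ∃ m : ℤ, (irrDeg (Θ l) : ℤ) = p * m - 2 * ε) ∧
      (∀ ψ ∈ R, p ∣ irrDeg ψ) ∧
      (∀ F : IrrCharacter G → ℤ, 2 * ∑ ψ, F ψ = 2 * F trivIrr + 2 * F χ + ∑ l, F (Θ l) +
        2 * ∑ ψ ∈ R, F ψ) := by
  classical
  let _ : Fintype P := Fintype.ofFinite _
  have : Finite (IrrCharacter P) := irr_finite
  let _ : Fintype (IrrCharacter P) := Fintype.ofFinite _
  have hp0 : p ≠ 0 := hp.out.ne_zero
  have hp1 : 1 < p := hp.out.one_lt
  have hp2 : p ≠ 2 := by omega
  have hodd : Odd (Nat.card P) := by rw [hP]; exact hp.out.odd_of_ne_two hp2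
  have hcyc : IsCyclic P := isCyclic_of_prime_card hP
  have hcomm : ∀ a b : P, a * b = b * a := fun a b =>
    (isMulCommutative_of_isCyclic (α := P)).is_comm.comm a b
  have hinv : ∀ y : P, y ≠ 1 → y⁻¹ ≠ y := fun y hy => inv_ne_self_of_odd hodd y hy
  have hbar : ∀ l : IrrCharacter P, l ≠ trivIrr → irrConj l ≠ l := by
    intro l hl h
    exact hl (real_irr_eq_triv hodd l ((irrConj_eq_self_iff l).mp h))
  have hbar1 : ∀ l : IrrCharacter P, l ≠ trivIrr → irrConj l ≠ trivIrr := by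
    intro l hl h
    apply hl
    have := congrArg irrConj h
    rwa [irrConj_irrConj, irrConj_triv] at this
  have hl1 : ∀ l : IrrCharacter P, (l : P → ℂ) 1 = 1 := fun l =>
    Cfsg.Agent.Lib.Helper35.irr_one_of_comm hcomm l
  have hcardIrr : Fintype.card (IrrCharacter P) = p := by
    rw [← Nat.card_eq_fintype_card, card_irr,
      Cfsg.Agent.Lib.Helper35.card_conjClasses_of_comm hcomm, hP]
  -- multiplicities
  choose M hM using (fun χ : IrrCharacter G =>
    exists_decomp_of_isCharacter (fun h : P => (χ : G → ℂ) h)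
      (isCharacter_restrict P (χ : G → ℂ) (isCharacter_of_irr χ)))
  have hMin : ∀ (χ : IrrCharacter G) (l : IrrCharacter P),
      classInner (fun h : P => (χ : G → ℂ) h) (l : P → ℂ) = (M χ l : ℂ) := by
    intro χ l
    rw [hM χ]
    exact classInner_sum_irr _ l
  have hMtriv : ∀ l : IrrCharacter P,
      (M trivIrr l : ℂ) = if (trivIrr : IrrCharacter P) = l then 1 else 0 := by
    intro l
    rw [← hMin]
    exact classInner_irr trivIrr l
  have hsumM : ∀ χ : IrrCharacter G, ∑ l : IrrCharacter P, M χ l = irrDeg χ := by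
    intro χ
    have h1 := congrFun (hM χ) 1
    simp only [Finset.sum_apply, Pi.smul_apply, smul_eq_mul, hl1, mul_one] at h1
    have h2 : (χ : G → ℂ) ((1 : P) : G) = (irrDeg χ : ℂ) := irrDeg_spec χ
    rw [h2] at h1
    exact_mod_cast h1.symm
  -- the vectors `a l`
  let a : {l : IrrCharacter P // l ≠ trivIrr} → IrrCharacter G → ℤ :=
    fun l χ => (M χ trivIrr : ℤ) - (M χ l.1 : ℤ)
  have hacast : ∀ (l : {l : IrrCharacter P // l ≠ trivIrr}) (χ : IrrCharacter G),
      ((a l χ : ℤ) : ℂ) = classInner (fun h : P => (χ : G → ℂ) h)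
        ((trivIrr : IrrCharacter P).1 - l.1.1) := by
    intro l χ
    rw [Cfsg.Agent.Lib.Helper35.classInner_sub_right, hMin, hMin]
    simp [a]
  have hf1 : ∀ l : {l : IrrCharacter P // l ≠ trivIrr},
      ((trivIrr : IrrCharacter P).1 - l.1.1) 1 = 0 := by
    intro l
    rw [Pi.sub_apply, trivIrr_apply, hl1, sub_self]
  have ha1 : ∀ l : {l : IrrCharacter P // l ≠ trivIrr}, a l trivIrr = 1 := by
    intro l
    have h1 : M trivIrr trivIrr = 1 := by
      exact_mod_cast (hMtriv trivIrr).trans (if_pos rfl)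
    have h2 : M trivIrr l.1 = 0 := by
      exact_mod_cast (hMtriv l.1).trans (if_neg (Ne.symm l.2))
    simp [a, h1, h2]
  have hgram : ∀ l l' : {l : IrrCharacter P // l ≠ trivIrr},
      ∑ χ : IrrCharacter G, a l χ * a l' χ =
        2 + (if l' = l then 1 else 0) +
          (if l' = ⟨irrConj l.1, hbar1 l.1 l.2⟩ then 1 else 0) := by
    intro l l'
    have hc : ((∑ χ : IrrCharacter G, a l χ * a l' χ : ℤ) : ℂ) =
        classInner (fun y => ((trivIrr : IrrCharacter P).1 - l'.1.1) y +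
          ((trivIrr : IrrCharacter P).1 - l'.1.1) y⁻¹)
          ((trivIrr : IrrCharacter P).1 - l.1.1) := by
      rw [← exc_key p P hP hp0 hC hF hinv _ _ (hf1 l)]
      push_cast
      refine Finset.sum_congr rfl fun χ _ => ?_
      rw [← hacast l χ, ← hacast l' χ, map_intCast]
    have hfun : (fun y => ((trivIrr : IrrCharacter P).1 - l'.1.1) y +
        ((trivIrr : IrrCharacter P).1 - l'.1.1) y⁻¹) =
        (2 : ℂ) • (trivIrr : IrrCharacter P).1 - l'.1.1 - (irrConj l'.1).1 := by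
      funext y
      simp only [Pi.sub_apply, Pi.smul_apply, trivIrr_apply, smul_eq_mul, irrConj_apply]
      rw [irr_inv]
      ring
    rw [hfun] at hc
    rw [Cfsg.Agent.Lib.Helper35.classInner_sub_left, Cfsg.Agent.Lib.Helper35.classInner_sub_left,
      Cfsg.Agent.Lib.Helper35.classInner_smul_left,
      Cfsg.Agent.Lib.Helper35.classInner_sub_right,
      Cfsg.Agent.Lib.Helper35.classInner_sub_right,
      Cfsg.Agent.Lib.Helper35.classInner_sub_right,
      classInner_irr, classInner_irr, classInner_irr, classInner_irr, classInner_irr,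
      classInner_irr, if_pos rfl, if_neg (Ne.symm l.2), if_neg l'.2,
      if_neg (hbar1 l'.1 l'.2)] at hc
    have e1 : (l' = l) ↔ (l'.1 = l.1) := Subtype.ext_iff
    have e2 : (l' = ⟨irrConj l.1, hbar1 l.1 l.2⟩) ↔ (irrConj l'.1 = l.1) := by
      rw [Subtype.ext_iff]
      constructor
      · intro h
        show irrConj l'.1 = l.1
        rw [show l'.1 = irrConj l.1 from h, irrConj_irrConj]
      · intro h
        show l'.1 = irrConj l.1
        rw [← h, irrConj_irrConj]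
    by_cases h1 : l'.1 = l.1 <;> by_cases h2 : irrConj l'.1 = l.1
    · rw [if_pos (e1.mpr h1), if_pos (e2.mpr h2)]
      rw [if_pos h1, if_pos h2] at hc
      have : ((∑ χ : IrrCharacter G, a l χ * a l' χ : ℤ) : ℂ) = ((2 + 1 + 1 : ℤ) : ℂ) := by
        rw [hc]; push_cast; ring
      exact_mod_cast this
    · rw [if_pos (e1.mpr h1), if_neg (fun h => h2 (e2.mp h))]
      rw [if_pos h1, if_neg h2] at hc
      have : ((∑ χ : IrrCharacter G, a l χ * a l' χ : ℤ) : ℂ) = ((2 + 1 + 0 : ℤ) : ℂ) := by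
        rw [hc]; push_cast; ring
      exact_mod_cast this
    · rw [if_neg (fun h => h1 (e1.mp h)), if_pos (e2.mpr h2)]
      rw [if_neg h1, if_pos h2] at hc
      have : ((∑ χ : IrrCharacter G, a l χ * a l' χ : ℤ) : ℂ) = ((2 + 0 + 1 : ℤ) : ℂ) := by
        rw [hc]; push_cast; ring
      exact_mod_cast this
    · rw [if_neg (fun h => h1 (e1.mp h)), if_neg (fun h => h2 (e2.mp h))]
      rw [if_neg h1, if_neg h2] at hc
      have : ((∑ χ : IrrCharacter G, a l χ * a l' χ : ℤ) : ℂ) = ((2 + 0 + 0 : ℤ) : ℂ) := by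
        rw [hc]; push_cast; ring
      exact_mod_cast this
  have hdeg : ∀ l : {l : IrrCharacter P // l ≠ trivIrr},
      ∑ χ : IrrCharacter G, a l χ * (irrDeg χ : ℤ) = 0 := by
    intro l
    have hc : ((∑ χ : IrrCharacter G, a l χ * (irrDeg χ : ℤ) : ℤ) : ℂ) = 0 := by
      rw [← exc_deg P _ (hf1 l)]
      push_cast
      refine Finset.sum_congr rfl fun χ _ => ?_
      rw [← hacast l χ, irrDeg_spec]
    exact_mod_cast hc
  have hcardL : Fintype.card {l : IrrCharacter P // l ≠ trivIrr} = p - 1 := by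
    rw [Fintype.card_subtype_compl, hcardIrr]
    simp
  -- the structure of the vectors `a l`
  obtain ⟨χ, Θ, δ, ε, hδ, hε, hχ1, hΘ1, hΘχ, hΘiff, hstruct⟩ :=
    exc2_comb a (fun χ => (irrDeg χ : ℤ)) trivIrr
      (fun l => ⟨irrConj l.1, hbar1 l.1 l.2⟩)
      (fun χ => by exact_mod_cast irrDeg_pos χ)
      ha1 hgram (fun l h => hbar l.1 l.2 (congrArg Subtype.val h)) hdeg
      (by rw [hcardL]; omega)
  have hbar' : ∀ l : {l : IrrCharacter P // l ≠ trivIrr},
      (⟨irrConj l.1, hbar1 l.1 l.2⟩ : {l : IrrCharacter P // l ≠ trivIrr}) ≠ l :=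
    fun l h => hbar l.1 l.2 (congrArg Subtype.val h)
  -- expansion of sums against `a l`
  have hexpC : ∀ (l : {l : IrrCharacter P // l ≠ trivIrr}) (w : IrrCharacter G → ℂ),
      ∑ ψ : IrrCharacter G, ((a l ψ : ℤ) : ℂ) * w ψ =
        w trivIrr + (δ : ℂ) * w χ + (ε : ℂ) * w (Θ l) := by
    intro l w
    have h1 : ∀ ψ : IrrCharacter G, ((a l ψ : ℤ) : ℂ) * w ψ =
        (if ψ = trivIrr then w ψ else 0) + (δ : ℂ) * (if ψ = χ then w ψ else 0) +
          (ε : ℂ) * (if ψ = Θ l then w ψ else 0) := by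
      intro ψ
      rw [hstruct l ψ]
      push_cast
      split_ifs <;> ring
    rw [Finset.sum_congr rfl (fun ψ _ => h1 ψ), Finset.sum_add_distrib, Finset.sum_add_distrib,
      ← Finset.mul_sum, ← Finset.mul_sum, Finset.sum_ite_eq', Finset.sum_ite_eq',
      Finset.sum_ite_eq', if_pos (Finset.mem_univ _), if_pos (Finset.mem_univ _),
      if_pos (Finset.mem_univ _)]
  -- the fibre count
  have hfibre : ∀ l₀ : {l : IrrCharacter P // l ≠ trivIrr},
      ∑ l : {l : IrrCharacter P // l ≠ trivIrr}, (if Θ l₀ = Θ l then (1 : ℤ) else 0) = 2 := by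
    intro l₀
    rw [← Finset.sum_filter]
    have hfil : Finset.univ.filter (fun l => Θ l₀ = Θ l) =
        {l₀, (⟨irrConj l₀.1, hbar1 l₀.1 l₀.2⟩ : {l : IrrCharacter P // l ≠ trivIrr})} := by
      ext l'
      simp only [Finset.mem_filter, Finset.mem_univ, true_and, Finset.mem_insert,
        Finset.mem_singleton]
      rw [hΘiff]
    rw [hfil, Finset.sum_pair (fun h => hbar' l₀ h.symm)]
    norm_num
  -- degrees
  have hsub : ∀ F : IrrCharacter P → ℤ,
      ∑ l : {l : IrrCharacter P // l ≠ trivIrr}, F l.1 =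
        ∑ l ∈ Finset.univ.erase (trivIrr : IrrCharacter P), F l :=
    fun F => (Finset.sum_subtype (Finset.univ.erase (trivIrr : IrrCharacter P))
      (fun x => by simp) F).symm
  have hcarderase : (Finset.univ.erase (trivIrr : IrrCharacter P)).card = p - 1 := by
    rw [Finset.card_erase_of_mem (Finset.mem_univ _), Finset.card_univ, hcardIrr]
  have hpcast : ((p - 1 : ℕ) : ℤ) = (p : ℤ) - 1 := by
    rw [Nat.cast_sub hp1.le]
    norm_num
  have hdegform : ∀ ψ : IrrCharacter G, (irrDeg ψ : ℤ) = (p : ℤ) * (M ψ trivIrr : ℤ) -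
      ∑ l : {l : IrrCharacter P // l ≠ trivIrr}, a l ψ := by
    intro ψ
    have hsumZ : (M ψ trivIrr : ℤ) +
        ∑ l ∈ Finset.univ.erase (trivIrr : IrrCharacter P), (M ψ l : ℤ) = (irrDeg ψ : ℤ) := by
      rw [Finset.add_sum_erase Finset.univ (fun l => (M ψ l : ℤ)) (Finset.mem_univ _)]
      exact_mod_cast hsumM ψ
    have hsuma : ∑ l : {l : IrrCharacter P // l ≠ trivIrr}, a l ψ =
        ((p - 1 : ℕ) : ℤ) * (M ψ trivIrr : ℤ) -
          ∑ l ∈ Finset.univ.erase (trivIrr : IrrCharacter P), (M ψ l : ℤ) := by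
      rw [hsub (fun l => (M ψ trivIrr : ℤ) - (M ψ l : ℤ)), Finset.sum_sub_distrib,
        Finset.sum_const, hcarderase, nsmul_eq_mul]
    rw [hsuma, hpcast]
    linarith
  have hsumaχ : ∑ l : {l : IrrCharacter P // l ≠ trivIrr}, a l χ = ((p : ℤ) - 1) * δ := by
    have h1 : ∀ l : {l : IrrCharacter P // l ≠ trivIrr}, a l χ = δ := by
      intro l
      rw [hstruct l χ, if_neg hχ1, if_pos rfl, if_neg (Ne.symm (hΘχ l))]
      ring
    rw [Finset.sum_congr rfl (fun l _ => h1 l), Finset.sum_const, Finset.card_univ, hcardL,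
      nsmul_eq_mul, hpcast]
  have hsumaΘ : ∀ l₀ : {l : IrrCharacter P // l ≠ trivIrr},
      ∑ l : {l : IrrCharacter P // l ≠ trivIrr}, a l (Θ l₀) = 2 * ε := by
    intro l₀
    have h1 : ∀ l : {l : IrrCharacter P // l ≠ trivIrr},
        a l (Θ l₀) = ε * (if Θ l₀ = Θ l then (1 : ℤ) else 0) := by
      intro l
      rw [hstruct l (Θ l₀), if_neg (hΘ1 l₀), if_neg (hΘχ l₀)]
      ring
    rw [Finset.sum_congr rfl (fun l _ => h1 l), ← Finset.mul_sum, hfibre l₀]
    ring
  -- the rest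
  obtain ⟨R, hR⟩ : ∃ R : Finset (IrrCharacter G),
      R = ((Finset.univ.erase (trivIrr : IrrCharacter G)).erase χ) \ (Finset.univ.image Θ) :=
    ⟨_, rfl⟩
  have hRmem : ∀ ψ ∈ R, ψ ≠ trivIrr ∧ ψ ≠ χ ∧ ∀ l, ψ ≠ Θ l := by
    intro ψ hψ
    rw [hR, Finset.mem_sdiff, Finset.mem_erase, Finset.mem_erase] at hψ
    refine ⟨hψ.1.2.1, hψ.1.1, fun l hl => hψ.2 ?_⟩
    rw [hl]
    exact Finset.mem_image_of_mem Θ (Finset.mem_univ l)
  refine ⟨{l : IrrCharacter P // l ≠ trivIrr}, inferInstance, χ, Θ, δ, ε, R, hcardL, hδ, hε,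
    hχ1, hΘ1, hΘχ, ?_, ?_, ?_, ?_, ?_⟩
  · -- vanishing
    intro g hg l
    have h1 := exc2_vanish P ((trivIrr : IrrCharacter P).1 - l.1.1) (hf1 l) g hg
    have h2 : ∑ ψ : IrrCharacter G, ((a l ψ : ℤ) : ℂ) * conj ((ψ : G → ℂ) g) = 0 := by
      rw [← h1]
      refine Finset.sum_congr rfl fun ψ _ => ?_
      rw [hacast l ψ]
    rw [hexpC l (fun ψ => conj ((ψ : G → ℂ) g))] at h2
    have h3 := congrArg conj h2
    simp only [map_add, map_mul, Complex.conj_conj, map_intCast, map_zero] at h3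
    rw [trivIrr_apply] at h3
    simpa using h3
  · exact ⟨(M χ trivIrr : ℤ), by rw [hdegform χ, hsumaχ]⟩
  · intro l₀
    exact ⟨(M (Θ l₀) trivIrr : ℤ), by rw [hdegform (Θ l₀), hsumaΘ l₀]⟩
  · intro ψ hψ
    obtain ⟨h1, h2, h3⟩ := hRmem ψ hψ
    have h4 : ∑ l : {l : IrrCharacter P // l ≠ trivIrr}, a l ψ = 0 := by
      refine Finset.sum_eq_zero fun l _ => ?_
      rw [hstruct l ψ, if_neg h1, if_neg h2, if_neg (h3 l)]
      ring
    have h5 := hdegform ψ
    rw [h4, sub_zero] at h5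
    exact ⟨M ψ trivIrr, by exact_mod_cast h5⟩
  · intro F
    have hfib := exc2_fiber_sum Θ (fun l => ⟨irrConj l.1, hbar1 l.1 l.2⟩) hbar' hΘiff F
    have e1 := Finset.add_sum_erase Finset.univ F (Finset.mem_univ (trivIrr : IrrCharacter G))
    have e2 := Finset.add_sum_erase (Finset.univ.erase (trivIrr : IrrCharacter G)) F
      (show χ ∈ Finset.univ.erase (trivIrr : IrrCharacter G) from
        Finset.mem_erase.mpr ⟨hχ1, Finset.mem_univ _⟩)
    have hsubset : Finset.univ.image Θ ⊆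
        (Finset.univ.erase (trivIrr : IrrCharacter G)).erase χ := by
      intro ψ hψ
      obtain ⟨l, -, rfl⟩ := Finset.mem_image.mp hψ
      exact Finset.mem_erase.mpr ⟨hΘχ l, Finset.mem_erase.mpr ⟨hΘ1 l, Finset.mem_univ _⟩⟩
    have e3 := Finset.sum_sdiff (f := F) hsubset
    rw [← hR] at e3
    linarith

end Cfsg.Agent.Lib.Helper20
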