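import Mathlib
import Cfsg.Agent.Lib.Helper20.Exc2b
import Cfsg.Agent.Lib.Helper23.ExcGroup
import Cfsg.Agent.Lib.Helper23.Cit1
import Cfsg.Agent.Lib.Helper62.Cent4B
import Cfsg.Agent.Lib.Helper79.FSCount
import Cfsg.Agent.Lib.Helper82.CharCore
import Cfsg.Agent.Lib.Helper4.BrRing

/-!
# Simple groups of order 4080 (helper20)

A simple group of order `4080` has elementary abelian involution centralizers
(`s4080_invCentElem`): exceptional characters for `p = 17`, central character integrality at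
involutions and the Frobenius–Schur count.
-/

set_option autoImplicit false

namespace Cfsg.Agent.Lib.Helper20

open Cfsg Cfsg.Agent.Lib.Helper4 Cfsg.Agent.Lib.Helper23 Subgroup
open scoped ComplexConjugate

/-- Sylow 17-subgroups of a simple group of order 4080. -/
theorem s4080_sylow17 {G : Type*} [Group G] [Finite G] [IsSimpleGroup G]
    (h : Nat.card G = 4080) [Fact (Nat.Prime 17)] (Q : Sylow 17 G) :
    Nat.card (Q : Subgroup G) = 17 ∧
    (∀ y ∈ (Q : Subgroup G), y ≠ 1 → Nat.card (centralizer ({y} : Set G)) = 17) ∧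
    (∀ y ∈ (Q : Subgroup G), y ≠ 1 → ∀ y' ∈ (Q : Subgroup G),
      (IsConj y y' ↔ y' = y ∨ y' = y⁻¹)) := by
  have hG : ¬ IsMulCommutative G := not_comm_of_simple_of_not_prime (by rw [h]; norm_num)
  have h1 : Nat.card G = 17 ^ 1 * 240 := h.trans (by norm_num)
  have hm : ¬ 17 ∣ 240 := by norm_num
  have hmem := card_sylow_mem_filter h1 hm
  have hne := simple_sylow_card_ne_one h1 hm (by norm_num) (by norm_num)
  rw [show (Nat.divisors 240).filter (fun d => d % 17 = 1) = {1, 120} from by decide +kernel]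
    at hmem
  simp only [Finset.mem_insert, Finset.mem_singleton] at hmem
  have hn : Nat.card (Sylow 17 G) = 120 := by
    rcases hmem with h2 | h2
    · exact absurd h2 hne
    · exact h2
  have hPc : Nat.card (Q : Subgroup G) = 17 := by
    have := sylow_card_of_eq h1 hm Q
    rwa [pow_one] at this
  have hrel := relIndex_sylow_normalizer_mul h1 hm Q
  have hrel2 : (Q : Subgroup G).relIndex (normalizer ((Q : Subgroup G) : Set G)) = 2 := by
    rw [hn] at hrel
    omega
  have hCP : centralizer ((Q : Subgroup G) : Set G) = Q :=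
    simple_centralizer_sylow_eq hG Q hPc (by rw [hrel2]; norm_num)
  have hN : Nat.card (normalizer ((Q : Subgroup G) : Set G)) = 2 * 17 := by
    have h5 := card_normalizer_sylow_mul Q
    rw [h, hn] at h5
    omega
  obtain ⟨hC, hF⟩ := prime_fusion_two (Q : Subgroup G) hPc hCP hN
  exact ⟨hPc, hC, hF⟩

/-- The order of the centralizer of an involution is prime to 17. -/
theorem s4080_not_dvd_centralizer {G : Type*} [Group G] [Finite G] [IsSimpleGroup G]
    (h : Nat.card G = 4080) (u : G) (hu1 : u ≠ 1) (hu2 : u * u = 1) :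
    ¬ 17 ∣ Nat.card (centralizer ({u} : Set G)) := by
  intro hdvd
  have hp17 : Fact (Nat.Prime 17) := ⟨by norm_num⟩
  obtain ⟨y, hy⟩ := exists_prime_orderOf_dvd_card' 17 hdvd
  have hy17 : orderOf (y : G) = 17 := by rw [Subgroup.orderOf_coe]; exact hy
  have hpg : IsPGroup 17 (zpowers (y : G)) :=
    IsPGroup.of_card (n := 1) (by rw [Nat.card_zpowers, hy17, pow_one])
  obtain ⟨Q, hQ⟩ := hpg.exists_le_sylow
  have hyQ : (y : G) ∈ (Q : Subgroup G) := hQ (mem_zpowers _)
  have hy1 : (y : G) ≠ 1 := by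
    intro h1
    rw [h1, orderOf_one] at hy17
    norm_num at hy17
  obtain ⟨-, hC, -⟩ := s4080_sylow17 h Q
  have hc := hC (y : G) hyQ hy1
  have hucent : u ∈ centralizer ({(y : G)} : Set G) := by
    rw [mem_centralizer_iff]
    intro w hw
    rw [Set.mem_singleton_iff] at hw
    rw [hw]
    have := mem_centralizer_iff.mp y.2 u rfl
    exact this.symm
  have ho1 : orderOf u ∣ 17 := by
    have h1 : orderOf (⟨u, hucent⟩ : centralizer ({(y : G)} : Set G)) ∣
        Nat.card (centralizer ({(y : G)} : Set G)) := orderOf_dvd_natCard _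
    rwa [hc, ← Subgroup.orderOf_coe] at h1
  have ho2 : orderOf u ∣ 2 := orderOf_dvd_of_pow_eq_one (by rw [pow_two]; exact hu2)
  have ho3 : orderOf u ∣ Nat.gcd 17 2 := Nat.dvd_gcd ho1 ho2
  have ho4 : orderOf u = 1 := by
    have : Nat.gcd 17 2 = 1 := by norm_num
    rw [this] at ho3
    exact Nat.dvd_one.mp ho3
  exact hu1 (orderOf_eq_one_iff.mp ho4)

/-- The arithmetic of the centralizer of an involution. -/
theorem s4080_inv_arith : ∀ n ∈ Finset.range 241, ∀ x ∈ Finset.Icc (-4 : ℤ) 6,
    (n : ℤ) ∣ 15 * x → (n : ℤ) ∣ 16 * (x - 1) → 1 + x ^ 2 + 8 * (x - 1) ^ 2 ≤ (n : ℤ) →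
    2 ∣ n → n = 16 ∧ x = 0 := by
  decide +kernel

end Cfsg.Agent.Lib.Helper20
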