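import Mathlib
import Cfsg.Agent.Lib.Helper20.Exc2c

/-!
# Simple groups of order 4080 (helper20): involution centralizers are elementary abelian.
-/

set_option autoImplicit false

namespace Cfsg.Agent.Lib.Helper20

open Cfsg Cfsg.Agent.Lib.Helper4 Cfsg.Agent.Lib.Helper23 Cfsg.Agent.Lib.Helper79 Subgroup
open scoped ComplexConjugate

theorem exc2_orderOf_of_isConj {G : Type*} [Group G] {x u : G} (h : IsConj x u) :
    orderOf x = orderOf u := by
  obtain ⟨c, hc⟩ := isConj_iff.mp h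
  rw [← hc]
  exact (orderOf_injective (MulAut.conj c).toMonoidHom (MulAut.conj c).injective x).symm

set_option maxHeartbeats 1600000 in
/-- In a simple group of order 4080 every element commuting with an involution has square
one. -/
theorem s4080_invCentElem {G : Type*} [Group G] [Finite G] [IsSimpleGroup G]
    (h : Nat.card G = 4080) : InvCentElem G := by
  classical
  cases nonempty_fintype G
  have hfin : Finite (IrrCharacter G) := irr_finite
  let _ : Fintype (IrrCharacter G) := Fintype.ofFinite _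
  have hp17 : Fact (Nat.Prime 17) := ⟨by norm_num⟩
  have hp2 : Fact (Nat.Prime 2) := ⟨by norm_num⟩
  have hG : ¬ IsMulCommutative G := not_comm_of_simple_of_not_prime (by rw [h]; norm_num)
  obtain ⟨Q⟩ : Nonempty (Sylow 17 G) := inferInstance
  obtain ⟨hP, hC, hF⟩ := s4080_sylow17 h Q
  obtain ⟨L, instL, χ, Θ, δ, ε, R, hcardL, hδ, hε, hχ1, -, -, hvan, ⟨m, hm⟩, -, hR, hsplit⟩ :=
    exc2_struct 17 (by norm_num) (Q : Subgroup G) hP hC hF
  have hcardL' : Fintype.card L = 16 := by rw [hcardL]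
  obtain ⟨l₀⟩ : Nonempty L := Fintype.card_pos_iff.mp (by rw [hcardL']; norm_num)
  -- sum of squares
  have hN : ∑ ψ : IrrCharacter G, (irrDeg ψ : ℤ) ^ 2 = 4080 := by
    have h1 := sum_sq_irr (G := G)
    simp only [irrDeg_spec] at h1
    rw [h] at h1
    exact_mod_cast h1
  -- the degree relation
  have hrel : ∀ l, 1 + δ * (irrDeg χ : ℤ) + ε * (irrDeg (Θ l) : ℤ) = 0 := by
    intro l
    have h1 := hvan 1 (fun y _ hy hc => hy (isConj_one_left.mp hc)) l
    rw [irrDeg_spec, irrDeg_spec] at h1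
    exact_mod_cast h1
  have hdpos := irrDeg_pos χ
  have hddvd : irrDeg χ ∣ 4080 := h ▸ irrDeg_dvd χ
  have hd1 : irrDeg χ ≠ 1 := by
    intro h1
    have hχ1' : (χ : G → ℂ) 1 = 1 := by rw [irrDeg_spec, h1]; norm_num
    have hcl := card_linear (G := G)
    rw [commutator_eq_top_of_simple hG, Subgroup.index_top] at hcl
    have hsub : Subsingleton {χ : IrrCharacter G // (χ : G → ℂ) 1 = 1} :=
      (Nat.card_eq_one_iff_unique.mp hcl).1
    have := hsub.elim ⟨χ, hχ1'⟩ ⟨trivIrr, trivIrr_apply 1⟩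
    exact hχ1 (congrArg Subtype.val this)
  have hsplitsq := hsplit (fun ψ => (irrDeg ψ : ℤ) ^ 2)
  rw [hN, irrDeg_triv] at hsplitsq
  have hnnR : 0 ≤ ∑ ψ ∈ R, (irrDeg ψ : ℤ) ^ 2 := Finset.sum_nonneg (fun _ _ => sq_nonneg _)
  have hd63 : irrDeg χ ≤ 63 := by
    have hnnΘ : 0 ≤ ∑ l, (irrDeg (Θ l) : ℤ) ^ 2 := Finset.sum_nonneg (fun _ _ => sq_nonneg _)
    by_contra hcon
    push Not at hcon
    have : (64 : ℤ) ≤ (irrDeg χ : ℤ) := by exact_mod_cast hcon
    nlinarith
  push_cast at hm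
  -- determine `δ` and the degree of `χ`
  have hdδ : irrDeg χ = 16 ∧ δ = -1 := by
    rcases hδ with hδ1 | hδ1
    · exfalso
      rw [hδ1] at hm
      have hm1 : 1 ≤ m := by omega
      have hm4 : m ≤ 4 := by omega
      interval_cases m
      · exact hd1 (by omega)
      · have : irrDeg χ = 18 := by omega
        rw [this] at hddvd
        norm_num at hddvd
      · have : irrDeg χ = 35 := by omega
        rw [this] at hddvd
        norm_num at hddvd
      · have : irrDeg χ = 52 := by omega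
        rw [this] at hddvd
        norm_num at hddvd
    · rw [hδ1] at hm
      have hm1 : 0 ≤ m := by omega
      have hm4 : m ≤ 2 := by omega
      interval_cases m
      · exact ⟨by omega, hδ1⟩
      · have : irrDeg χ = 33 := by omega
        rw [this] at hddvd
        norm_num at hddvd
      · have : irrDeg χ = 50 := by omega
        rw [this] at hddvd
        norm_num at hddvd
  obtain ⟨hd16, hδm1⟩ := hdδ
  have hε1 : ε = 1 := by
    rcases hε with h1 | h1
    · exact h1
    · exfalso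
      have h2 := hrel l₀
      rw [hδm1, h1, hd16] at h2
      have h3 : (0 : ℤ) < irrDeg (Θ l₀) := by exact_mod_cast irrDeg_pos (Θ l₀)
      push_cast at h2
      linarith
  have hf : ∀ l, (irrDeg (Θ l) : ℤ) = 15 := by
    intro l
    have h2 := hrel l
    rw [hδm1, hε1, hd16] at h2
    push_cast at h2
    linarith
  -- the degrees of the remaining characters
  have hRsq : ∑ ψ ∈ R, (irrDeg ψ : ℤ) ^ 2 = 2023 := by
    have h1 : ∑ l, (irrDeg (Θ l) : ℤ) ^ 2 = 16 * 225 := by
      rw [Finset.sum_congr rfl (fun l _ => by rw [hf l]), Finset.sum_const, Finset.card_univ,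
        hcardL', nsmul_eq_mul]
      norm_num
    rw [h1, hd16] at hsplitsq
    push_cast at hsplitsq
    linarith
  have hRdeg : ∑ ψ ∈ R, (irrDeg ψ : ℤ) ≤ 119 := by
    have h17 : ∀ ψ ∈ R, 17 * (irrDeg ψ : ℤ) ≤ (irrDeg ψ : ℤ) ^ 2 := by
      intro ψ hψ
      have h1 := Nat.le_of_dvd (irrDeg_pos ψ) (hR ψ hψ)
      have h2 : (17 : ℤ) ≤ irrDeg ψ := by exact_mod_cast h1
      nlinarith
    have h2 : 17 * ∑ ψ ∈ R, (irrDeg ψ : ℤ) ≤ ∑ ψ ∈ R, (irrDeg ψ : ℤ) ^ 2 := by
      rw [Finset.mul_sum]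
      exact Finset.sum_le_sum h17
    rw [hRsq] at h2
    linarith
  have hsumdeg : ∑ ψ : IrrCharacter G, (irrDeg ψ : ℤ) ≤ 256 := by
    have h1 := hsplit (fun ψ => (irrDeg ψ : ℤ))
    have h2 : ∑ l, (irrDeg (Θ l) : ℤ) = 16 * 15 := by
      rw [Finset.sum_congr rfl (fun l _ => hf l), Finset.sum_const, Finset.card_univ,
        hcardL', nsmul_eq_mul]
      norm_num
    rw [h2, hd16, irrDeg_triv] at h1
    push_cast at h1
    linarith
  -- the centralizer of an involution
  have key : ∀ u : G, u ≠ 1 → u * u = 1 → ∃ nu : IrrCharacter G → ℤ,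
      (∀ ψ : IrrCharacter G, (ψ : G → ℂ) u = (nu ψ : ℂ)) ∧
      Nat.card (centralizer ({u} : Set G)) = 16 ∧ nu χ = 0 ∧ (∀ l, nu (Θ l) = -1) ∧
      nu trivIrr = 1 ∧ ∑ ψ ∈ R, nu ψ ^ 2 = 7 := by
    intro u hu1 hu2
    have hex : ∀ ψ : IrrCharacter G, ∃ k : ℤ, (ψ : G → ℂ) u = (k : ℂ) := by
      intro ψ
      obtain ⟨a, b, h1, -⟩ := Cfsg.Agent.Lib.Helper62.irr_invol ψ u hu2
      exact ⟨(a : ℤ) - (b : ℤ), by rw [h1]; push_cast; ring⟩
    choose nu hnu using hex
    have hnutriv : nu trivIrr = 1 := by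
      have h1 := hnu trivIrr
      rw [trivIrr_apply] at h1
      exact_mod_cast h1.symm
    have ho2 : orderOf u ∣ 2 := orderOf_dvd_of_pow_eq_one (by rw [pow_two]; exact hu2)
    have hnc : ∀ y ∈ (Q : Subgroup G), y ≠ 1 → ¬ IsConj y u := by
      intro y hy hy1 hc
      have ho : orderOf y = orderOf u := exc2_orderOf_of_isConj hc
      have ho17 : orderOf y ∣ 17 := by
        have h1 : orderOf (⟨y, hy⟩ : (Q : Subgroup G)) ∣ Nat.card (Q : Subgroup G) :=
          orderOf_dvd_natCard _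
        rwa [hP, ← Subgroup.orderOf_coe] at h1
      rw [ho] at ho17
      have ho3 : orderOf u ∣ Nat.gcd 17 2 := Nat.dvd_gcd ho17 ho2
      have hg : Nat.gcd 17 2 = 1 := by norm_num
      rw [hg] at ho3
      exact hu1 (orderOf_eq_one_iff.mp (Nat.dvd_one.mp ho3))
    have hvanu : ∀ l, nu (Θ l) = nu χ - 1 := by
      intro l
      have h1 := hvan u hnc l
      rw [hnu χ, hnu (Θ l), hδm1, hε1] at h1
      have h2 : (1 : ℤ) + (-1) * nu χ + 1 * nu (Θ l) = 0 := by exact_mod_cast h1
      linarith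
    obtain ⟨n, hn⟩ : ∃ n : ℕ, n = Nat.card (centralizer ({u} : Set G)) := ⟨_, rfl⟩
    obtain ⟨idx, hidx⟩ : ∃ idx : ℕ, idx = (centralizer ({u} : Set G)).index := ⟨_, rfl⟩
    have hcol : ∑ ψ : IrrCharacter G, nu ψ ^ 2 = (n : ℤ) := by
      have h1 := col_orth u u
      rw [if_pos (IsConj.refl u), ← hn] at h1
      have h2 : ((∑ ψ : IrrCharacter G, nu ψ ^ 2 : ℤ) : ℂ) = ((n : ℤ) : ℂ) := by
        rw [Int.cast_natCast, ← h1]
        push_cast
        refine Finset.sum_congr rfl fun ψ _ => ?_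
        rw [hnu ψ, map_intCast]
        ring
      exact_mod_cast h2
    have hsplitu := hsplit (fun ψ => nu ψ ^ 2)
    have hsumΘ : ∑ l, nu (Θ l) ^ 2 = 16 * (nu χ - 1) ^ 2 := by
      rw [Finset.sum_congr rfl (fun l _ => by rw [hvanu l]), Finset.sum_const, Finset.card_univ,
        hcardL', nsmul_eq_mul]
      norm_num
    rw [hcol, hnutriv, hsumΘ] at hsplitu
    have hnnR' : 0 ≤ ∑ ψ ∈ R, nu ψ ^ 2 := Finset.sum_nonneg (fun _ _ => sq_nonneg _)
    have hidxn : idx * n = 4080 := by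
      rw [hidx, hn, mul_comm, ← h]
      exact Subgroup.card_mul_index _
    have h2n : 2 ∣ n := by
      have hu : u ∈ centralizer ({u} : Set G) := by
        rw [mem_centralizer_iff]
        intro w hw
        rw [Set.mem_singleton_iff.mp hw]
      have h1 : orderOf (⟨u, hu⟩ : centralizer ({u} : Set G)) ∣
          Nat.card (centralizer ({u} : Set G)) := orderOf_dvd_natCard _
      have h2 : orderOf u = 2 := orderOf_eq_prime (by rw [pow_two]; exact hu2) hu1
      rwa [← Subgroup.orderOf_coe, h2, ← hn] at h1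
    have h17n : ¬ 17 ∣ n := by
      rw [hn]
      exact s4080_not_dvd_centralizer h u hu1 hu2
    have hcop : Nat.Coprime n 17 :=
      ((Nat.Prime.coprime_iff_not_dvd (by norm_num : Nat.Prime 17)).mpr h17n).symm
    have hcopZ : IsCoprime (n : ℤ) (17 : ℤ) := by
      have := Nat.isCoprime_iff_coprime.mpr hcop
      exact_mod_cast this
    have hn240 : n ∣ 240 := by
      apply hcop.dvd_of_dvd_mul_right
      exact ⟨idx, by rw [mul_comm n idx, hidxn]⟩
    have hnle : n ≤ 240 := Nat.le_of_dvd (by norm_num) hn240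
    have hidxnZ : (idx : ℤ) * (n : ℤ) = 4080 := by exact_mod_cast hidxn
    -- integrality of the central characters
    have hintχ : (n : ℤ) ∣ 15 * nu χ := by
      have hb := Cfsg.Agent.Lib.Helper82.irr_centralChar_isIntegral χ u
      have h1 : ((16 : ℕ) : ℤ) ∣ (idx : ℤ) * nu χ := by
        refine int_dvd_of_eq_mul_isIntegral 16 (by norm_num) _ _ hb ?_
        unfold centralChar
        rw [hnu χ, irrDeg_spec, hd16, ← hidx]
        push_cast
        field_simp
      obtain ⟨k, hk⟩ := h1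
      push_cast at hk
      apply hcopZ.dvd_of_dvd_mul_left
      have h3 : (16 : ℤ) * (17 * (15 * nu χ)) = 16 * ((n : ℤ) * k) := by
        linear_combination (-nu χ) * hidxnZ + (n : ℤ) * hk
      exact ⟨k, by linarith⟩
    have hintΘ : (n : ℤ) ∣ 16 * (nu χ - 1) := by
      have hb := Cfsg.Agent.Lib.Helper82.irr_centralChar_isIntegral (Θ l₀) u
      have hf15 : irrDeg (Θ l₀) = 15 := by exact_mod_cast hf l₀
      have h1 : ((15 : ℕ) : ℤ) ∣ (idx : ℤ) * (nu χ - 1) := by
        refine int_dvd_of_eq_mul_isIntegral 15 (by norm_num) _ _ hb ?_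
        unfold centralChar
        rw [hnu (Θ l₀), hvanu l₀, irrDeg_spec, hf15, ← hidx]
        push_cast
        field_simp
      obtain ⟨k, hk⟩ := h1
      push_cast at hk
      apply hcopZ.dvd_of_dvd_mul_left
      have h3 : (15 : ℤ) * (17 * (16 * (nu χ - 1))) = 15 * ((n : ℤ) * k) := by
        linear_combination (-(nu χ - 1)) * hidxnZ + (n : ℤ) * hk
      exact ⟨k, by linarith⟩
    have hnleZ : (n : ℤ) ≤ 240 := by exact_mod_cast hnle
    have hxhi : nu χ ≤ 6 := by
      by_contra hcon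
      push Not at hcon
      nlinarith [sq_nonneg (nu χ - 7), sq_nonneg (nu χ)]
    have hxlo : -4 ≤ nu χ := by
      by_contra hcon
      push Not at hcon
      nlinarith [sq_nonneg (nu χ + 5), sq_nonneg (nu χ)]
    have hbound : 1 + nu χ ^ 2 + 8 * (nu χ - 1) ^ 2 ≤ (n : ℤ) := by linarith
    obtain ⟨hn16, hx0⟩ := s4080_inv_arith n (Finset.mem_range.mpr (by omega)) (nu χ)
      (Finset.mem_Icc.mpr ⟨hxlo, hxhi⟩) hintχ hintΘ hbound h2n
    refine ⟨nu, hnu, by rw [← hn, hn16], hx0, fun l => by rw [hvanu l, hx0]; norm_num,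
      hnutriv, ?_⟩
    rw [hn16, hx0] at hsplitu
    push_cast at hsplitu
    linarith
  -- the number of involutions
  obtain ⟨u₀, hu₀⟩ := exists_prime_orderOf_dvd_card' (G := G) 2 (by rw [h]; norm_num)
  have hu₀1 : u₀ ≠ 1 := by
    intro h1
    rw [h1, orderOf_one] at hu₀
    norm_num at hu₀
  have hu₀2 : u₀ * u₀ = 1 := by
    rw [← pow_two, ← hu₀]
    exact pow_orderOf_eq_one u₀
  have hinv : 255 ≤ Nat.card {x : G // orderOf x = 2} := by
    obtain ⟨-, -, hn₀, -⟩ := key u₀ hu₀1 hu₀2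
    have h1 := card_conj_class u₀
    have hidx : (centralizer ({u₀} : Set G)).index = 255 := by
      have h2 := Subgroup.card_mul_index (centralizer ({u₀} : Set G))
      rw [hn₀, h] at h2
      omega
    rw [hidx] at h1
    rw [Nat.card_eq_fintype_card, Fintype.card_subtype, ← h1]
    apply Finset.card_le_card
    intro x hx
    rw [Finset.mem_filter] at hx ⊢
    exact ⟨Finset.mem_univ _, by rw [exc2_orderOf_of_isConj hx.2, hu₀]⟩
  -- all Frobenius–Schur indicators are `1`
  have hcd : ∀ ψ : IrrCharacter G, (Cfsg.charDegree (ψ : G → ℂ) : ℤ) = (irrDeg ψ : ℤ) := by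
    intro ψ
    have h1 := irr_one_eq_charDegree ψ
    rw [irrDeg_spec] at h1
    exact_mod_cast h1.symm
  have hfs : (1 + (Nat.card {x : G // orderOf x = 2} : ℤ)) =
      ∑ ψ : IrrCharacter G, fsSign ψ * (irrDeg ψ : ℤ) := by
    rw [one_add_card_involutions (G := G)]
    exact Finset.sum_congr rfl fun ψ _ => by rw [hcd ψ]
  have hfsS : ∀ ψ : IrrCharacter G, fsSign ψ = 1 := by
    have hnn : ∀ ψ ∈ (Finset.univ : Finset (IrrCharacter G)),
        0 ≤ (1 - fsSign ψ) * (irrDeg ψ : ℤ) := fun ψ _ =>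
      mul_nonneg (by linarith [fsSign_le_one ψ]) (Int.natCast_nonneg _)
    have hz : ∑ ψ : IrrCharacter G, (1 - fsSign ψ) * (irrDeg ψ : ℤ) = 0 := by
      apply le_antisymm
      · have h1 : ∑ ψ : IrrCharacter G, (1 - fsSign ψ) * (irrDeg ψ : ℤ) =
            ∑ ψ : IrrCharacter G, (irrDeg ψ : ℤ) -
              ∑ ψ : IrrCharacter G, fsSign ψ * (irrDeg ψ : ℤ) := by
          rw [← Finset.sum_sub_distrib]
          exact Finset.sum_congr rfl (fun ψ _ => by ring)
        rw [h1, ← hfs]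
        have h2 : (255 : ℤ) ≤ (Nat.card {x : G // orderOf x = 2} : ℤ) := by exact_mod_cast hinv
        linarith
      · exact Finset.sum_nonneg hnn
    intro ψ
    have h1 := (Finset.sum_eq_zero_iff_of_nonneg hnn).mp hz ψ (Finset.mem_univ ψ)
    have hpos : (0 : ℤ) < irrDeg ψ := by exact_mod_cast irrDeg_pos ψ
    rcases mul_eq_zero.mp h1 with h2 | h2
    · linarith
    · linarith
  -- involutions have no square roots
  have nosqrt : ∀ v : G, v ≠ 1 → v * v = 1 → ∀ w : G, w * w ≠ v := by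
    intro v hv1 hv2 w hw
    obtain ⟨nu, hnu, hn, hnuχ, hnuΘ, hnutriv, hnuR⟩ := key v hv1 hv2
    have hcs := card_sqrt_eq (G := G) v
    have hcs' : ((Finset.univ.filter (fun h : G => h * h = v)).card : ℤ) =
        ∑ ψ : IrrCharacter G, nu ψ := by
      have h1 : (((Finset.univ.filter (fun h : G => h * h = v)).card : ℤ) : ℂ) =
          ((∑ ψ : IrrCharacter G, nu ψ : ℤ) : ℂ) := by
        rw [Int.cast_natCast, hcs]
        push_cast
        refine Finset.sum_congr rfl fun ψ _ => ?_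
        rw [fsSign_spec, hfsS ψ, hnu ψ]
        push_cast
        ring
      exact_mod_cast h1
    have hsp := hsplit nu
    have hsΘ : ∑ l, nu (Θ l) = -16 := by
      rw [Finset.sum_congr rfl (fun l _ => hnuΘ l), Finset.sum_const, Finset.card_univ,
        hcardL', nsmul_eq_mul]
      norm_num
    rw [hnutriv, hnuχ, hsΘ] at hsp
    have hle : ∑ ψ ∈ R, nu ψ ≤ ∑ ψ ∈ R, nu ψ ^ 2 :=
      Finset.sum_le_sum (fun ψ _ => Int.le_self_sq (nu ψ))
    have hpos : 0 < (Finset.univ.filter (fun h : G => h * h = v)).card :=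
      Finset.card_pos.mpr ⟨w, by simp [hw]⟩
    have hposZ : (0 : ℤ) < ((Finset.univ.filter (fun h : G => h * h = v)).card : ℤ) := by
      exact_mod_cast hpos
    linarith
  -- conclusion
  intro t c ht1 ht2 hct
  have ht2' : t * t = 1 := by rw [← pow_two]; exact ht2
  obtain ⟨-, -, hn, -⟩ := key t ht1 ht2'
  have hcmem : c ∈ centralizer ({t} : Set G) := by
    rw [mem_centralizer_iff]
    intro w hw
    rw [Set.mem_singleton_iff.mp hw]
    exact hct.symm
  have ho : orderOf c ∣ 2 ^ 4 := by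
    have h1 : orderOf (⟨c, hcmem⟩ : centralizer ({t} : Set G)) ∣
        Nat.card (centralizer ({t} : Set G)) := orderOf_dvd_natCard _
    rw [hn, ← Subgroup.orderOf_coe] at h1
    exact h1
  by_contra hc2
  obtain ⟨j, hj, hoj⟩ := (Nat.dvd_prime_pow Nat.prime_two).mp ho
  have hj2 : 2 ≤ j := by
    by_contra hlt
    push Not at hlt
    apply hc2
    apply orderOf_dvd_iff_pow_eq_one.mp
    rw [hoj]
    interval_cases j <;> norm_num
  obtain ⟨k, rfl⟩ : ∃ k, j = k + 2 := ⟨j - 2, by omega⟩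
  have hom : orderOf c = 4 * 2 ^ k := by rw [hoj, pow_add]; ring
  have hmpos : 0 < 2 ^ k := by positivity
  have hv1 : c ^ (2 * 2 ^ k) ≠ 1 := by
    intro h1
    have h2 := orderOf_dvd_of_pow_eq_one h1
    rw [hom] at h2
    have h3 := Nat.le_of_dvd (by omega) h2
    omega
  have hv2 : c ^ (2 * 2 ^ k) * c ^ (2 * 2 ^ k) = 1 := by
    rw [← pow_add, show 2 * 2 ^ k + 2 * 2 ^ k = 4 * 2 ^ k by ring, ← hom]
    exact pow_orderOf_eq_one c
  exact nosqrt (c ^ (2 * 2 ^ k)) hv1 hv2 (c ^ 2 ^ k) (by rw [← pow_add]; congr 1; ring)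

end Cfsg.Agent.Lib.Helper20
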