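import Mathlib
import Cfsg.Agent.Lib.Helper20.Exc2a

/-!
# Exceptional characters for a self-centralizing subgroup of odd prime order with
`|N(P):P| = 2` (helper20): one vanishing relation, valid for every odd prime.

* `exc2_one`: there are nonprincipal irreducible characters `χ ≠ ψ` with `ψ(1) = χ(1) + 1` such
  that `1 + χ - ψ` vanishes off the conjugates of `P ∖ 1`.

The set-up (multiplicities, coefficient vectors, Gram matrix) follows helper23's `exc_two`.
-/

set_option autoImplicit false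

namespace Cfsg.Agent.Lib.Helper20

open Cfsg Cfsg.Agent.Lib.Helper4 Cfsg.Agent.Lib.Helper23
open scoped ComplexConjugate

universe u

/-- Exceptional characters for a self-centralizing subgroup `P` of odd prime order `p` with
`|N(P) : P| = 2`: there are nonprincipal irreducible characters `χ ≠ ψ` with
`ψ(1) = χ(1) + 1` such that `1 + χ - ψ` vanishes off the conjugates of `P ∖ 1`. -/
theorem exc2_one {G : Type u} [Group G] [Fintype G] [Fintype (IrrCharacter G)] (p : ℕ)
    [hp : Fact p.Prime] (hp2 : p ≠ 2) (P : Subgroup G) (hP : Nat.card P = p)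
    (hC : ∀ y ∈ P, y ≠ 1 → Nat.card (Subgroup.centralizer ({y} : Set G)) = p)
    (hF : ∀ y ∈ P, y ≠ 1 → ∀ y' ∈ P, (IsConj y y' ↔ y' = y ∨ y' = y⁻¹)) :
    ∃ χ ψ : IrrCharacter G, χ ≠ trivIrr ∧ ψ ≠ trivIrr ∧ χ ≠ ψ ∧ irrDeg ψ = irrDeg χ + 1 ∧
      ∀ g : G, (∀ y ∈ P, y ≠ 1 → ¬ IsConj y g) →
        1 + (χ : G → ℂ) g - (ψ : G → ℂ) g = 0 := by
  classical
  let _ : Fintype P := Fintype.ofFinite _
  have : Finite (IrrCharacter P) := irr_finite
  let _ : Fintype (IrrCharacter P) := Fintype.ofFinite _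
  have hp0 : p ≠ 0 := hp.out.ne_zero
  have hp1 : 1 < p := hp.out.one_lt
  have hodd : Odd (Nat.card P) := by rw [hP]; exact hp.out.odd_of_ne_two hp2
  have hcyc : IsCyclic P := isCyclic_of_prime_card hP
  have hcomm : ∀ a b : P, a * b = b * a := fun a b =>
    (isMulCommutative_of_isCyclic (α := P)).is_comm.comm a b
  have hinv : ∀ y : P, y ≠ 1 → y⁻¹ ≠ y := fun y hy => inv_ne_self_of_odd hodd y hy
  have hbar : ∀ l : IrrCharacter P, l ≠ trivIrr → irrConj l ≠ l := by
    intro l hl h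
    exact hl (real_irr_eq_triv hodd l ((irrConj_eq_self_iff l).mp h))
  have hbar1 : ∀ l : IrrCharacter P, l ≠ trivIrr → irrConj l ≠ trivIrr := by
    intro l hl h
    apply hl
    have := congrArg irrConj h
    rwa [irrConj_irrConj, irrConj_triv] at this
  have hl1 : ∀ l : IrrCharacter P, (l : P → ℂ) 1 = 1 := fun l =>
    Cfsg.Agent.Lib.Helper35.irr_one_of_comm hcomm l
  have hcardIrr : Fintype.card (IrrCharacter P) = p := by
    rw [← Nat.card_eq_fintype_card, card_irr,
      Cfsg.Agent.Lib.Helper35.card_conjClasses_of_comm hcomm, hP]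
  -- multiplicities
  choose M hM using (fun χ : IrrCharacter G =>
    exists_decomp_of_isCharacter (fun h : P => (χ : G → ℂ) h)
      (isCharacter_restrict P (χ : G → ℂ) (isCharacter_of_irr χ)))
  have hMin : ∀ (χ : IrrCharacter G) (l : IrrCharacter P),
      classInner (fun h : P => (χ : G → ℂ) h) (l : P → ℂ) = (M χ l : ℂ) := by
    intro χ l
    rw [hM χ]
    exact classInner_sum_irr _ l
  have hMtriv : ∀ l : IrrCharacter P,
      (M trivIrr l : ℂ) = if (trivIrr : IrrCharacter P) = l then 1 else 0 := by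
    intro l
    rw [← hMin]
    exact classInner_irr trivIrr l
  -- the vectors `a l`
  let a : {l : IrrCharacter P // l ≠ trivIrr} → IrrCharacter G → ℤ :=
    fun l χ => (M χ trivIrr : ℤ) - (M χ l.1 : ℤ)
  have hacast : ∀ (l : {l : IrrCharacter P // l ≠ trivIrr}) (χ : IrrCharacter G),
      ((a l χ : ℤ) : ℂ) = classInner (fun h : P => (χ : G → ℂ) h)
        ((trivIrr : IrrCharacter P).1 - l.1.1) := by
    intro l χ
    rw [Cfsg.Agent.Lib.Helper35.classInner_sub_right, hMin, hMin]
    simp [a]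
  have hf1 : ∀ l : {l : IrrCharacter P // l ≠ trivIrr},
      ((trivIrr : IrrCharacter P).1 - l.1.1) 1 = 0 := by
    intro l
    rw [Pi.sub_apply, trivIrr_apply, hl1, sub_self]
  have ha1 : ∀ l : {l : IrrCharacter P // l ≠ trivIrr}, a l trivIrr = 1 := by
    intro l
    have h1 : M trivIrr trivIrr = 1 := by
      exact_mod_cast (hMtriv trivIrr).trans (if_pos rfl)
    have h2 : M trivIrr l.1 = 0 := by
      exact_mod_cast (hMtriv l.1).trans (if_neg (Ne.symm l.2))
    simp [a, h1, h2]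
  have hnorm : ∀ l : {l : IrrCharacter P // l ≠ trivIrr},
      ∑ χ : IrrCharacter G, a l χ * a l χ = 3 := by
    intro l
    have hc : ((∑ χ : IrrCharacter G, a l χ * a l χ : ℤ) : ℂ) =
        classInner (fun y => ((trivIrr : IrrCharacter P).1 - l.1.1) y +
          ((trivIrr : IrrCharacter P).1 - l.1.1) y⁻¹)
          ((trivIrr : IrrCharacter P).1 - l.1.1) := by
      rw [← exc_key p P hP hp0 hC hF hinv _ _ (hf1 l)]
      push_cast
      refine Finset.sum_congr rfl fun χ _ => ?_
      rw [← hacast l χ, map_intCast]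
    have hfun : (fun y => ((trivIrr : IrrCharacter P).1 - l.1.1) y +
        ((trivIrr : IrrCharacter P).1 - l.1.1) y⁻¹) =
        (2 : ℂ) • (trivIrr : IrrCharacter P).1 - l.1.1 - (irrConj l.1).1 := by
      funext y
      simp only [Pi.sub_apply, Pi.smul_apply, trivIrr_apply, smul_eq_mul, irrConj_apply]
      rw [irr_inv]
      ring
    rw [hfun] at hc
    rw [Cfsg.Agent.Lib.Helper35.classInner_sub_left, Cfsg.Agent.Lib.Helper35.classInner_sub_left,
      Cfsg.Agent.Lib.Helper35.classInner_smul_left,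
      Cfsg.Agent.Lib.Helper35.classInner_sub_right,
      Cfsg.Agent.Lib.Helper35.classInner_sub_right,
      Cfsg.Agent.Lib.Helper35.classInner_sub_right,
      classInner_irr, classInner_irr, classInner_irr, classInner_irr, classInner_irr,
      classInner_irr, if_pos rfl, if_neg (Ne.symm l.2), if_neg l.2,
      if_neg (hbar1 l.1 l.2), if_pos rfl, if_neg (hbar l.1 l.2)] at hc
    have : ((∑ χ : IrrCharacter G, a l χ * a l χ : ℤ) : ℂ) = ((3 : ℤ) : ℂ) := by
      rw [hc]; push_cast; ring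
    exact_mod_cast this
  -- a nontrivial character of `P`
  obtain ⟨l₁⟩ : Nonempty {l : IrrCharacter P // l ≠ trivIrr} := by
    have h1 : 1 < Fintype.card (IrrCharacter P) := by rw [hcardIrr]; exact hp1
    obtain ⟨l, hl⟩ := Fintype.exists_ne_of_one_lt_card h1 (trivIrr : IrrCharacter P)
    exact ⟨⟨l, hl⟩⟩
  -- the structure of `a l₁`
  have hcsum : ∑ i : IrrCharacter G, (if i = trivIrr then 0 else a l₁ i) ^ 2 = 2 := by
    have h1 := hnorm l₁
    rw [← Finset.add_sum_erase _ _ (Finset.mem_univ (trivIrr : IrrCharacter G)), ha1] at h1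
    rw [← Finset.add_sum_erase _ _ (Finset.mem_univ (trivIrr : IrrCharacter G)), if_pos rfl]
    have h2 : ∑ i ∈ Finset.univ.erase (trivIrr : IrrCharacter G),
        (if i = trivIrr then 0 else a l₁ i) ^ 2 =
        ∑ i ∈ Finset.univ.erase (trivIrr : IrrCharacter G), a l₁ i * a l₁ i := by
      refine Finset.sum_congr rfl fun i hi => ?_
      rw [if_neg (Finset.ne_of_mem_erase hi)]
      ring
    rw [h2]
    linarith
  obtain ⟨χ₀, ψ₀, hχψ₀, hcχ, hcψ, hrest⟩ :=
    Cfsg.Agent.Lib.Helper35.two_square (fun i => if i = trivIrr then 0 else a l₁ i) hcsum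
  have hχ1 : χ₀ ≠ trivIrr := by
    rintro rfl
    simp at hcχ
  have hψ1 : ψ₀ ≠ trivIrr := by
    rintro rfl
    simp at hcψ
  have haχ : a l₁ χ₀ = 1 ∨ a l₁ χ₀ = -1 := by simpa [hχ1] using hcχ
  have haψ : a l₁ ψ₀ = 1 ∨ a l₁ ψ₀ = -1 := by simpa [hψ1] using hcψ
  have hstruct : ∀ i : IrrCharacter G, a l₁ i = (if i = trivIrr then 1 else 0) +
      a l₁ χ₀ * (if i = χ₀ then 1 else 0) + a l₁ ψ₀ * (if i = ψ₀ then 1 else 0) := by
    intro i
    by_cases h1 : i = trivIrr
    · subst h1
      rw [ha1, if_pos rfl, if_neg (Ne.symm hχ1), if_neg (Ne.symm hψ1)]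
      ring
    · by_cases h2 : i = χ₀
      · subst h2
        rw [if_neg h1, if_pos rfl, if_neg hχψ₀]
        ring
      · by_cases h3 : i = ψ₀
        · subst h3
          rw [if_neg h1, if_neg h2, if_pos rfl]
          ring
        · have h4 := hrest i h2 h3
          simp only [if_neg h1] at h4
          rw [h4, if_neg h1, if_neg h2, if_neg h3]
          ring
  -- the vanishing relation
  have hvan : ∀ g : G, (∀ y ∈ P, y ≠ 1 → ¬ IsConj y g) →
      1 + ((a l₁ χ₀ : ℤ) : ℂ) * (χ₀ : G → ℂ) g + ((a l₁ ψ₀ : ℤ) : ℂ) * (ψ₀ : G → ℂ) g = 0 := by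
    intro g hg
    have h1 := exc2_vanish P ((trivIrr : IrrCharacter P).1 - l₁.1.1) (hf1 l₁) g hg
    have h2 : ∑ φ : IrrCharacter G, ((a l₁ φ : ℤ) : ℂ) * conj ((φ : G → ℂ) g) = 0 := by
      rw [← h1]
      refine Finset.sum_congr rfl fun φ _ => ?_
      rw [hacast l₁ φ]
    have h3 : ∀ φ : IrrCharacter G, ((a l₁ φ : ℤ) : ℂ) * conj ((φ : G → ℂ) g) =
        (if φ = trivIrr then conj ((φ : G → ℂ) g) else 0) +
          ((a l₁ χ₀ : ℤ) : ℂ) * (if φ = χ₀ then conj ((φ : G → ℂ) g) else 0) +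
          ((a l₁ ψ₀ : ℤ) : ℂ) * (if φ = ψ₀ then conj ((φ : G → ℂ) g) else 0) := by
      intro φ
      rw [hstruct φ]
      push_cast
      split_ifs <;> ring
    rw [Finset.sum_congr rfl (fun φ _ => h3 φ), Finset.sum_add_distrib, Finset.sum_add_distrib,
      ← Finset.mul_sum, ← Finset.mul_sum, Finset.sum_ite_eq', Finset.sum_ite_eq',
      Finset.sum_ite_eq', if_pos (Finset.mem_univ _), if_pos (Finset.mem_univ _),
      if_pos (Finset.mem_univ _)] at h2
    have h4 := congrArg conj h2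
    simp only [map_add, map_mul, Complex.conj_conj, map_intCast, map_zero] at h4
    rw [trivIrr_apply] at h4
    simpa using h4
  -- degrees
  have hdeg : 1 + a l₁ χ₀ * (irrDeg χ₀ : ℤ) + a l₁ ψ₀ * (irrDeg ψ₀ : ℤ) = 0 := by
    have h1 := hvan 1 (fun y _ hy hc => hy (isConj_one_left.mp hc))
    rw [irrDeg_spec, irrDeg_spec] at h1
    exact_mod_cast h1
  have hdχ : (0 : ℤ) < irrDeg χ₀ := by exact_mod_cast irrDeg_pos χ₀
  have hdψ : (0 : ℤ) < irrDeg ψ₀ := by exact_mod_cast irrDeg_pos ψ₀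
  rcases haχ with h1 | h1 <;> rcases haψ with h2 | h2
  · exfalso
    rw [h1, h2] at hdeg
    linarith
  · refine ⟨χ₀, ψ₀, hχ1, hψ1, hχψ₀, ?_, ?_⟩
    · rw [h1, h2] at hdeg
      have : (irrDeg ψ₀ : ℤ) = irrDeg χ₀ + 1 := by linarith
      exact_mod_cast this
    · intro g hg
      have h3 := hvan g hg
      rw [h1, h2] at h3
      push_cast at h3
      linear_combination h3
  · refine ⟨ψ₀, χ₀, hψ1, hχ1, Ne.symm hχψ₀, ?_, ?_⟩
    · rw [h1, h2] at hdeg
      have : (irrDeg χ₀ : ℤ) = irrDeg ψ₀ + 1 := by linarith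
      exact_mod_cast this
    · intro g hg
      have h3 := hvan g hg
      rw [h1, h2] at h3
      push_cast at h3
      linear_combination h3
  · exfalso
    rw [h1, h2] at hdeg
    linarith

end Cfsg.Agent.Lib.Helper20
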