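import Mathlib
import Cfsg.Agent.Lib.Helper20.Exc2e
import Cfsg.Agent.Lib.Helper62.Cent4B
import Cfsg.Agent.Lib.Helper82.CharCore

/-!
# The involution formula for a self-centralizing subgroup of odd prime order `p` with
`|N(P):P| = 2` (helper20)

If an involution `t` inverts `P`, then `p * |C(t)|² * d * (d + 1) = |G| * (d - a)²`, where
`d` and `d + 1` are the degrees of the two nonprincipal characters of `exc2_one` and `a` is the
value at `t` of the one of degree `d` (`exc2_inv_formula`).  In particular `(|G| / p) * d * (d+1)`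
is a perfect square.
-/

set_option autoImplicit false

namespace Cfsg.Agent.Lib.Helper20

open Cfsg Cfsg.Agent.Lib.Helper4 Cfsg.Agent.Lib.Helper23
open scoped ComplexConjugate

universe u

/-- If the involution `t` inverts the subgroup `P` of odd order, then every element of the
coset `t P` is conjugate to `t`. -/
theorem exc2_isConj_mul {G : Type*} [Group G] (P : Subgroup G) (hodd : Odd (Nat.card P))
    (t : G) (ht2 : t * t = 1) (htP : ∀ z ∈ P, t * z * t = z⁻¹) (z : G) (hz : z ∈ P) :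
    IsConj t (t * z) := by
  obtain ⟨k, hk⟩ := hodd
  have hzpow : z ^ Nat.card P = 1 := by
    have h1 : (⟨z, hz⟩ : P) ^ Nat.card P = 1 := pow_card_eq_one'
    exact congrArg Subtype.val h1
  obtain ⟨w, hw⟩ : ∃ w : G, w = z ^ (k + 1) := ⟨_, rfl⟩
  have hwP : w ∈ P := by rw [hw]; exact pow_mem hz _
  have hww : w * w = z := by
    rw [hw, ← pow_add, show k + 1 + (k + 1) = (2 * k + 1) + 1 by ring, pow_succ, ← hk, hzpow,
      one_mul]
  have h1 := htP w⁻¹ (inv_mem hwP)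
  rw [inv_inv] at h1
  have h2 : w⁻¹ * t = t * w := by
    calc w⁻¹ * t = t * (t * w⁻¹ * t) := by rw [← mul_assoc, ← mul_assoc, ht2, one_mul]
      _ = t * w := by rw [h1]
  rw [isConj_iff]
  refine ⟨w⁻¹, ?_⟩
  rw [inv_inv, h2, mul_assoc, hww]

open scoped Classical in
/-- The number of ways of writing the inverse of `y ∈ P` as a product of two conjugates of an
involution `t` inverting `P`, when the centralizer of `y` is `P`. -/
theorem exc2_inv_count {G : Type*} [Group G] [Fintype G] (P : Subgroup G)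
    (hodd : Odd (Nat.card P)) (t : G) (ht2 : t * t = 1) (htP : ∀ z ∈ P, t * z * t = z⁻¹)
    (y : G) (hy : y ∈ P) (hCy : ∀ g : G, g * y = y * g → g ∈ P) :
    ∑ g : G, ∑ h : G, (if IsConj t g then (1 : ℂ) else 0)
        * (if IsConj t h then (1 : ℂ) else 0) * (if g * h * y = 1 then (1 : ℂ) else 0) =
      (Nat.card P : ℂ) := by
  let _ : Fintype P := Fintype.ofFinite _
  have htinv : t⁻¹ = t := inv_eq_of_mul_eq_one_left ht2
  have e1 : t * y⁻¹ = y * t := by
    have h := htP y⁻¹ (inv_mem hy)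
    rw [inv_inv] at h
    calc t * y⁻¹ = (t * y⁻¹ * t) * t := by rw [mul_assoc (t * y⁻¹), ht2, mul_one]
      _ = y * t := by rw [h]
  have hsq : ∀ g : G, IsConj t g → g * g = 1 := by
    intro g hg
    obtain ⟨c, hc⟩ := isConj_iff.mp hg
    rw [← hc]
    calc c * t * c⁻¹ * (c * t * c⁻¹) = c * (t * t) * c⁻¹ := by group
      _ = 1 := by rw [ht2]; group
  have key : ∀ g : G, ∑ h : G, (if IsConj t g then (1 : ℂ) else 0)
        * (if IsConj t h then (1 : ℂ) else 0) * (if g * h * y = 1 then (1 : ℂ) else 0) =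
      if g ∈ Finset.univ.image (fun z : P => t * (z : G)) then (1 : ℂ) else 0 := by
    intro g
    rw [Finset.sum_eq_single (g⁻¹ * y⁻¹)]
    · have h1 : g * (g⁻¹ * y⁻¹) * y = 1 := by group
      rw [if_pos h1, mul_one]
      by_cases hg : g ∈ Finset.univ.image (fun z : P => t * (z : G))
      · rw [if_pos hg]
        obtain ⟨z, -, rfl⟩ := Finset.mem_image.mp hg
        have hc1 : IsConj t (t * (z : G)) := exc2_isConj_mul P hodd t ht2 htP z z.2
        have hmem : y⁻¹ * (z : G) ∈ P := mul_mem (inv_mem hy) z.2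
        have e2 : t * (y⁻¹ * (z : G)) = (z : G)⁻¹ * y * t := by
          have h := htP (y⁻¹ * (z : G)) hmem
          calc t * (y⁻¹ * (z : G)) = (t * (y⁻¹ * (z : G)) * t) * t := by
                rw [mul_assoc (t * (y⁻¹ * (z : G))), ht2, mul_one]
            _ = (y⁻¹ * (z : G))⁻¹ * t := by rw [h]
            _ = (z : G)⁻¹ * y * t := by group
        have e3 : (t * (z : G))⁻¹ * y⁻¹ = t * (y⁻¹ * (z : G)) := by
          rw [e2, mul_inv_rev, htinv, mul_assoc, e1, ← mul_assoc]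
        have hc2 : IsConj t ((t * (z : G))⁻¹ * y⁻¹) := by
          rw [e3]
          exact exc2_isConj_mul P hodd t ht2 htP _ hmem
        rw [if_pos hc1, if_pos hc2]
        norm_num
      · rw [if_neg hg]
        by_cases hc1 : IsConj t g
        · by_cases hc2 : IsConj t (g⁻¹ * y⁻¹)
          · exfalso
            apply hg
            have hgg := hsq g hc1
            have hginv : g⁻¹ = g := inv_eq_of_mul_eq_one_left hgg
            have hhh := hsq _ hc2
            rw [hginv] at hhh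
            -- `g y⁻¹ g y⁻¹ = 1`
            have hB : g * y = y⁻¹ * g := by
              have h3 : g * y⁻¹ * g = y := by
                calc g * y⁻¹ * g = (g * y⁻¹ * (g * y⁻¹)) * y := by group
                  _ = y := by rw [hhh, one_mul]
              calc g * y = g * (g * y⁻¹ * g) := by rw [h3]
                _ = (g * g) * y⁻¹ * g := by group
                _ = y⁻¹ * g := by rw [hgg, one_mul]
            have hcomm : (t * g) * y = y * (t * g) := by
              rw [mul_assoc, hB, ← mul_assoc, e1, mul_assoc]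
            have hmem := hCy (t * g) hcomm
            refine Finset.mem_image.mpr ⟨⟨t * g, hmem⟩, Finset.mem_univ _, ?_⟩
            show t * (t * g) = g
            rw [← mul_assoc, ht2, one_mul]
          · rw [if_neg hc2]
            simp
        · rw [if_neg hc1]
          simp
    · intro h _ hne
      have hne' : ¬ g * h * y = 1 := by
        intro h1
        apply hne
        calc h = g⁻¹ * (g * h * y) * y⁻¹ := by group
          _ = g⁻¹ * y⁻¹ := by rw [h1, mul_one]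
      rw [if_neg hne', mul_zero]
    · intro h
      exact absurd (Finset.mem_univ _) h
  rw [Finset.sum_congr rfl (fun g _ => key g), Finset.sum_ite_mem, Finset.univ_inter,
    Finset.sum_const, nsmul_eq_mul, mul_one,
    Finset.card_image_of_injective _ (fun z₁ z₂ h => Subtype.ext (mul_left_cancel h)),
    Finset.card_univ, Nat.card_eq_fintype_card]

/-- The involution formula: `p * |C(t)|² * d * (d + 1) = |G| * (d - a)²`. -/
theorem exc2_inv_formula {G : Type u} [Group G] [Fintype G] [Fintype (IrrCharacter G)] (p : ℕ)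
    [hp : Fact p.Prime] (hp2 : p ≠ 2) (P : Subgroup G) (hP : Nat.card P = p)
    (hC : ∀ y ∈ P, y ≠ 1 → Nat.card (Subgroup.centralizer ({y} : Set G)) = p)
    (hF : ∀ y ∈ P, y ≠ 1 → ∀ y' ∈ P, (IsConj y y' ↔ y' = y ∨ y' = y⁻¹))
    (t : G) (ht2 : t * t = 1) (htP : ∀ z ∈ P, t * z * t = z⁻¹) :
    ∃ (d : ℕ) (a : ℤ), 0 < d ∧ d ∣ Nat.card G ∧ (d + 1) ∣ Nat.card G ∧
      (p : ℤ) * (Nat.card (Subgroup.centralizer ({t} : Set G)) : ℤ) ^ 2 * d * (d + 1) =
        (Nat.card G : ℤ) * (d - a) ^ 2 := by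
  classical
  obtain ⟨χ, ψ, hχ1, hψ1, hχψ, hdeg, hvan⟩ := exc2_one p hp2 P hP hC hF
  have hoddP : Odd (Nat.card P) := by rw [hP]; exact hp.out.odd_of_ne_two hp2
  have hcyc : IsCyclic P := isCyclic_of_prime_card hP
  have hcentP : ∀ y ∈ P, y ≠ 1 → ∀ g : G, g * y = y * g → g ∈ P := by
    intro y hy hy1 g hg
    have hle : P ≤ Subgroup.centralizer ({y} : Set G) := by
      intro z hz
      rw [Subgroup.mem_centralizer_iff]
      intro w hw
      rw [Set.mem_singleton_iff] at hw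
      subst hw
      have := (isMulCommutative_of_isCyclic (α := P)).is_comm.comm ⟨w, hy⟩ ⟨z, hz⟩
      exact congrArg Subtype.val this
    have heq : P = Subgroup.centralizer ({y} : Set G) :=
      Subgroup.eq_of_le_of_card_ge hle (by rw [hC y hy hy1, hP])
    rw [heq, Subgroup.mem_centralizer_iff]
    intro w hw
    rw [Set.mem_singleton_iff] at hw
    subst hw
    exact hg.symm
  have hnc : ∀ y ∈ P, y ≠ 1 → ¬ IsConj y t := by
    intro y hy hy1 hc
    obtain ⟨c, hc⟩ := isConj_iff.mp hc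
    have hyy : y * y = 1 := by
      have h1 : c * (y * y) * c⁻¹ = 1 := by
        have h2 : c * (y * y) * c⁻¹ = (c * y * c⁻¹) * (c * y * c⁻¹) := by group
        rw [h2, hc, ht2]
      calc y * y = c⁻¹ * (c * (y * y) * c⁻¹) * c := by group
        _ = 1 := by rw [h1]; group
    have ho2 : orderOf y ∣ 2 := orderOf_dvd_of_pow_eq_one (by rw [pow_two]; exact hyy)
    have hop : orderOf y ∣ p := by
      have h1 : orderOf (⟨y, hy⟩ : P) ∣ Nat.card P := orderOf_dvd_natCard _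
      rwa [hP, ← Subgroup.orderOf_coe] at h1
    have hcop : Nat.Coprime 2 p := (Nat.coprime_primes Nat.prime_two hp.out).mpr (Ne.symm hp2)
    have h3 : orderOf y ∣ Nat.gcd 2 p := Nat.dvd_gcd ho2 hop
    rw [hcop] at h3
    exact hy1 (orderOf_eq_one_iff.mp (Nat.dvd_one.mp h3))
  -- values at `t`
  obtain ⟨a1, b1, hat, -⟩ := Cfsg.Agent.Lib.Helper62.irr_invol χ t ht2
  obtain ⟨a, ha⟩ : ∃ a : ℤ, a = (a1 : ℤ) - b1 := ⟨_, rfl⟩
  have hχt : (χ : G → ℂ) t = (a : ℂ) := by rw [hat, ha]; push_cast; ring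
  have hψt : (ψ : G → ℂ) t = (a : ℂ) + 1 := by
    have h1 := hvan t hnc
    rw [hχt] at h1
    linear_combination -h1
  obtain ⟨d, hd⟩ : ∃ d : ℕ, d = irrDeg χ := ⟨_, rfl⟩
  have hdpos : 0 < d := by rw [hd]; exact irrDeg_pos χ
  have hχ1' : (χ : G → ℂ) 1 = (d : ℂ) := by rw [irrDeg_spec, hd]
  have hψ1' : (ψ : G → ℂ) 1 = (d : ℂ) + 1 := by rw [irrDeg_spec, hdeg, hd]; push_cast; ring
  obtain ⟨N, hN⟩ : ∃ N : ℕ, N = Nat.card G := ⟨_, rfl⟩
  have hNpos : 0 < N := by rw [hN]; exact Nat.card_pos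
  obtain ⟨I, hI⟩ : ∃ I : ℕ, I = (Subgroup.centralizer ({t} : Set G)).index := ⟨_, rfl⟩
  obtain ⟨c, hc⟩ : ∃ c : ℕ, c = Nat.card (Subgroup.centralizer ({t} : Set G)) := ⟨_, rfl⟩
  have hcI : c * I = N := by
    rw [hc, hI, hN]
    exact Subgroup.card_mul_index _
  -- the class function `A`
  have hA : ∀ s : G, (N : ℂ) * ∑ g : G, ∑ h : G, (if IsConj t g then (1 : ℂ) else 0)
        * (if IsConj t h then (1 : ℂ) else 0) * (if g * h * s = 1 then (1 : ℂ) else 0)
      = ∑ φ : IrrCharacter G, ((I : ℂ) * (φ : G → ℂ) t) * ((I : ℂ) * (φ : G → ℂ) t)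
          * (φ : G → ℂ) s / (φ : G → ℂ) 1 := by
    intro s
    rw [hN, hI]
    convert Cfsg.Agent.Lib.Helper82.class_constant t t s using 2
  have hAP : ∀ y ∈ P, y ≠ 1 → ∑ φ : IrrCharacter G, ((I : ℂ) * (φ : G → ℂ) t)
      * ((I : ℂ) * (φ : G → ℂ) t) * (φ : G → ℂ) y / (φ : G → ℂ) 1 = (N : ℂ) * (p : ℂ) := by
    intro y hy hy1
    rw [← hA y]
    have h1 := exc2_inv_count P hoddP t ht2 htP y hy (hcentP y hy hy1)
    rw [hP] at h1
    rw [← h1]
  have hAcl : ∀ y s : G, IsConj y s → ∑ φ : IrrCharacter G, ((I : ℂ) * (φ : G → ℂ) t)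
      * ((I : ℂ) * (φ : G → ℂ) t) * (φ : G → ℂ) s / (φ : G → ℂ) 1 =
      ∑ φ : IrrCharacter G, ((I : ℂ) * (φ : G → ℂ) t)
      * ((I : ℂ) * (φ : G → ℂ) t) * (φ : G → ℂ) y / (φ : G → ℂ) 1 := by
    intro y s hys
    refine Finset.sum_congr rfl fun φ _ => ?_
    rw [irr_eq_of_isConj φ hys]
  -- the weighted sum, first evaluation
  have hw1 : ∀ s : G, conj (1 + (χ : G → ℂ) s - (ψ : G → ℂ) s) *
      ∑ φ : IrrCharacter G, ((I : ℂ) * (φ : G → ℂ) t) * ((I : ℂ) * (φ : G → ℂ) t)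
        * (φ : G → ℂ) s / (φ : G → ℂ) 1 =
      conj (1 + (χ : G → ℂ) s - (ψ : G → ℂ) s) * ((N : ℂ) * (p : ℂ)) := by
    intro s
    by_cases hs : ∃ y ∈ P, y ≠ 1 ∧ IsConj y s
    · obtain ⟨y, hy, hy1, hys⟩ := hs
      rw [hAcl y s hys, hAP y hy hy1]
    · push Not at hs
      rw [hvan s hs, map_zero, zero_mul, zero_mul]
  have horth : ∀ φ χ' : IrrCharacter G, ∑ s : G, (φ : G → ℂ) s * conj ((χ' : G → ℂ) s) =
      if φ = χ' then (N : ℂ) else 0 := by
    intro φ χ'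
    have h1 := classInner_irr φ χ'
    unfold classInner at h1
    have hN0 : (Nat.card G : ℂ) ≠ 0 := by
      rw [← hN]
      exact_mod_cast hNpos.ne'
    have h2 : ∑ s : G, (φ : G → ℂ) s * conj ((χ' : G → ℂ) s) =
        (Nat.card G : ℂ) * (if φ = χ' then (1 : ℂ) else 0) := by
      rw [← h1, ← mul_assoc, mul_inv_cancel₀ hN0, one_mul]
    rw [h2, ← hN]
    split_ifs <;> simp
  have hsumΞ : ∑ s : G, conj (1 + (χ : G → ℂ) s - (ψ : G → ℂ) s) = (N : ℂ) := by
    have h1 := horth trivIrr trivIrr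
    have h2 := horth trivIrr χ
    have h3 := horth trivIrr ψ
    rw [if_pos rfl] at h1
    rw [if_neg (Ne.symm hχ1)] at h2
    rw [if_neg (Ne.symm hψ1)] at h3
    simp only [trivIrr_apply, one_mul] at h1 h2 h3
    simp only [map_sub, map_add, map_one, Finset.sum_sub_distrib, Finset.sum_add_distrib]
    rw [h2, h3]
    simp only [map_one] at h1
    rw [h1]
    ring
  have hside1 : ∑ s : G, conj (1 + (χ : G → ℂ) s - (ψ : G → ℂ) s) *
      ∑ φ : IrrCharacter G, ((I : ℂ) * (φ : G → ℂ) t) * ((I : ℂ) * (φ : G → ℂ) t)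
        * (φ : G → ℂ) s / (φ : G → ℂ) 1 = (N : ℂ) * ((N : ℂ) * (p : ℂ)) := by
    rw [Finset.sum_congr rfl (fun s _ => hw1 s), ← Finset.sum_mul, hsumΞ]
  -- second evaluation
  have hside2 : ∑ s : G, conj (1 + (χ : G → ℂ) s - (ψ : G → ℂ) s) *
      ∑ φ : IrrCharacter G, ((I : ℂ) * (φ : G → ℂ) t) * ((I : ℂ) * (φ : G → ℂ) t)
        * (φ : G → ℂ) s / (φ : G → ℂ) 1 =
      (N : ℂ) * ((I : ℂ) * (I : ℂ) + (I : ℂ) * (a : ℂ) * ((I : ℂ) * (a : ℂ)) / (d : ℂ) -
        (I : ℂ) * ((a : ℂ) + 1) * ((I : ℂ) * ((a : ℂ) + 1)) / ((d : ℂ) + 1)) := by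
    have h1 : ∀ s : G, conj (1 + (χ : G → ℂ) s - (ψ : G → ℂ) s) *
        ∑ φ : IrrCharacter G, ((I : ℂ) * (φ : G → ℂ) t) * ((I : ℂ) * (φ : G → ℂ) t)
          * (φ : G → ℂ) s / (φ : G → ℂ) 1 =
        ∑ φ : IrrCharacter G, ((I : ℂ) * (φ : G → ℂ) t) * ((I : ℂ) * (φ : G → ℂ) t)
          / (φ : G → ℂ) 1 * ((φ : G → ℂ) s * conj ((trivIrr : IrrCharacter G).1 s) +
            (φ : G → ℂ) s * conj ((χ : G → ℂ) s) - (φ : G → ℂ) s * conj ((ψ : G → ℂ) s)) := by
      intro s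
      rw [Finset.mul_sum]
      refine Finset.sum_congr rfl fun φ _ => ?_
      rw [trivIrr_apply]
      simp only [map_sub, map_add, map_one]
      ring
    rw [Finset.sum_congr rfl (fun s _ => h1 s), Finset.sum_comm]
    have h2 : ∀ φ : IrrCharacter G, ∑ s : G, ((I : ℂ) * (φ : G → ℂ) t) * ((I : ℂ) * (φ : G → ℂ) t)
          / (φ : G → ℂ) 1 * ((φ : G → ℂ) s * conj ((trivIrr : IrrCharacter G).1 s) +
            (φ : G → ℂ) s * conj ((χ : G → ℂ) s) - (φ : G → ℂ) s * conj ((ψ : G → ℂ) s)) =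
        ((I : ℂ) * (φ : G → ℂ) t) * ((I : ℂ) * (φ : G → ℂ) t) / (φ : G → ℂ) 1 *
          ((if φ = trivIrr then (N : ℂ) else 0) + (if φ = χ then (N : ℂ) else 0) -
            (if φ = ψ then (N : ℂ) else 0)) := by
      intro φ
      rw [← Finset.mul_sum, Finset.sum_sub_distrib, Finset.sum_add_distrib, horth φ trivIrr,
        horth φ χ, horth φ ψ]
    rw [Finset.sum_congr rfl (fun φ _ => h2 φ)]
    simp only [mul_sub, mul_add, mul_ite, mul_zero, Finset.sum_sub_distrib,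
      Finset.sum_add_distrib, Finset.sum_ite_eq', Finset.mem_univ, if_true]
    rw [trivIrr_apply, trivIrr_apply, hχt, hψt, hχ1', hψ1']
    ring
  have hE := hside1.symm.trans hside2
  -- algebra
  have hN0 : (N : ℂ) ≠ 0 := by exact_mod_cast hNpos.ne'
  have hd0 : (d : ℂ) ≠ 0 := by exact_mod_cast hdpos.ne'
  have hd10 : (d : ℂ) + 1 ≠ 0 := by
    have : ((d + 1 : ℕ) : ℂ) ≠ 0 := by exact_mod_cast Nat.succ_ne_zero d
    simpa using this
  obtain ⟨X, hX⟩ : ∃ X : ℂ, X = (I : ℂ) * (a : ℂ) * ((I : ℂ) * (a : ℂ)) / (d : ℂ) := ⟨_, rfl⟩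
  obtain ⟨Y, hY⟩ : ∃ Y : ℂ, Y = (I : ℂ) * ((a : ℂ) + 1) * ((I : ℂ) * ((a : ℂ) + 1)) /
      ((d : ℂ) + 1) := ⟨_, rfl⟩
  have hx : X * (d : ℂ) = (I : ℂ) * (a : ℂ) * ((I : ℂ) * (a : ℂ)) := by
    rw [hX, div_mul_cancel₀ _ hd0]
  have hy : Y * ((d : ℂ) + 1) = (I : ℂ) * ((a : ℂ) + 1) * ((I : ℂ) * ((a : ℂ) + 1)) := by
    rw [hY, div_mul_cancel₀ _ hd10]
  rw [← hX, ← hY] at hE
  have h2 : (p : ℂ) * (N : ℂ) * (d : ℂ) * ((d : ℂ) + 1) = (I : ℂ) ^ 2 * ((d : ℂ) - (a : ℂ)) ^ 2 := by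
    apply mul_left_cancel₀ hN0
    linear_combination ((d : ℂ) * ((d : ℂ) + 1)) * hE + (N : ℂ) * ((d : ℂ) + 1) * hx -
      (N : ℂ) * (d : ℂ) * hy
  have hcIC : (c : ℂ) * (I : ℂ) = (N : ℂ) := by exact_mod_cast hcI
  have h3 : (p : ℂ) * (c : ℂ) ^ 2 * (d : ℂ) * ((d : ℂ) + 1) = (N : ℂ) * ((d : ℂ) - (a : ℂ)) ^ 2 := by
    apply mul_left_cancel₀ hN0
    linear_combination (c : ℂ) ^ 2 * h2 +
      ((d : ℂ) - (a : ℂ)) ^ 2 * ((c : ℂ) * (I : ℂ) + (N : ℂ)) * hcIC
  refine ⟨d, a, hdpos, ?_, ?_, ?_⟩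
  · rw [hd]; exact irrDeg_dvd χ
  · have := irrDeg_dvd ψ
    rwa [hdeg, ← hd] at this
  · rw [← hc, ← hN]
    exact_mod_cast h3

/-- `c² d (d + 1)` is not a perfect square. -/
theorem exc2_not_sq (c d : ℕ) (k : ℤ) (hc : 0 < c) (hd : 0 < d)
    (h : (c : ℤ) ^ 2 * d * (d + 1) = k ^ 2) : False := by
  obtain ⟨j, hj⟩ : ∃ j : ℕ, j = k.natAbs := ⟨_, rfl⟩
  have h1 : c ^ 2 * (d * (d + 1)) = j ^ 2 := by
    have h2 : ((c ^ 2 * (d * (d + 1)) : ℕ) : ℤ) = ((j ^ 2 : ℕ) : ℤ) := by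
      push_cast
      rw [hj, Int.natCast_natAbs, sq_abs, ← h]
      ring
    exact_mod_cast h2
  have hdvd : c ∣ j := by
    have h2 : c ^ 2 ∣ j ^ 2 := ⟨d * (d + 1), h1.symm⟩
    exact (Nat.pow_dvd_pow_iff (by norm_num)).mp h2
  obtain ⟨m, rfl⟩ := hdvd
  have h3 : d * (d + 1) = m ^ 2 := by
    have h4 : c ^ 2 * (d * (d + 1)) = c ^ 2 * m ^ 2 := by rw [h1]; ring
    exact Nat.eq_of_mul_eq_mul_left (by positivity) h4
  have h5 : d < m := by
    by_contra hcon
    push Not at hcon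
    have : m ^ 2 ≤ d ^ 2 := Nat.pow_le_pow_left hcon 2
    nlinarith
  have h6 : m < d + 1 := by
    by_contra hcon
    push Not at hcon
    have : (d + 1) ^ 2 ≤ m ^ 2 := Nat.pow_le_pow_left hcon 2
    nlinarith
  omega

end Cfsg.Agent.Lib.Helper20
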