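import Mathlib
import Cfsg.Agent.Lib.Helper47.S76Defs

/-!
# Piece QDEX of the S76 project (helper47, S5976): existence of the quadratic extension data
for an irreducible polynomial `X² - 2aX + 1`
-/

set_option autoImplicit false

universe u

namespace Cfsg.Agent.Lib.Helper20.S76QDEX

open Matrix Polynomial Cfsg.Agent.Lib.Helper47 Cfsg.Agent.Lib.Helper47.S76

variable {F : Type u} [Field F]

/-- the abstract part: a quadratic extension `K = F + F ω`, `ω² - bω + 1 = 0`, with the
coefficient functional at `ω` -/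
theorem qdex_core [Fintype F] {K : Type u} [Field K] [Fintype K] [Algebra F K] {q : ℕ}
    (hq : Fintype.card F = q) (h2 : (2 : F) ≠ 0) (b : F) (ω : K) (τ : K →ₗ[F] F)
    (cardK : Fintype.card K = q ^ 2)
    (root : ω * ω - algebraMap F K b * ω + 1 = 0)
    (coef : ∀ α β : F, τ (algebraMap F K α + algebraMap F K β * ω) = β)
    (rep : ∀ z : K, ∃ α β : F, z = algebraMap F K α + algebraMap F K β * ω) :
    QuadData F K q ω τ := by
  obtain ⟨σ, hσq, -, -, -, x, -, -, -, hx⟩ := exists_unitary_data K q cardK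
  have hmapq : ∀ c : F, (algebraMap F K c) ^ q = algebraMap F K c := by
    intro c
    rw [← map_pow, ← hq, FiniteField.pow_card]
  have haddq : ∀ y z : K, (y + z) ^ q = y ^ q + z ^ q := by
    intro y z
    rw [← hσq, ← hσq, ← hσq, map_add]
  have hrootq : ω ^ q * ω ^ q - algebraMap F K b * ω ^ q + 1 = 0 := by
    have h := congrArg σ root
    rw [map_add, map_sub, map_mul, map_mul, map_one, map_zero, hσq ω,
      hσq (algebraMap F K b), hmapq] at h
    exact h
  have hcase : ω ^ q = ω ∨ ω ^ q = algebraMap F K b - ω := by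
    have h : (ω ^ q - ω) * (ω ^ q + ω - algebraMap F K b) = 0 := by
      linear_combination hrootq - root
    rcases mul_eq_zero.mp h with h | h
    · left; exact sub_eq_zero.mp h
    · right; linear_combination h
  have hωq : ω ^ q = algebraMap F K b - ω := by
    rcases hcase with h | h
    · exfalso
      apply hx
      obtain ⟨α, β, rfl⟩ := rep x
      rw [hσq, haddq, mul_pow, hmapq, hmapq, h]
    · exact h
  refine ⟨hq, cardK, rep, ?_, ?_, ?_, h2⟩
  · rw [hωq]; linear_combination -root
  · intro z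
    obtain ⟨α, β, rfl⟩ := rep z
    rw [haddq, mul_pow, hmapq, hmapq, hωq, coef]
    have h : algebraMap F K α + algebraMap F K β * (algebraMap F K b - ω)
        = algebraMap F K (α + β * b) + algebraMap F K (-β) * ω := by
      rw [map_add, map_mul, map_neg]; ring
    rw [h, coef]
  · intro w hw
    obtain ⟨α, β, rfl⟩ := rep w
    have h1 := hw 1
    rw [one_mul, coef] at h1
    have h2' := hw ω
    have h3 : ω * (algebraMap F K α + algebraMap F K β * ω)
        = algebraMap F K (-β) + algebraMap F K (α + β * b) * ω := by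
      rw [map_add, map_mul, map_neg]
      linear_combination (algebraMap F K β) * root
    rw [h3, coef, h1, zero_mul, add_zero] at h2'
    rw [h1, h2']
    simp

lemma qdex_natDegree (b : F) : (X ^ 2 - C b * X + 1 : F[X]).natDegree = 2 := by
  compute_degree!

lemma qdex_monic (b : F) : (X ^ 2 - C b * X + 1 : F[X]).Monic := by
  monicity!

lemma qdex_irreducible (b : F) (hirr : ∀ c : F, c * c - b * c + 1 ≠ 0) :
    Irreducible (X ^ 2 - C b * X + 1 : F[X]) := by
  apply Polynomial.irreducible_of_degree_le_three_of_not_isRoot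
  · rw [qdex_natDegree]
    decide
  · intro c hc
    rw [IsRoot.def] at hc
    simp only [eval_add, eval_sub, eval_mul, eval_pow, eval_X, eval_C, eval_one] at hc
    apply hirr c
    linear_combination hc

/-- the construction for a general middle coefficient -/
theorem qdex_exists [Fintype F] {q : ℕ} (hq : Fintype.card F = q) (h2 : (2 : F) ≠ 0) (b : F)
    (hirr : ∀ c : F, c * c - b * c + 1 ≠ 0) :
    ∃ (K : Type u) (_ : Field K) (_ : Fintype K) (_ : Algebra F K) (ω : K) (τ : K →ₗ[F] F),
      QuadData F K q ω τ ∧ ω * ω - algebraMap F K b * ω + 1 = 0 := by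
  classical
  have hfi := qdex_irreducible b hirr
  have hfm : (X ^ 2 - C b * X + 1 : F[X]).Monic := qdex_monic b
  have hfd : (X ^ 2 - C b * X + 1 : F[X]).natDegree = 2 := qdex_natDegree b
  have : Fact (Irreducible (X ^ 2 - C b * X + 1 : F[X])) := ⟨hfi⟩
  have : Module.Finite F (AdjoinRoot (X ^ 2 - C b * X + 1 : F[X])) :=
    (AdjoinRoot.powerBasis hfm.ne_zero).finite
  have : Finite (AdjoinRoot (X ^ 2 - C b * X + 1 : F[X])) := Module.finite_of_finite F
  let _ : Fintype (AdjoinRoot (X ^ 2 - C b * X + 1 : F[X])) := Fintype.ofFinite _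
  have hroot : AdjoinRoot.root (X ^ 2 - C b * X + 1 : F[X]) *
      AdjoinRoot.root (X ^ 2 - C b * X + 1 : F[X]) -
      algebraMap F (AdjoinRoot (X ^ 2 - C b * X + 1 : F[X])) b *
        AdjoinRoot.root (X ^ 2 - C b * X + 1 : F[X]) + 1 = 0 := by
    have h := AdjoinRoot.mk_self (f := (X ^ 2 - C b * X + 1 : F[X]))
    rw [map_add, map_sub, map_mul, map_pow, AdjoinRoot.mk_X, AdjoinRoot.mk_C, map_one] at h
    rw [AdjoinRoot.algebraMap_eq]
    linear_combination h
  have hmk : ∀ α β : F, algebraMap F (AdjoinRoot (X ^ 2 - C b * X + 1 : F[X])) α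
      + algebraMap F (AdjoinRoot (X ^ 2 - C b * X + 1 : F[X])) β *
        AdjoinRoot.root (X ^ 2 - C b * X + 1 : F[X])
      = AdjoinRoot.mk (X ^ 2 - C b * X + 1 : F[X]) (C α + C β * X) := by
    intro α β
    rw [map_add, map_mul, AdjoinRoot.mk_X, AdjoinRoot.mk_C, AdjoinRoot.mk_C,
      AdjoinRoot.algebraMap_eq]
  refine ⟨AdjoinRoot (X ^ 2 - C b * X + 1 : F[X]), inferInstance, inferInstance,
    inferInstance, AdjoinRoot.root _, frobFun (X ^ 2 - C b * X + 1 : F[X]) hfm, ?_, hroot⟩
  refine qdex_core hq h2 b _ _ ?_ hroot ?_ ?_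
  · rw [Module.card_eq_pow_finrank (K := F), hq, (AdjoinRoot.powerBasis hfm.ne_zero).finrank,
      AdjoinRoot.powerBasis_dim, hfd]
  · intro α β
    rw [hmk, frobFun, LinearMap.comp_apply, AdjoinRoot.modByMonicHom_mk, hfd]
    have hlt : (C α + C β * X : F[X]).degree < (X ^ 2 - C b * X + 1 : F[X]).degree := by
      rw [degree_eq_natDegree hfm.ne_zero, hfd]
      have h1 : (C α + C β * X : F[X]).natDegree ≤ 1 := by compute_degree
      refine lt_of_le_of_lt (degree_le_of_natDegree_le h1) ?_
      exact_mod_cast (by norm_num : (1 : ℕ) < 2)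
    rw [(modByMonic_eq_self_iff hfm).mpr hlt, lcoeff_apply]
    simp
  · intro z
    obtain ⟨r, hr⟩ : ∃ r, r = AdjoinRoot.modByMonicHom hfm z := ⟨_, rfl⟩
    have hz : AdjoinRoot.mk (X ^ 2 - C b * X + 1 : F[X]) r = z := by
      rw [hr]
      exact AdjoinRoot.mk_leftInverse hfm z
    have hdeg : r.natDegree ≤ 1 := by
      obtain ⟨p, rfl⟩ := AdjoinRoot.mk_surjective z
      rw [hr, AdjoinRoot.modByMonicHom_mk]
      have h1 : (X ^ 2 - C b * X + 1 : F[X]) ≠ 1 := by
        intro h
        have := congrArg natDegree h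
        rw [hfd, natDegree_one] at this
        omega
      have := natDegree_modByMonic_lt p hfm h1
      rw [hfd] at this
      omega
    refine ⟨r.coeff 0, r.coeff 1, ?_⟩
    rw [hmk, ← hz]
    congr 1
    conv_lhs => rw [eq_X_add_C_of_natDegree_le_one hdeg]
    ring

/-- PIECE QDEX -/
theorem exists_quadData [Fintype F] {q : ℕ} (hq : Fintype.card F = q) (h2 : (2 : F) ≠ 0) (a : F)
    (hirr : ∀ c : F, c * c - 2 * a * c + 1 ≠ 0) :
    ∃ (K : Type u) (_ : Field K) (_ : Fintype K) (_ : Algebra F K) (ω : K) (τ : K →ₗ[F] F),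
      QuadData F K q ω τ ∧ ω * ω - algebraMap F K (2 * a) * ω + 1 = 0 :=
  qdex_exists hq h2 (2 * a) hirr

end Cfsg.Agent.Lib.Helper20.S76QDEX
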